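import Cfsg.Agent.H99.Aschbacher.FormTools
import Cfsg.Agent.H3.PSUThreeTwo

/-!
The tensor square of a unitary space of dimension three over the field of four elements: the stabiliser
normalises an extraspecial group of order 243 and exponent three.
-/

set_option autoImplicit false

open scoped MatrixGroups Matrix Kronecker

namespace Cfsg.Agent.H99.Asch

open Cfsg.Geo

namespace SmallU

variable {F : Type*} [Field F]

/-- The powers of a cube root of unity. -/
def chi (ω : F) (a : Fin 3) : F := ω ^ (a : ℕ)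

/-- The monomial matrix with exponents i, j and shift k. -/
def mon (ω : F) (p : Fin 3 × Fin 3 × Fin 3) : Matrix (Fin 3) (Fin 3) F :=
  Matrix.of fun r c => if c = r + p.2.2 then chi ω (p.1 + p.2.1 * r) else 0

/-- The product of exponent triples. -/
def op (p p' : Fin 3 × Fin 3 × Fin 3) : Fin 3 × Fin 3 × Fin 3 :=
  (p.1 + p'.1 + p'.2.1 * p.2.2, p.2.1 + p'.2.1, p.2.2 + p'.2.2)

/-- The matrix moving every line of the extraspecial quotient. -/
def amat (ω : F) : Matrix (Fin 3) (Fin 3) F := !![ω ^ 2, ω, 1; ω, ω ^ 2, 1; 1, 1, 1]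

variable {ω : F}

lemma chi_add (h3 : ω ^ 3 = 1) (a b : Fin 3) : chi ω (a + b) = chi ω a * chi ω b := by
  rw [chi, chi, chi, ← pow_add, Fin.val_add]
  conv_rhs => rw [← Nat.mod_add_div ((a : ℕ) + b) 3, pow_add, pow_mul, h3, one_pow, mul_one]

lemma chi_zero : chi ω 0 = 1 := pow_zero ω

lemma chi_ne_zero (h0 : ω ≠ 0) (a : Fin 3) : chi ω a ≠ 0 := pow_ne_zero _ h0

lemma chi_injective (h3 : ω ^ 3 = 1) (h1 : ω ≠ 1) : Function.Injective (chi ω) := by
  have : Fact (Nat.Prime 3) := ⟨Nat.prime_three⟩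
  intro a b h
  have ho : orderOf ω = 3 := orderOf_eq_prime h3 h1
  exact Fin.ext (pow_injOn_Iio_orderOf (by simp [ho]) (by simp [ho]) h)

lemma mon_mul (h3 : ω ^ 3 = 1) (p p' : Fin 3 × Fin 3 × Fin 3) : mon ω p * mon ω p' = mon ω (op p p') := by
  ext r c
  rw [Matrix.mul_apply, Finset.sum_eq_single (r + p.2.2)]
  · simp only [op]
    simp only [mon, Matrix.of_apply, if_pos, mul_ite, mul_zero]
    by_cases hc : c = r + p.2.2 + p'.2.2
    · rw [if_pos hc, if_pos (by rw [hc, add_assoc]), ← chi_add h3]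
      congr 1
      have key : ∀ i j i' j' k r : Fin 3, i + j * r + (i' + j' * (r + k)) = i + i' + j' * k + (j + j') * r := by
        decide
      exact key _ _ _ _ _ _
    · rw [if_neg hc, if_neg (by rwa [← add_assoc])]
  · intro b _ hb
    simp [mon, hb]
  · simp

lemma mon_one : mon ω (0, 0, 0) = 1 := by
  ext r c
  simp [mon, Matrix.one_apply, chi_zero, eq_comm]

lemma mon_injective (h3 : ω ^ 3 = 1) (h1 : ω ≠ 1) (h0 : ω ≠ 0) : Function.Injective (mon ω) := by
  rintro ⟨i, j, k⟩ ⟨i', j', k'⟩ h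
  have e0 := congrFun (congrFun h 0) k
  simp only [mon, Matrix.of_apply, zero_add, mul_zero, add_zero, if_pos] at e0
  have hk : k = k' := by
    by_contra hk
    rw [if_neg hk] at e0
    exact chi_ne_zero h0 _ e0
  subst hk
  rw [if_pos rfl] at e0
  obtain rfl := chi_injective h3 h1 e0
  have e1 := congrFun (congrFun h 1) (1 + k)
  simp only [mon, Matrix.of_apply, if_pos, mul_one] at e1
  obtain rfl := add_left_cancel (chi_injective h3 h1 e1)
  rfl

lemma det_mon (h3 : ω ^ 3 = 1) (p : Fin 3 × Fin 3 × Fin 3) : (mon ω p).det = 1 := by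
  obtain ⟨i, j, k⟩ := p
  have key : ∀ i j : Fin 3, (i + j * 0) + (i + j * 1) + (i + j * 2) = 0 := by decide
  have hp : chi ω i * chi ω (i + j) * chi ω (i + j * 2) = 1 := by
    rw [← chi_add h3, ← chi_add h3]
    have := key i j
    rw [mul_zero, add_zero, mul_one] at this
    rw [this, chi_zero]
  rw [Matrix.det_fin_three]
  fin_cases k <;> simp [mon] <;> linear_combination hp

lemma mon_cube (h3 : ω ^ 3 = 1) (p : Fin 3 × Fin 3 × Fin 3) : mon ω p ^ 3 = 1 := by
  rw [pow_succ, sq, mon_mul h3, mon_mul h3, ← mon_one (ω := ω)]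
  congr 1
  have key : ∀ p : Fin 3 × Fin 3 × Fin 3, op (op p p) p = (0, 0, 0) := by decide
  exact key p

lemma amat_mon (htwo : (2 : F) = 0) (h2 : ω ^ 2 + ω + 1 = 0) (h3 : ω ^ 3 = 1) (p : Fin 3 × Fin 3 × Fin 3) :
    amat ω * mon ω p =
      mon ω (p.1 + 2 * p.2.1 + p.2.2 + p.2.2 * (2 * p.2.1), p.2.2, 2 * p.2.1) * amat ω := by
  obtain ⟨i, j, k⟩ := p
  have hi : amat ω * mon ω (i, 0, 0) = mon ω (i, 0, 0) * amat ω := by
    ext r c; fin_cases r <;> fin_cases c <;> simp [amat, mon, Matrix.mul_apply, Fin.sum_univ_three] <;> ring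
  have hj : ∀ j, amat ω * mon ω (0, j, 0) = mon ω (2 * j, 0, 2 * j) * amat ω := by
    intro j
    ext r c
    fin_cases j <;> fin_cases r <;> fin_cases c <;>
      simp [amat, mon, chi, Matrix.mul_apply, Fin.sum_univ_three] <;> grind
  have hk : ∀ k, amat ω * mon ω (0, 0, k) = mon ω (k, k, 0) * amat ω := by
    intro k
    ext r c
    fin_cases k <;> fin_cases r <;> fin_cases c <;>
      simp [amat, mon, chi, Matrix.mul_apply, Fin.sum_univ_three] <;> grind
  have hdec : ∀ i j k : Fin 3, op (op (i, 0, 0) (0, j, 0)) (0, 0, k) = (i, j, k) ∧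
      op (op (i, 0, 0) (2 * j, 0, 2 * j)) (k, k, 0) = (i + 2 * j + k + k * (2 * j), k, 2 * j) := by decide
  obtain ⟨e1, e2⟩ := hdec i j k
  calc amat ω * mon ω (i, j, k)
      = amat ω * mon ω (i, 0, 0) * mon ω (0, j, 0) * mon ω (0, 0, k) := by
        rw [mul_assoc, mul_assoc, ← mul_assoc (mon ω (i, 0, 0)), mon_mul h3, mon_mul h3, e1]
    _ = mon ω (i, 0, 0) * mon ω (2 * j, 0, 2 * j) * mon ω (k, k, 0) * amat ω := by
        rw [hi, mul_assoc (mon ω (i, 0, 0)) (amat ω), hj, ← mul_assoc, mul_assoc _ (amat ω), hk, ← mul_assoc]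
    _ = _ := by rw [mon_mul h3, mon_mul h3, e2]

variable [Fintype F]

lemma mon_unitary (hF : Fintype.card F = 2 ^ 2) (h3 : ω ^ 3 = 1) (p : Fin 3 × Fin 3 × Fin 3) :
    (mon ω p)ᵀ * (mon ω p).map (H3.conjQ hF) = 1 := by
  obtain ⟨i, j, k⟩ := p
  have hn : ∀ a, chi ω a * chi ω a ^ 2 = 1 := fun a => by
    rw [chi, ← pow_succ', ← pow_mul, mul_comm, pow_mul, h3, one_pow]
  ext r c
  fin_cases k <;> fin_cases r <;> fin_cases c <;> simp [mon, Matrix.mul_apply, Fin.sum_univ_three, hn]

lemma amat_unitary (hF : Fintype.card F = 2 ^ 2) (htwo : (2 : F) = 0) (h2 : ω ^ 2 + ω + 1 = 0) :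
    (amat ω)ᵀ * (amat ω).map (H3.conjQ hF) = 1 := by
  ext r c
  fin_cases r <;> fin_cases c <;> simp [amat, Matrix.mul_apply, Fin.sum_univ_three] <;> grind

lemma mem_GU_of_unitary (hF : Fintype.card F = 2 ^ 2) {n : ℕ} {g : GL (Fin n) F}
    (h : (g : Matrix (Fin n) (Fin n) F)ᵀ * (g : Matrix (Fin n) (Fin n) F).map (H3.conjQ hF) = 1) :
    g ∈ GU n F 2 := by
  intro u v
  have e : ∀ u v : Fin n → F, hermForm n F 2 u v = gramForm (H3.conjQ hF) 1 u v := fun u v => by
    rw [gramForm, Matrix.one_mulVec]; rfl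
  simp only [Units.coeHom_apply]
  rw [e, e, gramForm_mulVec, mul_one, h]

lemma unitary_of_mem_GU (hF : Fintype.card F = 2 ^ 2) {n : ℕ} {g : GL (Fin n) F} (h : g ∈ GU n F 2) :
    (g : Matrix (Fin n) (Fin n) F)ᵀ * (g : Matrix (Fin n) (Fin n) F).map (H3.conjQ hF) = 1 := by
  refine eq_of_gramForm_eq (H3.conjQ hF) fun u v => ?_
  have e : ∀ u v : Fin n → F, hermForm n F 2 u v = gramForm (H3.conjQ hF) 1 u v := fun u v => by
    rw [gramForm, Matrix.one_mulVec]; rfl
  have := h u v
  simp only [Units.coeHom_apply] at this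
  rwa [e, e, gramForm_mulVec, mul_one] at this

/-- A monomial matrix as an invertible matrix. -/
noncomputable def monGL (h3 : ω ^ 3 = 1) (p : Fin 3 × Fin 3 × Fin 3) : GL (Fin 3) F :=
  Matrix.GeneralLinearGroup.mkOfDetNeZero (mon ω p) (by rw [det_mon h3]; exact one_ne_zero)

lemma coe_monGL (h3 : ω ^ 3 = 1) (p : Fin 3 × Fin 3 × Fin 3) :
    (monGL h3 p : Matrix (Fin 3) (Fin 3) F) = mon ω p := rfl

/-- The monomial group is normal in the unitary group. -/
theorem mon_normal (hF : Fintype.card F = 2 ^ 2) (h3 : ω ^ 3 = 1) (h1 : ω ≠ 1) (h0 : ω ≠ 0)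
    {a : GL (Fin 3) F} (ha : a ∈ GU 3 F 2) (p : Fin 3 × Fin 3 × Fin 3) :
    ∃ p', (a : Matrix (Fin 3) (Fin 3) F) * mon ω p = mon ω p' * (a : Matrix (Fin 3) (Fin 3) F) := by
  classical
  obtain ⟨E, hEn, -, hE27, -, ⟨e⟩⟩ := H3.su_three_two_structure hF
  have hQ : ∀ x : SU 3 F 2, x ^ 3 = 1 → x ∈ E := by
    intro x hx
    have h8 : orderOf (QuotientGroup.mk x : SU 3 F 2 ⧸ E) ∣ 8 := by
      have := orderOf_dvd_natCard (QuotientGroup.mk x : SU 3 F 2 ⧸ E)
      rwa [Nat.card_congr e.toEquiv, Nat.card_eq_fintype_card, QuaternionGroup.card] at this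
    have h3' : orderOf (QuotientGroup.mk x : SU 3 F 2 ⧸ E) ∣ 3 :=
      orderOf_dvd_of_pow_eq_one (by rw [← QuotientGroup.mk_pow, hx, QuotientGroup.mk_one])
    have := Nat.dvd_gcd h8 h3'
    rw [show Nat.gcd 8 3 = 1 from rfl, Nat.dvd_one, orderOf_eq_one_iff] at this
    exact (QuotientGroup.eq_one_iff x).1 this
  let ψ : ∀ M : Matrix (Fin 3) (Fin 3) F, M.det = 1 → Mᵀ * M.map (H3.conjQ hF) = 1 → SU 3 F 2 :=
    fun M hd hu => ⟨⟨M, hd⟩, H3.mem_SU_iff.2 fun u v => by
      have := mem_GU_of_unitary hF (g := Matrix.GeneralLinearGroup.mkOfDetNeZero M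
        (by rw [hd]; exact one_ne_zero)) hu
      exact this u v⟩
  have hψcube : ∀ M hd hu, M ^ 3 = 1 → (ψ M hd hu) ^ 3 = 1 := fun M hd hu h => by
    apply Subtype.ext
    apply Subtype.ext
    rw [SubmonoidClass.coe_pow, Matrix.SpecialLinearGroup.coe_pow]
    exact h
  let Ψ : Fin 3 × Fin 3 × Fin 3 → E := fun p =>
    ⟨ψ (mon ω p) (det_mon h3 p) (mon_unitary hF h3 p), hQ _ (hψcube _ (det_mon h3 p) (mon_unitary hF h3 p) (mon_cube h3 p))⟩
  have hΨ : Function.Bijective Ψ := (Nat.bijective_iff_injective_and_card Ψ).2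
    ⟨fun x y h => mon_injective h3 h1 h0 (congrArg (fun z : E => (z.1.1 : Matrix (Fin 3) (Fin 3) F)) h),
      by rw [hE27]; simp⟩
  let y : GL (Fin 3) F := a * monGL h3 p * a⁻¹
  have hyU : (y : Matrix (Fin 3) (Fin 3) F)ᵀ * (y : Matrix (Fin 3) (Fin 3) F).map (H3.conjQ hF) = 1 :=
    unitary_of_mem_GU hF ((GU 3 F 2).mul_mem
    ((GU 3 F 2).mul_mem ha (mem_GU_of_unitary hF (g := monGL h3 p) (mon_unitary hF h3 p))) (inv_mem ha))
  have hyd : (y : Matrix (Fin 3) (Fin 3) F).det = 1 := by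
    show ((a * monGL h3 p * a⁻¹ : GL (Fin 3) F) : Matrix (Fin 3) (Fin 3) F).det = 1
    rw [Units.val_mul, Units.val_mul, Matrix.det_units_conj, coe_monGL, det_mon h3]
  have hy3 : (y : Matrix (Fin 3) (Fin 3) F) ^ 3 = 1 := by
    have h4 : monGL h3 p ^ 3 = 1 := Units.ext (by rw [Units.val_pow_eq_pow_val, coe_monGL, mon_cube h3]; rfl)
    rw [← Units.val_pow_eq_pow_val, show y ^ 3 = 1 by rw [conj_pow, h4]; simp, Units.val_one]
  obtain ⟨p', hp'⟩ := hΨ.2 ⟨ψ _ hyd hyU, hQ _ (hψcube _ hyd hyU hy3)⟩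
  refine ⟨p', ?_⟩
  have h5 : mon ω p' = (y : Matrix (Fin 3) (Fin 3) F) :=
    congrArg (fun z : E => (z.1.1 : Matrix (Fin 3) (Fin 3) F)) hp'
  rw [h5]
  show (a : Matrix (Fin 3) (Fin 3) F) * mon ω p =
    ((a * monGL h3 p * a⁻¹ : GL (Fin 3) F) : Matrix (Fin 3) (Fin 3) F) * a
  rw [← Units.val_mul, inv_mul_cancel_right, Units.val_mul, coe_monGL]

variable {ι : Type} [Fintype ι] [DecidableEq ι]

/-- The stabiliser of the tensor square normalises an extraspecial group of order 243. -/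
theorem small_typeTwo (hF : Fintype.card F = 2 ^ 2) (e : ι ≃ Fin 3 × Fin 3) (D : FormData ι F)
    (hσ : D.σ = H3.conjQ hF) (P : GL ι F) {c : F} (hc : c ≠ 0)
    (hgram : D.gramAt P = c • (1 : Matrix ι ι F)) {H : Subgroup (GL ι F)} (hH : H ≤ D.isom)
    (hle : H ≤ tensorProductSubgroup 3 3 e P) :
    ∃ R : Subgroup (GL ι F), IsSymplecticTypeGroup 3 R ∧ ActsAbsolutelyIrreducibly (matrixSet R) ∧ R ≤ D.isom ∧
      Nat.card (Subgroup.center R) = 3 ∧ Nat.card R = 243 ∧ IsMinimalFieldFor 3 2 2 F ∧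
      H ≤ subgroupNormalizer R := by
  classical
  obtain ⟨ω, htwo, hω2, hω3, hω0, hω1, hall⟩ := H3.exists_omega hF
  let σ := H3.conjQ hF
  have hchar : CharP F 2 := CharTwo.of_one_ne_zero_of_two_eq_zero one_ne_zero htwo
  have hall' : ∀ x : F, x ≠ 0 → ∃ a : Fin 3, x = chi ω a := hall
  let T : (Fin 3 × Fin 3 × Fin 3) → (Fin 3 × Fin 3 × Fin 3) → Matrix ι ι F := fun p p' =>
    tens e (mon ω p) (mon ω p')
  have hTmul : ∀ p p' r r', T p p' * T r r' = T (op p r) (op p' r') := fun p p' r r' => by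
    show tens e _ _ * tens e _ _ = tens e _ _
    rw [tens_mul, mon_mul hω3, mon_mul hω3]
  have hT1 : T (0, 0, 0) (0, 0, 0) = 1 := by
    show tens e _ _ = _
    rw [mon_one, tens_one]
  let g : (Fin 3 × Fin 3 × Fin 3) → (Fin 3 × Fin 3 × Fin 3) → GL ι F := fun p p' =>
    P * tensUnit e (monGL hω3 p) (monGL hω3 p') * P⁻¹
  have hg : ∀ p p', ((P⁻¹ * g p p' * P : GL ι F) : Matrix ι ι F) = T p p' := fun p p' => by
    rw [show P⁻¹ * g p p' * P = tensUnit e (monGL hω3 p) (monGL hω3 p') by simp [g, mul_assoc]]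
    rfl
  have hgmul : ∀ p p' r r', g p p' * g r r' = g (op p r) (op p' r') := fun p p' r r' => by
    have h1 : tensUnit e (monGL hω3 p) (monGL hω3 p') * tensUnit e (monGL hω3 r) (monGL hω3 r') =
        tensUnit e (monGL hω3 (op p r)) (monGL hω3 (op p' r')) := Units.ext (hTmul p p' r r')
    simp only [g]
    rw [← h1]
    group
  have hg1 : g (0, 0, 0) (0, 0, 0) = 1 := by
    simp only [g]
    rw [show tensUnit e (monGL hω3 (0, 0, 0)) (monGL hω3 (0, 0, 0)) = 1 from Units.ext hT1]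
    group
  have hcube : ∀ p p', g p p' ^ 3 = 1 := fun p p' => by
    have key : ∀ p : Fin 3 × Fin 3 × Fin 3, op (op p p) p = (0, 0, 0) := by decide
    rw [pow_succ, sq, hgmul, hgmul, key, key, hg1]
  let R : Subgroup (GL ι F) :=
    { carrier := {x | ∃ p p', x = g p p'}
      one_mem' := ⟨(0, 0, 0), (0, 0, 0), hg1.symm⟩
      mul_mem' := by
        rintro _ _ ⟨p, p', rfl⟩ ⟨r, r', rfl⟩
        exact ⟨_, _, hgmul p p' r r'⟩
      inv_mem' := by
        rintro _ ⟨p, p', rfl⟩
        refine ⟨op p p, op p' p', inv_eq_of_mul_eq_one_right ?_⟩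
        rw [← hgmul p p' p p', ← mul_assoc]
        simpa [pow_succ] using hcube p p' }
  -- the scalars of R
  have hscal : ∀ p p' : Fin 3 × Fin 3 × Fin 3, ∀ x : F, T p p' = x • 1 →
      p.2 = (0, 0) ∧ p'.2 = (0, 0) := by
    intro p p' x h
    have hm : ∀ q : Fin 3 × Fin 3 × Fin 3, mon ω q ≠ 0 := fun q e0 => by
      have := det_mon hω3 q
      rw [e0, Matrix.det_zero] at this
      exact zero_ne_one this
    have hx : x ≠ 0 := fun e0 => by
      have := congrArg (fun M => M * T (op p p) (op p' p')) h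
      simp only [hTmul, e0, zero_smul, zero_mul] at this
      have key : ∀ p : Fin 3 × Fin 3 × Fin 3, op p (op p p) = (0, 0, 0) := by decide
      rw [key, key, hT1] at this
      have hne : Nonempty ι := ⟨e.symm (0, 0)⟩
      exact one_ne_zero this
    have h' : tens e (mon ω p) (mon ω p') = tens e (x • (1 : Matrix (Fin 3) (Fin 3) F)) 1 := by
      rw [tens_smul_left, tens_one]; exact h
    obtain ⟨y, -, e1, e2⟩ := tens_eq_tens e (smul_ne_zero hx one_ne_zero) one_ne_zero h'
    rw [smul_smul] at e1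
    have key : ∀ (q : Fin 3 × Fin 3 × Fin 3) (z : F), mon ω q = z • 1 → q.2 = (0, 0) := by
      intro q z hz
      obtain ⟨a, ha⟩ : ∃ a, z = chi ω a := hall' z fun e0 => hm q (by rw [hz, e0, zero_smul])
      have : mon ω q = mon ω (a, 0, 0) := by
        rw [hz]
        ext r c
        simp [mon, Matrix.one_apply, ha, eq_comm]
      rw [mon_injective hω3 hω1 hω0 this]
    exact ⟨key p _ e1, key p' _ e2⟩
  have hz : ∀ x : F, x ≠ 0 → ∀ z : GL ι F, (z : Matrix ι ι F) = x • 1 → z ∈ R := by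
    intro x hx z hz
    obtain ⟨a, ha⟩ := hall' x hx
    refine ⟨(a, 0, 0), (0, 0, 0), ?_⟩
    have h1 : mon ω (a, 0, 0) = x • 1 := by
      ext r c
      simp [mon, Matrix.one_apply, ha, eq_comm]
    have h2 : T (a, 0, 0) (0, 0, 0) = x • 1 := by
      show tens e _ _ = _
      rw [mon_one, h1, tens_smul_left, tens_one]
    have h3 : z = tensUnit e (monGL hω3 (a, 0, 0)) (monGL hω3 (0, 0, 0)) := Units.ext (hz.trans h2.symm)
    have h4 : z * P = P * z := scalars_commute (mem_scalars_of_smul hz) P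
    simp only [g]
    rw [← h3, ← h4, mul_inv_cancel_right]
  -- absolute irreducibility
  have hone : ∀ q : Fin 3, ∃ a b : F, ∀ r : Fin 3,
      1 + a * chi ω r + b * chi ω (2 * r) = if r = q then 1 else 0 := by
    intro q
    refine ⟨chi ω (2 * q), chi ω q, fun r => ?_⟩
    fin_cases q <;> fin_cases r <;> simp [chi] <;> grind
  have hEij : ∀ i j : Fin 3, Matrix.single i j (1 : F) ∈ Submodule.span F (Set.range (mon ω)) := by
    intro i j
    obtain ⟨a, b, hab⟩ := hone i
    have : Matrix.single i j (1 : F) =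
        mon ω (0, 0, j - i) + a • mon ω (0, 1, j - i) + b • mon ω (0, 2, j - i) := by
      ext r c
      simp only [mon, Matrix.of_apply, Matrix.add_apply, Matrix.smul_apply, smul_eq_mul, zero_add, zero_mul,
        one_mul, chi_zero, Matrix.single_apply]
      by_cases hc : c = r + (j - i)
      · rw [if_pos hc, if_pos hc, if_pos hc, hab r]
        refine if_congr ⟨fun h => h.1.symm, fun h => ⟨h.symm, ?_⟩⟩ rfl rfl
        subst h
        rw [hc, add_sub_cancel]
      · rw [if_neg hc, if_neg hc, if_neg hc, mul_zero, mul_zero, add_zero, add_zero, if_neg]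
        rintro ⟨rfl, rfl⟩
        exact hc (add_sub_cancel _ _).symm
    rw [this]
    exact add_mem (add_mem (Submodule.subset_span ⟨_, rfl⟩) (Submodule.smul_mem _ _ (Submodule.subset_span ⟨_, rfl⟩)))
      (Submodule.smul_mem _ _ (Submodule.subset_span ⟨_, rfl⟩))
  have henv : env R = ⊤ := by
    rw [eq_top_iff]
    intro M _
    have hR : ∀ p p', conjHom P (T p p') ∈ env R := fun p p' => by
      rw [← hg, conjHom_coe]
      exact coe_mem_env ⟨p, p', by group⟩
    let L : Matrix ι ι F →ₗ[F] Matrix ι ι F := (conjHom P).toLinearMap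
    have hall2 : ∀ a b : Matrix (Fin 3) (Fin 3) F, L (tens e a b) ∈ (env R).toSubmodule := by
      intro a b
      let Bl : Matrix (Fin 3) (Fin 3) F →ₗ[F] Matrix (Fin 3) (Fin 3) F →ₗ[F] Matrix ι ι F :=
        (Matrix.kroneckerBilinear (R := F) (α := F)).compr₂
          (L.comp (Matrix.reindexAlgEquiv F F e.symm).toLinearMap)
      have hin : ∀ a b : Matrix (Fin 3) (Fin 3) F, ∀ (_ : a ∈ Submodule.span F (Set.range (mon ω)))
          (_ : b ∈ Submodule.span F (Set.range (mon ω))), Bl a b ∈ (env R).toSubmodule := by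
        intro a b ha hb
        have h1 := Submodule.apply_mem_map₂ Bl ha hb
        rw [Submodule.map₂_span_span] at h1
        refine Submodule.span_le.2 ?_ h1
        rintro _ ⟨_, ⟨p, rfl⟩, _, ⟨p', rfl⟩, rfl⟩
        exact hR p p'
      have hspan : ∀ a : Matrix (Fin 3) (Fin 3) F, a ∈ Submodule.span F (Set.range (mon ω)) := fun a => by
        rw [Matrix.matrix_eq_sum_single a]
        refine sum_mem fun i _ => sum_mem fun j _ => ?_
        rw [← mul_one (a i j), ← smul_eq_mul, ← Matrix.smul_single]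
        exact Submodule.smul_mem _ _ (hEij i j)
      exact hin a b (hspan a) (hspan b)
    have h1 : conjHom P⁻¹ M = ∑ i, ∑ j, (conjHom P⁻¹ M) i j •
        tens e (Matrix.single (e i).1 (e j).1 1) (Matrix.single (e i).2 (e j).2 1) := by
      conv_lhs => rw [Matrix.matrix_eq_sum_single (conjHom P⁻¹ M)]
      refine Finset.sum_congr rfl fun i _ => Finset.sum_congr rfl fun j _ => ?_
      ext r c
      simp only [Matrix.single_apply, Matrix.smul_apply, tens_apply, smul_eq_mul]
      by_cases hr : i = r <;> by_cases hc : j = c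
      · subst hr hc; simp
      · subst hr
        have : ¬ ((e j).1 = (e c).1 ∧ (e j).2 = (e c).2) := fun h => hc (e.injective (Prod.ext h.1 h.2))
        simp [hc]; tauto
      · subst hc
        have : ¬ ((e i).1 = (e r).1 ∧ (e i).2 = (e r).2) := fun h => hr (e.injective (Prod.ext h.1 h.2))
        simp [hr]; tauto
      · have : ¬ ((e i).1 = (e r).1 ∧ (e i).2 = (e r).2) := fun h => hr (e.injective (Prod.ext h.1 h.2))
        simp [hr]; tauto
    have h2 : conjHom P (conjHom P⁻¹ M) = M := by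
      rw [conjHom_apply, conjHom_apply, inv_inv]
      simp only [← mul_assoc]
      rw [← Units.val_mul, mul_inv_cancel, Units.val_one, one_mul, mul_assoc, ← Units.val_mul, mul_inv_cancel,
        Units.val_one, mul_one]
    rw [← h2, h1, map_sum]
    refine sum_mem fun i _ => ?_
    rw [map_sum]
    refine sum_mem fun j _ => ?_
    rw [map_smul]
    exact (env R).smul_mem (hall2 _ _) _
  have habs := absIrred_of_env henv
  have : Nonempty ι := ⟨e.symm (0, 0)⟩
  -- order
  let Φ : ((Fin 3 × Fin 3 × Fin 3) × (Fin 3 × Fin 3)) → R := fun x => ⟨g x.1 (0, x.2), ⟨_, _, rfl⟩⟩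
  have hΦ : Function.Bijective Φ := by
    constructor
    · rintro ⟨p, q⟩ ⟨p', q'⟩ h
      have h1 : T p (0, q) = T p' (0, q') := by
        rw [← hg, ← hg]
        exact congrArg (fun x : R => ((P⁻¹ * (x : GL ι F) * P : GL ι F) : Matrix ι ι F)) h
      have hm : ∀ q : Fin 3 × Fin 3 × Fin 3, mon ω q ≠ 0 := fun q e0 => by
        have := det_mon hω3 q
        rw [e0, Matrix.det_zero] at this
        exact zero_ne_one this
      obtain ⟨y, hy, e1, e2⟩ := tens_eq_tens e (hm p') (hm (0, q')) h1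
      obtain ⟨a, ha⟩ := hall' y⁻¹ (inv_ne_zero hy)
      have h3 : mon ω (0, q) = mon ω (op (a, 0, 0) (0, q')) := by
        rw [e2, ← mon_mul hω3]
        have : mon ω (a, 0, 0) = y⁻¹ • 1 := by
          ext r c
          simp [mon, Matrix.one_apply, ha, eq_comm]
        rw [this, smul_one_mul]
      have h4 := mon_injective hω3 hω1 hω0 h3
      have key : ∀ (a : Fin 3) (q q' : Fin 3 × Fin 3), ((0, q) : Fin 3 × Fin 3 × Fin 3) = op (a, 0, 0) (0, q') →
          a = 0 ∧ q = q' := by decide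
      obtain ⟨rfl, rfl⟩ := key a q q' h4
      rw [chi_zero, inv_eq_one] at ha
      subst ha
      rw [one_smul] at e1
      rw [mon_injective hω3 hω1 hω0 e1]
    · rintro ⟨_, ⟨p, ⟨i', q⟩, rfl⟩⟩
      refine ⟨(op p (i', 0, 0), q), Subtype.ext ?_⟩
      show g (op p (i', 0, 0)) (0, q) = g p (i', q)
      simp only [g]
      congr 2
      refine Units.ext ?_
      show tens e (mon ω (op p (i', 0, 0))) (mon ω (0, q)) = tens e (mon ω p) (mon ω (i', q))
      have h1 : ∀ a : Fin 3, mon ω (a, 0, 0) = chi ω a • 1 := fun a => by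
        ext r c
        simp [mon, Matrix.one_apply, eq_comm]
      have key : ∀ (i : Fin 3) (q : Fin 3 × Fin 3), ((i, q) : Fin 3 × Fin 3 × Fin 3) = op (0, q) (i, 0, 0) := by
        decide
      rw [key i' q, ← mon_mul hω3, ← mon_mul hω3, h1, mul_smul_comm, mul_smul_comm, mul_one, mul_one,
        tens_smul_left, tens_smul_right]
  have hcard : Nat.card R = 243 := by
    rw [← Nat.card_congr (Equiv.ofBijective Φ hΦ)]
    simp
  have hexp3 : ∀ x ∈ R, x ^ 3 = 1 := by
    rintro _ ⟨p, p', rfl⟩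
    exact hcube p p'
  have hFu : Nat.card Fˣ = 3 := by rw [Nat.card_units, Nat.card_eq_fintype_card, hF]; norm_num
  have hcentre : Nat.card (Subgroup.center R) = 3 := by
    let θ : Fˣ → Subgroup.center R := fun u =>
      ⟨⟨scl u, hz (u : F) u.ne_zero _ (coe_scl u)⟩,
        Subgroup.mem_center_iff.2 fun x => Subtype.ext (scalars_commute (mem_scalars_of_smul (coe_scl u)) _).symm⟩
    have hθ : Function.Bijective θ := by
      constructor
      · intro u v h
        have h1 : ((scl u : GL ι F) : Matrix ι ι F) = (scl v : GL ι F) :=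
          congrArg (fun w : Subgroup.center R => (((w : R) : GL ι F) : Matrix ι ι F)) h
        rw [coe_scl, coe_scl] at h1
        exact Units.ext (smul_left_injective F one_ne_zero h1)
      · rintro ⟨⟨x, hx⟩, hxc⟩
        have hxs : x ∈ scalars ι F := mem_scalars_of_commute habs fun y hy =>
          (congrArg Subtype.val (Subgroup.mem_center_iff.1 hxc ⟨y, hy⟩)).symm
        obtain ⟨u, hu⟩ := (mem_scalars_iff x).1 hxs
        exact ⟨u, Subtype.ext (Subtype.ext (Units.ext ((coe_scl u).trans hu.symm)))⟩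
    rw [← Nat.card_congr (Equiv.ofBijective θ hθ), hFu]
  have hisom : ∀ x : GL ι F, ((P⁻¹ * x * P : GL ι F) : Matrix ι ι F)ᵀ *
      ((P⁻¹ * x * P : GL ι F) : Matrix ι ι F).map σ = 1 → x ∈ D.isom := by
    intro x h u v
    have key : D.gramAt (x * P) = D.gramAt P := by
      rw [show x * P = P * (P⁻¹ * x * P) by simp [mul_assoc], FormData.gramAt_mul, hgram, mul_smul_comm,
        smul_mul_assoc, mul_one, hσ, h]
    simp only [Units.coeHom_apply]
    have e' : ∀ w : ι → F, w = (P : Matrix ι ι F) *ᵥ (((P⁻¹ : GL ι F) : Matrix ι ι F) *ᵥ w) := fun w => by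
      rw [Matrix.mulVec_mulVec, ← Units.val_mul, mul_inv_cancel, Units.val_one, Matrix.one_mulVec]
    conv_lhs => rw [e' u, e' v]
    conv_rhs => rw [e' u, e' v]
    rw [Matrix.mulVec_mulVec _ (x : Matrix ι ι F), Matrix.mulVec_mulVec _ (x : Matrix ι ι F), ← Units.val_mul,
      FormData.form_gramAt, FormData.form_gramAt, key]
  have hRI : R ≤ D.isom := by
    rintro _ ⟨p, p', rfl⟩
    refine hisom _ ?_
    rw [hg]
    show (tens e _ _)ᵀ * (tens e _ _).map σ = 1
    rw [tens_transpose, tens_map, tens_mul, mon_unitary hF hω3, mon_unitary hF hω3, tens_one]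
  have hdet : (amat ω).det ≠ 0 := by
    intro h0
    have := congrArg Matrix.det (amat_unitary hF htwo hω2)
    rw [Matrix.det_mul, Matrix.det_transpose, h0, zero_mul, Matrix.det_one] at this
    exact zero_ne_one this
  let A : GL (Fin 3) F := Matrix.GeneralLinearGroup.mkOfDetNeZero (amat ω) hdet
  have hAU : A ∈ GU 3 F 2 := mem_GU_of_unitary hF (amat_unitary hF htwo hω2)
  have hnorm : ∀ a b : GL (Fin 3) F, a ∈ GU 3 F 2 → b ∈ GU 3 F 2 →
      P * tensUnit e a b * P⁻¹ ∈ subgroupNormalizer R := by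
    intro a b ha hb
    have hfwd : ∀ a b : GL (Fin 3) F, a ∈ GU 3 F 2 → b ∈ GU 3 F 2 → ∀ x ∈ R,
        (P * tensUnit e a b * P⁻¹) * x * (P * tensUnit e a b * P⁻¹)⁻¹ ∈ R := by
      rintro a b ha hb _ ⟨p, p', rfl⟩
      obtain ⟨r, hr⟩ := mon_normal hF hω3 hω1 hω0 ha p
      obtain ⟨r', hr'⟩ := mon_normal hF hω3 hω1 hω0 hb p'
      refine ⟨r, r', ?_⟩
      have h1 : tensUnit e a b * tensUnit e (monGL hω3 p) (monGL hω3 p') =
          tensUnit e (monGL hω3 r) (monGL hω3 r') * tensUnit e a b := by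
        refine Units.ext ?_
        show tens e _ _ * tens e _ _ = tens e _ _ * tens e _ _
        rw [tens_mul, tens_mul, coe_monGL, coe_monGL, coe_monGL, coe_monGL, hr, hr']
      calc _ = P * (tensUnit e a b * tensUnit e (monGL hω3 p) (monGL hω3 p')) * (tensUnit e a b)⁻¹ * P⁻¹ := by
            simp only [g]; group
        _ = _ := by rw [h1]; simp only [g]; group
    have hinv : (P * tensUnit e a b * P⁻¹)⁻¹ = P * tensUnit e a⁻¹ b⁻¹ * P⁻¹ := by
      rw [show tensUnit e a⁻¹ b⁻¹ = (tensUnit e a b)⁻¹ from Units.ext rfl]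
      group
    refine Subgroup.mem_normalizer_iff.2 fun x => ⟨hfwd a b ha hb x, fun hx => ?_⟩
    have h2 := hfwd a⁻¹ b⁻¹ (inv_mem ha) (inv_mem hb) _ hx
    rw [← hinv] at h2
    convert h2 using 1
    group
  refine ⟨R, ⟨Nat.prime_three, IsPGroup.of_card (n := 5) (by rw [hcard]; norm_num), ?_, ?_⟩, habs, hRI,
    hcentre, hcard, ⟨Nat.prime_two, hchar, hF, by norm_num, fun d hd hd' => ?_⟩, ?_⟩
  · -- characteristic abelian subgroups
    intro B hB hcomm
    have hBs : ∀ x ∈ B, (x : GL ι F) ∈ scalars ι F := by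
      rintro ⟨_, ⟨p, p', rfl⟩⟩ hx
      have hconj : ∀ a b : GL (Fin 3) F, a ∈ GU 3 F 2 → b ∈ GU 3 F 2 → ∀ r r',
          (∀ t, (a : Matrix (Fin 3) (Fin 3) F) * mon ω p = t * (a : Matrix (Fin 3) (Fin 3) F) → t = mon ω r) →
          (∀ t, (b : Matrix (Fin 3) (Fin 3) F) * mon ω p' = t * (b : Matrix (Fin 3) (Fin 3) F) → t = mon ω r') →
          g p p' * g r r' = g r r' * g p p' := by
        intro a b ha hb r r' hr hr'
        let n : GL ι F := P * tensUnit e a b * P⁻¹
        have hn := hnorm a b ha hb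
        have hmemy : n * g p p' * n⁻¹ ∈ R := (Subgroup.mem_normalizer_iff.1 hn _).1 ⟨p, p', rfl⟩
        let φ : R ≃* R := (R.normalizerMonoidHom ⟨n, hn⟩)
        have hy : φ ⟨g p p', ⟨p, p', rfl⟩⟩ ∈ B := by
          exact (SetLike.ext_iff.1 (hB.fixed φ) _).2 hx
        have hyv : ((φ ⟨g p p', ⟨p, p', rfl⟩⟩ : R) : GL ι F) = g r r' := by
          show n * g p p' * n⁻¹ = g r r'
          obtain ⟨s, hs⟩ := mon_normal hF hω3 hω1 hω0 ha p
          obtain ⟨s', hs'⟩ := mon_normal hF hω3 hω1 hω0 hb p'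
          rw [← mon_injective hω3 hω1 hω0 (hr _ hs), ← mon_injective hω3 hω1 hω0 (hr' _ hs')]
          have h1 : tensUnit e a b * tensUnit e (monGL hω3 p) (monGL hω3 p') =
              tensUnit e (monGL hω3 s) (monGL hω3 s') * tensUnit e a b := by
            refine Units.ext ?_
            show tens e _ _ * tens e _ _ = tens e _ _ * tens e _ _
            rw [tens_mul, tens_mul, coe_monGL, coe_monGL, coe_monGL, coe_monGL, hs, hs']
          calc _ = P * (tensUnit e a b * tensUnit e (monGL hω3 p) (monGL hω3 p')) * (tensUnit e a b)⁻¹ * P⁻¹ := by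
                simp only [n, g]; group
            _ = _ := by rw [h1]; simp only [g]; group
        have := congrArg Subtype.val (hcomm.is_comm.comm ⟨_, hx⟩ ⟨_, hy⟩)
        have := congrArg Subtype.val this
        rw [Subgroup.coe_mul, Subgroup.coe_mul, Subgroup.coe_mul, Subgroup.coe_mul, hyv] at this
        exact this
      have key : ∀ (a : GL (Fin 3) F) (q q' : Fin 3 × Fin 3 × Fin 3),
          (a : Matrix (Fin 3) (Fin 3) F) * mon ω q = mon ω q' * (a : Matrix (Fin 3) (Fin 3) F) →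
          ∀ t, (a : Matrix (Fin 3) (Fin 3) F) * mon ω q = t * (a : Matrix (Fin 3) (Fin 3) F) → t = mon ω q' :=
        fun a q q' h t ht => (Units.isUnit a).mul_right_cancel (ht.symm.trans h)
      have key1 : ∀ q, ((1 : GL (Fin 3) F) : Matrix (Fin 3) (Fin 3) F) * mon ω q =
          mon ω q * ((1 : GL (Fin 3) F) : Matrix (Fin 3) (Fin 3) F) := fun q => by simp
      have hA' : ∀ q : Fin 3 × Fin 3 × Fin 3, (A : Matrix (Fin 3) (Fin 3) F) * mon ω q =
          mon ω (q.1 + 2 * q.2.1 + q.2.2 + q.2.2 * (2 * q.2.1), q.2.2, 2 * q.2.1) * (A : Matrix (Fin 3) (Fin 3) F) :=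
        fun q => amat_mon htwo hω2 hω3 q
      have c1 := hconj A 1 hAU (GU 3 F 2).one_mem _ p' (key A p _ (hA' p)) (key 1 p' p' (key1 p'))
      have c2 := hconj 1 A (GU 3 F 2).one_mem hAU p _ (key 1 p p (key1 p)) (key A p' _ (hA' p'))
      rw [hgmul, hgmul] at c1 c2
      have hinj : ∀ a a' b b', g a b = g a' b' → T a b = T a' b' := fun a a' b b' h => by
        rw [← hg, ← hg, h]
      have hm : ∀ q : Fin 3 × Fin 3 × Fin 3, mon ω q ≠ 0 := fun q e0 => by
        have := det_mon hω3 q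
        rw [e0, Matrix.det_zero] at this
        exact zero_ne_one this
      have hsame : ∀ a a' b : Fin 3 × Fin 3 × Fin 3, tens e (mon ω a) (mon ω b) = tens e (mon ω a') (mon ω b) →
          a = a' := by
        intro a a' b h
        obtain ⟨y, -, e1, e2⟩ := tens_eq_tens e (hm a') (hm b) h
        have : y⁻¹ = 1 := by
          have h2 : (y⁻¹ - 1) • mon ω b = 0 := by rw [sub_smul, one_smul, ← e2, sub_self]
          exact sub_eq_zero.1 ((smul_eq_zero.1 h2).resolve_right (hm b))
        rw [inv_eq_one] at this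
        subst this
        rw [one_smul] at e1
        exact mon_injective hω3 hω1 hω0 e1
      have hsame' : ∀ a b b' : Fin 3 × Fin 3 × Fin 3, tens e (mon ω a) (mon ω b) = tens e (mon ω a) (mon ω b') →
          b = b' := by
        intro a b b' h
        obtain ⟨y, -, e1, e2⟩ := tens_eq_tens e (hm a) (hm b') h
        have : y = 1 := by
          have h2 : (y - 1) • mon ω a = 0 := by rw [sub_smul, one_smul, ← e1, sub_self]
          exact sub_eq_zero.1 ((smul_eq_zero.1 h2).resolve_right (hm a))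
        subst this
        rw [inv_one, one_smul] at e2
        exact mon_injective hω3 hω1 hω0 e2
      have d1 := hsame _ _ _ (hinj _ _ _ _ c1)
      have d2 := hsame' _ _ _ (hinj _ _ _ _ c2)
      have kdec : ∀ q : Fin 3 × Fin 3 × Fin 3,
          op q (q.1 + 2 * q.2.1 + q.2.2 + q.2.2 * (2 * q.2.1), q.2.2, 2 * q.2.1) =
            op (q.1 + 2 * q.2.1 + q.2.2 + q.2.2 * (2 * q.2.1), q.2.2, 2 * q.2.1) q → q.2 = (0, 0) := by decide
      obtain ⟨i, j⟩ := p
      obtain ⟨i', j'⟩ := p'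
      obtain rfl := kdec _ d1
      obtain rfl := kdec _ d2
      have hm1 : ∀ a : Fin 3, mon ω (a, 0, 0) = chi ω a • 1 := fun a => by
        ext r c
        simp [mon, Matrix.one_apply, eq_comm]
      have hts : (tensUnit e (monGL hω3 (i, 0, 0)) (monGL hω3 (i', 0, 0)) : GL ι F) ∈ scalars ι F := by
        refine mem_scalars_of_smul (c := chi ω i * chi ω i') ?_
        show tens e (mon ω (i, 0, 0)) (mon ω (i', 0, 0)) = _
        rw [hm1, hm1, tens_smul_left, tens_smul_right, tens_one, smul_smul]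
      show P * _ * P⁻¹ ∈ scalars ι F
      exact Subgroup.Normal.conj_mem inferInstance _ hts P
    let f : B →* (scalars ι F) :=
      { toFun := fun x => ⟨_, hBs x.1 x.2⟩
        map_one' := rfl
        map_mul' := fun x y => rfl }
    have : IsCyclic (scalars ι F) := by
      rw [scalars]
      exact isCyclic_of_surjective _ (MonoidHom.rangeRestrict_surjective _)
    exact isCyclic_of_injective f fun x y h =>
      Subtype.ext (Subtype.ext (congrArg (fun z : scalars ι F => (z : GL ι F)) h))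
  · rw [show 3 * Nat.gcd 2 3 = 3 from rfl]
    have hdvd : Monoid.exponent R ∣ 3 :=
      Monoid.exponent_dvd_of_forall_pow_eq_one fun x => Subtype.ext (by simpa using hexp3 x.1 x.2)
    refine (Nat.prime_three.eq_one_or_self_of_dvd _ hdvd).resolve_left fun h1 => ?_
    have : Subsingleton R := Monoid.exp_eq_one_iff.1 h1
    rw [Nat.card_of_subsingleton (1 : R)] at hcard
    norm_num at hcard
  · interval_cases d
    norm_num
  · intro h hh
    obtain ⟨a, b, hab⟩ := mem_tensorProductSubgroup_iff.1 (hle hh)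
    have hh' : h = P * tensUnit e a b * P⁻¹ := Units.ext hab
    have hI : (tens e (a : Matrix (Fin 3) (Fin 3) F) (b : Matrix (Fin 3) (Fin 3) F))ᵀ * D.gramAt P *
        (tens e (a : Matrix (Fin 3) (Fin 3) F) (b : Matrix (Fin 3) (Fin 3) F)).map D.σ = D.gramAt P := by
      show ((tensUnit e a b : GL ι F) : Matrix ι ι F)ᵀ * D.gramAt P * ((tensUnit e a b : GL ι F) : Matrix ι ι F).map D.σ = _
      rw [← FormData.gramAt_mul, show P * tensUnit e a b = h * P by rw [hh']; simp [mul_assoc]]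
      refine eq_of_gramForm_eq D.σ fun u v => ?_
      rw [← FormData.form_gramAt, ← FormData.form_gramAt, Units.val_mul, ← Matrix.mulVec_mulVec,
        ← Matrix.mulVec_mulVec]
      exact hH hh _ _
    rw [hgram, mul_smul_comm, smul_mul_assoc, mul_one, hσ, tens_transpose, tens_map, tens_mul,
      ← tens_one e] at hI
    obtain ⟨x, hx, hax, hbx⟩ := tens_eq_tens e one_ne_zero one_ne_zero (smul_right_injective _ hc hI)
    have hx1 : x = 1 := by
      have h1 : σ x = x := by
        have := congrArg (fun M : Matrix (Fin 3) (Fin 3) F => (M.map σ)ᵀ 0 0) hax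
        simp only [Matrix.map_mul, Matrix.transpose_mul, Matrix.map_smul' _ _ _ (map_mul σ),
          Matrix.map_one _ (map_zero σ) (map_one σ), Matrix.transpose_smul, Matrix.transpose_one,
          Matrix.transpose_transpose] at this
        rw [show (((a : Matrix (Fin 3) (Fin 3) F).map σ).map σ) = (a : Matrix (Fin 3) (Fin 3) F) from
          Matrix.ext fun i j => H3.conjQ_conjQ hF _, show ((a : Matrix (Fin 3) (Fin 3) F)ᵀ.map σ)ᵀ =
          (a : Matrix (Fin 3) (Fin 3) F).map σ from rfl] at this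
        rw [show ((a : Matrix (Fin 3) (Fin 3) F)ᵀ * (a : Matrix (Fin 3) (Fin 3) F).map σ) = x • 1 from hax] at this
        simpa using this.symm
      have h2 : x * (x - 1) = 0 := by
        rw [H3.conjQ_apply] at h1
        linear_combination h1
      exact sub_eq_zero.1 ((mul_eq_zero.1 h2).resolve_left hx)
    subst hx1
    rw [one_smul] at hax
    rw [inv_one, one_smul] at hbx
    rw [hh']
    exact hnorm a b (mem_GU_of_unitary hF hax) (mem_GU_of_unitary hF hbx)

end SmallU

end Cfsg.Agent.H99.Asch
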