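import Cfsg.Agent.H99.Aschbacher.FormTools
import Cfsg.Agent.H99.Aschbacher.Maximal
import Cfsg.Agent.H99.Aschbacher.SmallUnitary
import Cfsg.Agent.H3.Count
import Cfsg.Agent.H25.Burnside

/-!
Aschbacher's theorem for the isometry group of the standard unitary form: the alternatives of the general
form-relative theorem are turned into the data of the unitary classes.
-/

set_option autoImplicit false

open scoped MatrixGroups Matrix Kronecker commutatorElement

namespace Cfsg.Agent.H99.Asch

open Cfsg.Geo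

variable {F : Type*} [Field F] [Fintype F] {q : ℕ}

/-- The standard unitary form as form data. -/
def unitaryData (hF : Fintype.card F = q ^ 2) (n : ℕ) : FormData (Fin n) F where
  σ := H3.conjQ hF
  invol := H3.conjQ_conjQ hF
  U := 1
  ε := 1
  eps_ne := one_ne_zero
  herm := by
    rw [Units.val_one, Matrix.map_one _ (map_zero _) (map_one _), Matrix.transpose_one, one_smul]

lemma unitaryData_form (hF : Fintype.card F = q ^ 2) (n : ℕ) :
    (unitaryData hF n).form = hermForm n F q := by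
  funext u v
  show u ⬝ᵥ ((1 : Matrix (Fin n) (Fin n) F) *ᵥ _) = _
  rw [Matrix.one_mulVec]
  rfl

lemma unitaryData_isom (hF : Fintype.card F = q ^ 2) (n : ℕ) : (unitaryData hF n).isom = GU n F q := by
  rw [FormData.isom, unitaryData_form]
  rfl

/-- The parity of q is the parity of the characteristic. -/
lemma q_parity (hF : Fintype.card F = q ^ 2) : Odd q ∨ (2 : F) = 0 := by
  obtain ⟨p, k, hp, hc, -, rfl⟩ := H3.exists_q_eq_pow hF
  rcases hp.eq_two_or_odd' with rfl | h
  · exact Or.inr (CharP.cast_eq_zero F 2)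
  · exact Or.inl h.pow

lemma two_ne_zero_of_odd (hF : Fintype.card F = q ^ 2) (hq : Odd q) : (2 : F) ≠ 0 := by
  obtain ⟨p, k, hp, hc, hk, rfl⟩ := H3.exists_q_eq_pow hF
  intro h2
  have h3 : p ∣ 2 := (CharP.cast_eq_zero_iff F p 2).1 h2
  have h4 := (Nat.prime_dvd_prime_iff_eq hp Nat.prime_two).1 h3
  subst h4
  exact Nat.not_even_iff_odd.2 hq (even_two.pow_of_ne_zero (by omega))

/-- A Hermitian invertible Gram matrix gives a unitary form. -/
lemma isUnitaryFormPow_gram (hF : Fintype.card F = q ^ 2) {m : ℕ} {G : Matrix (Fin m) (Fin m) F} (hu : IsUnit G)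
    (hh : (G.map (H3.conjQ hF))ᵀ = G) : IsUnitaryFormPow q (gramForm (H3.conjQ hF) G) where
  add_left := gramForm_add_left _ _
  smul_left := gramForm_smul_left _ _
  herm v w := by rw [← H3.conjQ_apply hF, gramForm_swap _ (H3.conjQ_conjQ hF), hh]
  nondegenerate := gramForm_nondegenerate _ hu

/-- An invertible Hermitian Gram matrix is congruent to the identity. -/
theorem exists_congr_one (hF : Fintype.card F = q ^ 2) {m : ℕ} {G : Matrix (Fin m) (Fin m) F} (hu : IsUnit G)
    (hh : (G.map (H3.conjQ hF))ᵀ = G) :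
    ∃ S : GL (Fin m) F, (S : Matrix (Fin m) (Fin m) F)ᵀ * G * (S : Matrix (Fin m) (Fin m) F).map (H3.conjQ hF) = 1 := by
  let σ := H3.conjQ hF
  let B : (Fin m → F) →ₛₗ[σ] (Fin m → F) →ₗ[F] F :=
    LinearMap.mk₂'ₛₗ σ (RingHom.id F) (fun x y => gramForm σ G y x)
      (fun x x' y => gramForm_add_right σ G y x x')
      (fun c x y => gramForm_smul_right σ G c y x)
      (fun x y y' => gramForm_add_left σ G y y' x)
      (fun c x y => gramForm_smul_left σ G c y x)
  have hB : H3.IsHerm B q := by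
    refine ⟨hF, fun x => rfl, fun x y => ?_, fun x hx => ?_⟩
    · show σ (gramForm σ G y x) = gramForm σ G x y
      rw [gramForm_swap σ (H3.conjQ_conjQ hF), hh]
    · by_contra hx0
      obtain ⟨⟨y, hy⟩, -⟩ := gramForm_nondegenerate σ hu x hx0
      exact hy (hx y)
  obtain ⟨b, hb⟩ := hB.exists_orth_basis (n := m) (by simp)
  let M : Matrix (Fin m) (Fin m) F := Matrix.of fun i j => b j i
  have hM : Mᵀ * G * M.map σ = 1 := by
    ext j i
    have h1 : (Mᵀ * G * M.map σ) j i = gramForm σ G (b j) (b i) := by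
      rw [mul_assoc, Matrix.mul_apply]
      refine Finset.sum_congr rfl fun k _ => ?_
      rw [Matrix.mul_apply]
      rfl
    rw [h1]
    have h2 : gramForm σ G (b j) (b i) = if i = j then 1 else 0 := hb i j
    rw [h2, Matrix.one_apply]
    exact if_congr eq_comm rfl rfl
  have hd : IsUnit M := by
    rw [Matrix.isUnit_iff_isUnit_det, isUnit_iff_ne_zero]
    intro h0
    have := congrArg Matrix.det hM
    rw [Matrix.det_mul, Matrix.det_mul, Matrix.det_transpose, h0, zero_mul, zero_mul, Matrix.det_one] at this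
    exact zero_ne_one this
  exact ⟨hd.unit, hM⟩

/-- Two invertible Hermitian Gram matrices of the same size are congruent. -/
theorem exists_congr (hF : Fintype.card F = q ^ 2) {m : ℕ} {G G' : Matrix (Fin m) (Fin m) F} (hu : IsUnit G)
    (hh : (G.map (H3.conjQ hF))ᵀ = G) (hu' : IsUnit G') (hh' : (G'.map (H3.conjQ hF))ᵀ = G') :
    ∃ S : GL (Fin m) F,
      (S : Matrix (Fin m) (Fin m) F)ᵀ * G * (S : Matrix (Fin m) (Fin m) F).map (H3.conjQ hF) = G' := by
  obtain ⟨S, hS⟩ := exists_congr_one hF hu hh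
  obtain ⟨T, hT⟩ := exists_congr_one hF hu' hh'
  refine ⟨S * T⁻¹, ?_⟩
  rw [Units.val_mul, Matrix.transpose_mul, Matrix.map_mul]
  set σ := H3.conjQ hF
  have e1 : ((T⁻¹ : GL (Fin m) F) : Matrix (Fin m) (Fin m) F)ᵀ * (T : Matrix (Fin m) (Fin m) F)ᵀ = 1 := by
    rw [← Matrix.transpose_mul, ← Units.val_mul, mul_inv_cancel, Units.val_one, Matrix.transpose_one]
  have e2 : (T : Matrix (Fin m) (Fin m) F).map σ * ((T⁻¹ : GL (Fin m) F) : Matrix (Fin m) (Fin m) F).map σ = 1 := by
    rw [← Matrix.map_mul, ← Units.val_mul, mul_inv_cancel, Units.val_one,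
      Matrix.map_one _ (map_zero σ) (map_one σ)]
  calc _ = ((T⁻¹ : GL (Fin m) F) : Matrix (Fin m) (Fin m) F)ᵀ *
        ((S : Matrix (Fin m) (Fin m) F)ᵀ * G * (S : Matrix (Fin m) (Fin m) F).map σ) *
        ((T⁻¹ : GL (Fin m) F) : Matrix (Fin m) (Fin m) F).map σ := by simp only [mul_assoc]
    _ = (((T⁻¹ : GL (Fin m) F) : Matrix (Fin m) (Fin m) F)ᵀ * (T : Matrix (Fin m) (Fin m) F)ᵀ) * G' *
        ((T : Matrix (Fin m) (Fin m) F).map σ * ((T⁻¹ : GL (Fin m) F) : Matrix (Fin m) (Fin m) F).map σ) := by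
      rw [hS, ← hT]; simp only [mul_assoc]
    _ = G' := by rw [e1, e2, one_mul, mul_one]

/-- The alternatives for a subgroup of the unitary group, with the data of the classes. -/
inductive UnitaryCase (hF : Fintype.card F = q ^ 2) (n : ℕ) (H : Subgroup (GL (Fin n) F)) : Prop
  | singular (W : Submodule F (Fin n → F)) (hW : W ≠ ⊥) (hts : IsTotallySingularFor (hermForm n F q) W)
      (hle : H ≤ subspaceStabilizer W)
  | nondeg (W : Submodule F (Fin n → F)) (hW : W ≠ ⊥) (hnd : IsNondegenerateOn (hermForm n F q) W)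
      (hdim : 2 * Module.finrank F W < n) (hle : H ≤ subspaceStabilizer W)
  | decomp (t k : ℕ) (V : Fin t → Submodule F (Fin n → F))
      (hV : IsNondegenerateMDecomposition (hermForm n F q) k V) (htk : t * k = n)
      (hle : H ≤ decompositionStabilizer V)
  | halves (k : ℕ) (V : Fin 2 → Submodule F (Fin n → F)) (hk : 2 * k = n) (hV : IsMDecomposition k V)
      (hts : ∀ i, IsTotallySingularFor (hermForm n F q) (V i)) (hirr : ActsIrreducibly (matrixSet H))
      (hle : H ≤ decompositionStabilizer V)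
  | field (r : ℕ) (K : Subalgebra F (Matrix (Fin n) (Fin n) F)) (hr : r.Prime) (hodd : Odd r) (hrn : r ∣ n)
      (hK : IsFieldSubalgebra r K) (hadj : IsAdjointClosedFor (hermForm n F q) K)
      (hirr : ActsIrreducibly (matrixSet H)) (hle : H ≤ subalgebraNormalizer K)
  | tensor (n₁ n₂ : ℕ) (e : Fin n ≃ Fin n₁ × Fin n₂) (P : GL (Fin n) F) (G₁ : Matrix (Fin n₁) (Fin n₁) F)
      (G₂ : Matrix (Fin n₂) (Fin n₂) F) (h1 : 2 ≤ n₁) (h12 : n₁ < n₂)
      (hG₁ : IsUnitaryFormPow q (gramForm (H3.conjQ hF) G₁)) (hG₂ : IsUnitaryFormPow q (gramForm (H3.conjQ hF) G₂))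
      (hform : IsTensorFormStructure (fun x : F => x ^ q) (hermForm n F q) (gramForm (H3.conjQ hF) G₁)
        (gramForm (H3.conjQ hF) G₂) e P)
      (hirr : ActsIrreducibly (matrixSet H)) (hle : H ≤ tensorProductSubgroup n₁ n₂ e P)
  | subfieldOdd (F₀ : Subfield F) (r : ℕ) (P : GL (Fin n) F) (hr : r.Prime) (hodd : Odd r)
      (hc : Fintype.card F = Nat.card F₀ ^ r) (hf : IsFormRationalStructure (hermForm n F q) F₀ 1 P)
      (hirr : ActsIrreducibly (matrixSet H)) (hle : H ≤ subfieldSubgroup F₀ P)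
  | subfieldTwo (F₀ : Subfield F) (P : GL (Fin n) F) (hq : Odd q)
      (hc : Fintype.card F = Nat.card F₀ ^ 2) (hf : IsFormRationalStructure (hermForm n F q) F₀ 1 P)
      (hirr : ActsIrreducibly (matrixSet H)) (hle : H ≤ subfieldSubgroup F₀ P)
  | subfieldAlt (F₀ : Subfield F) (P : GL (Fin n) F) (ζ : F) (hn : Even n)
      (hc : Fintype.card F = Nat.card F₀ ^ 2) (hζ : ζ ≠ 0) (hζq : ζ + ζ ^ q = 0)
      (hf : IsFormRationalStructure (hermForm n F q) F₀ ζ P)
      (halt : ∀ u : Fin n → F, (∀ i, u i ∈ F₀) →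
        hermForm n F q ((P : Matrix (Fin n) (Fin n) F) *ᵥ u) ((P : Matrix (Fin n) (Fin n) F) *ᵥ u) = 0)
      (hirr : ActsIrreducibly (matrixSet H)) (hle : H ≤ subfieldSubgroup F₀ P)
  | typeTwo (r : ℕ) (R : Subgroup (GL (Fin n) F)) (p e k : ℕ) (hR : IsSymplecticTypeGroup r R)
      (habs : ActsAbsolutelyIrreducibly (matrixSet R)) (hsim : R ≤ similarityGroup (hermForm n F q)) (hrp : r ≠ p)
      (hmin : IsMinimalFieldFor (Nat.card (Subgroup.center R)) p e F) (hn : n = r ^ k) (hk : 1 ≤ k)
      (hcase : (Odd r ∧ Nat.card (Subgroup.center R) = r ∧ Nat.card R = r ^ (1 + 2 * k) ∧ R ≤ GU n F q) ∨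
        (r = 2 ∧ e = 2 ∧ Nat.card (Subgroup.center R) = 4 ∧ Nat.card R = 2 ^ (2 + 2 * k)))
      (hirr : ActsIrreducibly (matrixSet H)) (hle : H ≤ subgroupNormalizer R)
  | tensorPower (k t : ℕ) (e : Fin n ≃ (Fin t → Fin k)) (P : GL (Fin n) F) (G : Matrix (Fin k) (Fin k) F)
      (hk : 3 ≤ k) (ht : 2 ≤ t) (hex : ¬ (q = 2 ∧ k = 3)) (hG : IsUnitaryFormPow q (gramForm (H3.conjQ hF) G))
      (hform : IsTensorPowerFormStructure (fun x : F => x ^ q) (hermForm n F q) (gramForm (H3.conjQ hF) G) e P)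
      (hirr : ActsIrreducibly (matrixSet H)) (hle : H ≤ tensorWreathSubgroup k t e P)
  | residual (hres : InUnitaryResidualClass H) (hirr : ActsIrreducibly (matrixSet H))

variable (hF : Fintype.card F = q ^ 2) {n : ℕ}
include hF

/-- A normalised adjoint-closed field of degree two does not occur. -/
theorem unitary_field {H N : Subgroup (GL (Fin n) F)} (hn : 0 < n) (hirr : ActsIrreducibly (matrixSet H))
    (h : InFormField (unitaryData hF n) H N) : UnitaryCase hF n H := by
  classical
  let D := unitaryData hF n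
  have : Nonempty (Fin n) := ⟨⟨0, hn⟩⟩
  obtain ⟨d, hd, hK, hKa, hKn⟩ := h
  obtain ⟨r, L, hr, -, hrn, hL, hLa, hLn⟩ := exists_prime_field_adj D hK hd hKa hKn
  rw [Fintype.card_fin] at hrn
  rcases hr.eq_two_or_odd' with rfl | hodd
  · exfalso
    have : Nontrivial L := ⟨⟨0, 1, fun e => zero_ne_one (congrArg Subtype.val e)⟩⟩
    have hLF : IsField L :=
      { exists_pair_ne := exists_pair_ne _
        mul_comm := fun a b => Subtype.ext (hL.comm a a.2 b b.2)
        mul_inv_cancel := fun {a} ha => by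
          obtain ⟨y, hy, hxy⟩ := hL.inv a a.2 (fun e => ha (Subtype.ext e))
          exact ⟨⟨y, hy⟩, Subtype.ext hxy⟩ }
    let _ : Field L := hLF.toField
    let _ : Fintype L := Fintype.ofFinite L
    let τ : L →+* L :=
      { toFun := fun x => ⟨D.adj x, hLa _ x.2⟩
        map_one' := Subtype.ext D.adj_one
        map_mul' := fun x y => Subtype.ext (by
          show D.adj ((x : Matrix (Fin n) (Fin n) F) * y) = D.adj x * D.adj y
          rw [hL.comm x x.2 y y.2, D.adj_mul])
        map_zero' := Subtype.ext D.adj_zero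
        map_add' := fun x y => Subtype.ext (D.adj_add _ _) }
    obtain ⟨c, hc⟩ := H3.exists_conj_ne hF
    have hne : ∀ K' : Subfield L, (∀ x, x ∈ K' ↔ τ x = x) → Fintype.card L = Nat.card K' ^ 2 → False := by
      intro K' hK' hcard
      have hL4 : Fintype.card L = (q ^ 2) ^ 2 := by
        rw [← Nat.card_eq_fintype_card, Module.natCard_eq_pow_finrank (K := F), Nat.card_eq_fintype_card, hF]
        exact congrArg _ hL.finrank_eq
      have hK2 : Nat.card K' = q ^ 2 := Nat.pow_left_injective two_ne_zero (hcard.symm.trans hL4)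
      let x : L := ⟨algebraMap F (Matrix (Fin n) (Fin n) F) c, L.algebraMap_mem c⟩
      have hx : x ∈ K' := by
        rw [mem_subfield_iff, hK2]
        refine Subtype.ext ?_
        show (algebraMap F (Matrix (Fin n) (Fin n) F) c) ^ (q ^ 2) = algebraMap F _ c
        rw [← map_pow, ← hF, FiniteField.pow_card]
      have h1 : D.adj (algebraMap F _ c) = algebraMap F _ c := congrArg Subtype.val ((hK' x).1 hx)
      rw [D.adj_algebraMap] at h1
      exact hc ((algebraMap F (Matrix (Fin n) (Fin n) F)).injective h1)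
    by_cases hid : τ = RingHom.id L
    · have h1 : D.adj (algebraMap F _ c) = algebraMap F _ c :=
        congrArg Subtype.val (RingHom.congr_fun hid ⟨_, L.algebraMap_mem c⟩)
      rw [D.adj_algebraMap] at h1
      exact hc ((algebraMap F (Matrix (Fin n) (Fin n) F)).injective h1)
    · obtain ⟨K', hK', hcard⟩ := card_eq_sq_fixed τ (fun x => Subtype.ext (D.adj_adj _)) hid
      exact hne K' hK' hcard
  · have hadj := D.isAdjointClosedFor hLa
    rw [unitaryData_form] at hadj
    exact .field r L hr hodd hrn hL hadj hirr (le_subalgebraNormalizer hLn)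

omit hF in
/-- A symmetric matrix with zero diagonal takes the value zero on the diagonal in characteristic two. -/
lemma quad_eq_zero {ι : Type} [Fintype ι] (h2 : (2 : F) = 0) {G : Matrix ι ι F} (hs : Gᵀ = G)
    (hd : ∀ i, G i i = 0) (u : ι → F) : u ⬝ᵥ (G *ᵥ u) = 0 := by
  classical
  simp only [dotProduct, Matrix.mulVec, Finset.mul_sum]
  rw [← Finset.sum_product']
  refine Finset.sum_involution (fun a _ => a.swap) (fun a _ => ?_) (fun a _ ha => ?_)
    (fun a _ => Finset.mem_univ _) (fun a _ => Prod.swap_swap a)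
  · have : G a.2 a.1 = G a.1 a.2 := congrFun (congrFun hs a.1) a.2
    simp only [Prod.fst_swap, Prod.snd_swap, this]
    linear_combination (u a.1 * G a.1 a.2 * u a.2) * h2
  · intro e
    apply ha
    have : a.1 = a.2 := (congrArg Prod.snd e)
    rw [this, hd, zero_mul, mul_zero]

/-- A symmetric rational Gram matrix with zero diagonal gives the alternating subfield structure. -/
theorem subfieldAlt_of {H : Subgroup (GL (Fin n) F)} (hirr : ActsIrreducibly (matrixSet H)) {K : Subfield F}
    (hK : ∀ x, x ∈ K ↔ H3.conjQ hF x = x) (hc : Fintype.card F = Nat.card K ^ 2) (P : GL (Fin n) F)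
    (hle : H ≤ subfieldSubgroup K P) (h2 : (2 : F) = 0)
    (hent : EntriesIn K ((unitaryData hF n).gramAt P)) (hd : ∀ i, (unitaryData hF n).gramAt P i i = 0) :
    UnitaryCase hF n H := by
  let G := (unitaryData hF n).gramAt P
  have hherm : (G.map (H3.conjQ hF))ᵀ = G := ((unitaryData hF n).gramAt_herm P).trans (one_smul F G)
  have hfix : G.map (H3.conjQ hF) = G := Matrix.ext fun i j => (hK _).1 (hent i j)
  have hs : Gᵀ = G := by rw [hfix] at hherm; exact hherm
  have hu : IsUnit G := (unitaryData hF n).isUnit_gramAt P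
  have hneg : ∀ x : F, -x = x := fun x => by linear_combination (-x) * h2
  have hbil : IsBilinearForm (gramForm (RingHom.id F) G) :=
    ⟨gramForm_add_left _ _, gramForm_smul_left _ _, gramForm_add_right _ _,
      fun c v x => gramForm_smul_right _ _ c v x⟩
  have hev : Even (Fintype.card (Fin n)) := symplectic_even (f := gramForm (RingHom.id F) G)
    ⟨hbil, fun v w => by
      have h1 := gramForm_swap (RingHom.id F) (fun a => rfl) G v w
      rw [show ((G.map (RingHom.id F))ᵀ) = G from hs] at h1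
      rw [hneg]
      exact h1.symm, fun v => quad_eq_zero h2 hs hd v, gramForm_nondegenerate _ hu⟩
  rw [Fintype.card_fin] at hev
  have hf := isFormRationalStructure_of (unitaryData hF n) (ζ := 1) (P := P) (F₁ := K) (by rwa [one_smul])
  rw [unitaryData_form] at hf
  refine .subfieldAlt K P 1 hev hc one_ne_zero (by rw [one_pow]; linear_combination h2) hf ?_ hirr hle
  intro u hu'
  rw [← unitaryData_form hF, FormData.form_gramAt]
  have e : (H3.conjQ hF) ∘ u = u := funext fun i => (hK _).1 (hu' i)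
  show u ⬝ᵥ (G *ᵥ ((H3.conjQ hF) ∘ u)) = 0
  rw [e]
  exact quad_eq_zero h2 hs hd u

/-- In characteristic two an irreducible group forces a symmetric rational Gram matrix to have zero diagonal. -/
theorem diag_eq_zero {H : Subgroup (GL (Fin n) F)} (hn : 2 ≤ n) (hH : H ≤ GU n F q)
    (hirr : ActsIrreducibly (matrixSet H)) {K : Subfield F}
    (hK : ∀ x, x ∈ K ↔ H3.conjQ hF x = x) (P : GL (Fin n) F) (hle : H ≤ subfieldSubgroup K P) (h2 : (2 : F) = 0)
    (hent : EntriesIn K ((unitaryData hF n).gramAt P)) (i : Fin n) : (unitaryData hF n).gramAt P i i = 0 := by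
  classical
  let σ := H3.conjQ hF
  let G := (unitaryData hF n).gramAt P
  have hG : ((unitaryData hF n).gramAt P).map σ = G := Matrix.ext fun i j => (hK _).1 (hent i j)
  have hsym : Gᵀ = G := by
    have := ((unitaryData hF n).gramAt_herm P).trans (one_smul F G)
    rwa [show ((unitaryData hF n).gramAt P).map (unitaryData hF n).σ = G from hG] at this
  have : CharP F 2 := CharTwo.of_one_ne_zero_of_two_eq_zero one_ne_zero h2
  have hsq : Function.Injective fun x : F => x ^ 2 := fun x y e => CharTwo.sq_injective e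
  obtain ⟨a, ha⟩ : ∃ a : Fin n → F, ∀ j, a j ^ 2 = G j j :=
    ⟨fun j => Classical.choose ((Finite.injective_iff_surjective.1 hsq) (G j j)),
      fun j => Classical.choose_spec ((Finite.injective_iff_surjective.1 hsq) (G j j))⟩
  have hquad : ∀ v : Fin n → F, v ⬝ᵥ (G *ᵥ v) = (a ⬝ᵥ v) ^ 2 := by
    intro v
    have h1 : G = Matrix.diagonal (fun j => G j j) + (G - Matrix.diagonal fun j => G j j) := by abel
    conv_lhs => rw [h1]
    rw [Matrix.add_mulVec, dotProduct_add, quad_eq_zero h2 (G := G - Matrix.diagonal fun j => G j j)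
      (by rw [Matrix.transpose_sub, Matrix.diagonal_transpose, hsym]) (fun j => by simp) v, add_zero]
    simp only [dotProduct, Matrix.mulVec_diagonal]
    rw [CharTwo.sum_sq]
    exact Finset.sum_congr rfl fun j _ => by rw [mul_pow, ha]; ring
  by_contra hne
  have hai : a i ≠ 0 := fun e => hne (by rw [show (unitaryData hF n).gramAt P i i = a i ^ 2 from (ha i).symm, e]; simp)
  let ℓ : (Fin n → F) →ₗ[F] F :=
    { toFun := fun v => a ⬝ᵥ (((P⁻¹ : GL (Fin n) F) : Matrix (Fin n) (Fin n) F) *ᵥ v)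
      map_add' := fun x y => by rw [Matrix.mulVec_add, dotProduct_add]
      map_smul' := fun c x => by rw [Matrix.mulVec_smul, dotProduct_smul, RingHom.id_apply] }
  have hsurj : LinearMap.range ℓ = ⊤ := by
    refine LinearMap.range_eq_top.2 fun c => ⟨(P : Matrix (Fin n) (Fin n) F) *ᵥ Pi.single i (c / a i), ?_⟩
    show a ⬝ᵥ _ = c
    rw [Matrix.mulVec_mulVec, ← Units.val_mul, inv_mul_cancel, Units.val_one, Matrix.one_mulVec, dotProduct_single,
      mul_div_cancel₀ _ hai]
  have hinv : IsInv (matrixSet H) (LinearMap.ker ℓ) := by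
    rintro _ ⟨h, hh, rfl⟩ v hv
    obtain ⟨k, hk, hkh⟩ := hle hh
    obtain ⟨a', ⟨a₀, rfl⟩, z, hz, haz⟩ := Subgroup.mem_sup_of_normal_right.1 hk
    obtain ⟨s, hs⟩ := (mem_scalars_iff z).1 hz
    let M : Matrix (Fin n) (Fin n) F := (a₀ : Matrix (Fin n) (Fin n) K).map K.subtype
    have hPh : ((P⁻¹ : GL (Fin n) F) : Matrix (Fin n) (Fin n) F) * (h : Matrix (Fin n) (Fin n) F) =
        (s : F) • (M * ((P⁻¹ : GL (Fin n) F) : Matrix (Fin n) (Fin n) F)) := by
      rw [← hkh, ← haz]
      show ((P⁻¹ : GL (Fin n) F) : Matrix (Fin n) (Fin n) F) * ((P * (_ * z) * P⁻¹ : GL (Fin n) F) : Matrix _ _ F) = _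
      rw [← Units.val_mul, mul_assoc P, ← mul_assoc P⁻¹, inv_mul_cancel, one_mul, Units.val_mul, Units.val_mul, hs,
        mul_smul_comm, mul_one, smul_mul_assoc]
      rfl
    -- the functional is multiplied by a scalar
    obtain ⟨ν, hν⟩ : ∃ ν : F, ∀ w, a ⬝ᵥ (M *ᵥ w) = ν * (a ⬝ᵥ w) := by
      have hGU := hH hh
      have hrat : ∀ w : Fin n → F, (∀ j, w j ∈ K) →
          (s : F) * σ s * (a ⬝ᵥ (M *ᵥ w)) ^ 2 = (a ⬝ᵥ w) ^ 2 := by
        intro w hw
        have e1 : σ ∘ w = w := funext fun j => (hK _).1 (hw j)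
        have e2 : σ ∘ (M *ᵥ w) = M *ᵥ w := by
          rw [comp_mulVec, e1]
          congr 1
          exact Matrix.ext fun x y => (hK _).1 ((a₀ : Matrix (Fin n) (Fin n) K) x y).2
        have h1 := hGU ((P : Matrix (Fin n) (Fin n) F) *ᵥ w) ((P : Matrix (Fin n) (Fin n) F) *ᵥ w)
        rw [← unitaryData_form hF] at h1
        have e3 : (h : Matrix (Fin n) (Fin n) F) *ᵥ ((P : Matrix (Fin n) (Fin n) F) *ᵥ w) =
            (P : Matrix (Fin n) (Fin n) F) *ᵥ ((s : F) • (M *ᵥ w)) := by
          have h4 : (h : Matrix (Fin n) (Fin n) F) * (P : Matrix (Fin n) (Fin n) F) =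
              (P : Matrix (Fin n) (Fin n) F) * ((s : F) • M) := by
            calc _ = (P : Matrix (Fin n) (Fin n) F) * (((P⁻¹ : GL (Fin n) F) : Matrix (Fin n) (Fin n) F) *
                  (h : Matrix (Fin n) (Fin n) F)) * (P : Matrix (Fin n) (Fin n) F) := by
                  rw [← mul_assoc (P : Matrix (Fin n) (Fin n) F), ← Units.val_mul P P⁻¹, mul_inv_cancel, Units.val_one, one_mul]
              _ = _ := by
                  rw [hPh, mul_assoc, smul_mul_assoc, mul_assoc M, ← Units.val_mul, inv_mul_cancel, Units.val_one,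
                    mul_one]
          rw [Matrix.mulVec_mulVec, h4, ← Matrix.mulVec_mulVec, Matrix.smul_mulVec]
        simp only [Units.coeHom_apply] at h1
        rw [e3, FormData.form_gramAt, FormData.form_gramAt, gramForm_smul_left, gramForm_smul_right] at h1
        rw [← hquad, ← hquad, mul_assoc]
        have e5 : gramForm σ G w w = w ⬝ᵥ (G *ᵥ w) := by rw [gramForm, e1]
        have e6 : gramForm σ G (M *ᵥ w) (M *ᵥ w) = (M *ᵥ w) ⬝ᵥ (G *ᵥ (M *ᵥ w)) := by rw [gramForm, e2]
        rw [← e5, ← e6]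
        exact h1
      obtain ⟨ν, hν⟩ := Finite.injective_iff_surjective.1 hsq ((s : F) * σ s)⁻¹
      have hs0 : (s : F) * σ s ≠ 0 := mul_ne_zero s.ne_zero (by simp)
      have hbase : ∀ j, a ⬝ᵥ (M *ᵥ Pi.single j 1) = ν * (a ⬝ᵥ Pi.single j 1) := fun j => by
        apply hsq
        show (_ : F) ^ 2 = _ ^ 2
        rw [mul_pow, show ν ^ 2 = ((s : F) * σ s)⁻¹ from hν, eq_inv_mul_iff_mul_eq₀ hs0]
        exact hrat _ fun k => by
          by_cases hkj : k = j
          · subst hkj; simp [K.one_mem]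
          · simp [hkj, K.zero_mem]
      refine ⟨ν, fun w => ?_⟩
      conv_lhs => rw [pi_eq_sum_univ' w]
      conv_rhs => rw [pi_eq_sum_univ' w]
      simp only [Matrix.mulVec_sum, dotProduct_sum, Matrix.mulVec_smul, dotProduct_smul, hbase, smul_eq_mul,
        Finset.mul_sum, mul_left_comm]
    have hv' : a ⬝ᵥ (((P⁻¹ : GL (Fin n) F) : Matrix (Fin n) (Fin n) F) *ᵥ v) = 0 := hv
    show a ⬝ᵥ (((P⁻¹ : GL (Fin n) F) : Matrix (Fin n) (Fin n) F) *ᵥ ((h : Matrix (Fin n) (Fin n) F) *ᵥ v)) = 0
    rw [Matrix.mulVec_mulVec, hPh, Matrix.smul_mulVec, ← Matrix.mulVec_mulVec, dotProduct_smul, hν, hv', mul_zero,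
      smul_zero]
  have hrank := LinearMap.finrank_range_add_finrank_ker ℓ
  rw [hsurj, finrank_top, Module.finrank_self, Module.finrank_fin_fun] at hrank
  rcases actsIrreducibly_iff.1 hirr _ hinv with h0 | h0
  · rw [h0, finrank_bot] at hrank; omega
  · rw [h0, finrank_top, Module.finrank_fin_fun] at hrank; omega

/-- A subfield structure is one of the three kinds. -/
theorem unitary_subfield {H : Subgroup (GL (Fin n) F)} (hn : 2 ≤ n) (hH : H ≤ GU n F q)
    (hirr : ActsIrreducibly (matrixSet H)) (h : InFormSubfield (unitaryData hF n) H) : UnitaryCase hF n H := by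
  classical
  obtain ⟨F₁, r, P, ζ, hr, hc, hζ, hW, hle⟩ := h
  let σ := H3.conjQ hF
  let D := unitaryData hF n
  let G := D.gramAt P
  have hσσ := H3.conjQ_conjQ hF
  have hG : (G.map σ)ᵀ = G := (D.gramAt_herm P).trans (one_smul F G)
  have hherm : ∀ i j, σ (G j i) = G i j := fun i j => congrFun (congrFun hG i) j
  have hσF : ∀ x ∈ F₁, σ x ∈ F₁ := fun x hx => subfield_map_mem σ hx
  have : Nonempty (Fin n) := ⟨⟨0, by omega⟩⟩
  obtain ⟨i, j, hij⟩ : ∃ i j, G i j ≠ 0 := by
    by_contra h0
    push Not at h0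
    exact (D.isUnit_gramAt P).ne_zero (Matrix.ext h0)
  have hlam : ζ / σ ζ ∈ F₁ := by
    have hji : G j i ≠ 0 := fun e => hij (by rw [← hherm i j, e, map_zero])
    have e : ζ / σ ζ = (ζ • G) i j / σ ((ζ • G) j i) := by
      rw [Matrix.smul_apply, Matrix.smul_apply, smul_eq_mul, smul_eq_mul, map_mul, hherm]
      field_simp
    rw [e]
    exact F₁.div_mem (hW i j) (hσF _ (hW j i))
  have hσζ : σ ζ ≠ 0 := by simpa using hζ
  rcases hr.eq_two_or_odd' with rfl | hodd
  · obtain ⟨K, hK, hKc⟩ := card_eq_sq_fixed σ hσσ (H3.conjQ_ne_id hF)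
    have hKF : F₁ = K := by
      have e : Nat.card F₁ = Nat.card K := Nat.pow_left_injective two_ne_zero (hc.symm.trans hKc)
      ext x
      rw [mem_subfield_iff, mem_subfield_iff, e]
    subst hKF
    have hfix : ∀ i j, σ (ζ * G i j) = ζ * G i j := fun i j => (hK _).1 (hW i j)
    have hl : σ (ζ / σ ζ) = ζ / σ ζ := (hK _).1 hlam
    have hsq : (σ ζ - ζ) * (σ ζ + ζ) = 0 := by
      rw [map_div₀, hσσ, div_eq_div_iff hζ (by simpa using hζ)] at hl
      linear_combination hl
    rcases q_parity hF with hq | h2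
    · rcases mul_eq_zero.1 hsq with h1 | h1
      · rw [sub_eq_zero] at h1
        have hent : EntriesIn F₁ ((1 : F) • G) := fun i j => by
          rw [one_smul]
          have := F₁.div_mem (hW i j) ((hK ζ).2 h1)
          rwa [Matrix.smul_apply, smul_eq_mul, mul_div_cancel_left₀ _ hζ] at this
        have hf := isFormRationalStructure_of D hent
        rw [unitaryData_form] at hf
        exact .subfieldTwo F₁ P hq hc hf hirr hle
      · have halt : ∀ a b, G b a = - G a b := fun a b => by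
          have h3 := hfix a b
          rw [map_mul, ← hherm a b, hσσ, eq_neg_of_add_eq_zero_left h1] at h3
          rw [← hherm a b]
          have h4 := congrArg σ (mul_left_cancel₀ hζ (show ζ * (-(G b a)) = ζ * σ (G b a) by linear_combination h3))
          rw [map_neg, hσσ] at h4
          linear_combination -h4
        have hdiag : ∀ a, G a a = 0 := fun a => by
          have := halt a a
          exact (mul_eq_zero.1 (show (2 : F) * G a a = 0 by linear_combination this)).resolve_left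
            (two_ne_zero_of_odd hF hq)
        have hu : IsUnit (ζ • G) := by
          rw [Matrix.isUnit_iff_isUnit_det, Matrix.det_smul, isUnit_iff_ne_zero]
          exact mul_ne_zero (pow_ne_zero _ hζ)
            (isUnit_iff_ne_zero.1 ((Matrix.isUnit_iff_isUnit_det G).1 (D.isUnit_gramAt P)))
        have hskew : ∀ v w : Fin n → F,
            gramForm (RingHom.id F) (ζ • G) v w = - gramForm (RingHom.id F) (ζ • G) w v := by
          intro v w
          have h4 := gramForm_swap (RingHom.id F) (fun a => rfl) (ζ • G) v w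
          rw [show ((ζ • G).map (RingHom.id F))ᵀ = (-1 : F) • (ζ • G) from Matrix.ext fun a b => by
            show ζ * G b a = -1 * (ζ * G a b); rw [halt a b]; ring] at h4
          simp only [gramForm_smul_gram, RingHom.id_apply] at h4 ⊢
          linear_combination h4
        have hzero : ∀ v : Fin n → F, gramForm (RingHom.id F) (ζ • G) v v = 0 := fun v => by
          have := hskew v v
          exact (mul_eq_zero.1
            (show (2 : F) * gramForm (RingHom.id F) (ζ • G) v v = 0 by linear_combination this)).resolve_left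
            (two_ne_zero_of_odd hF hq)
        have hev : Even (Fintype.card (Fin n)) := symplectic_even (f := gramForm (RingHom.id F) (ζ • G))
          ⟨⟨gramForm_add_left _ _, gramForm_smul_left _ _, gramForm_add_right _ _,
              fun c v x => gramForm_smul_right _ _ c v x⟩, hskew, hzero, gramForm_nondegenerate _ hu⟩
        rw [Fintype.card_fin] at hev
        have hf := isFormRationalStructure_of D hW
        rw [unitaryData_form] at hf
        refine .subfieldAlt F₁ P ζ hev hc hζ ?_ hf ?_ hirr hle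
        · rw [← H3.conjQ_apply hF]; linear_combination h1
        · intro u hu'
          rw [← unitaryData_form hF, FormData.form_gramAt]
          have e : σ ∘ u = u := funext fun i => (hK _).1 (hu' i)
          have h5 := hzero u
          rw [gramForm_smul_gram, mul_eq_zero] at h5
          show u ⬝ᵥ (G *ᵥ (σ ∘ u)) = 0
          rw [e]
          exact h5.resolve_left hζ
    · have h1 : σ ζ = ζ := by
        rcases mul_eq_zero.1 hsq with h1 | h1
        · exact sub_eq_zero.1 h1
        · linear_combination h1 - ζ * h2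
      have hent : EntriesIn F₁ G := fun a b => by
        have := F₁.div_mem (hW a b) ((hK ζ).2 h1)
        rwa [Matrix.smul_apply, smul_eq_mul, mul_div_cancel_left₀ _ hζ] at this
      exact subfieldAlt_of hF hirr hK hc P hle h2 hent (diag_eq_zero hF hn hH hirr hK P hle h2 hent)
  · obtain ⟨a, ha, haσ⟩ : ∃ a ∈ F₁, σ a ≠ a := by
      by_contra h0
      push Not at h0
      obtain ⟨K, hK, hKc⟩ := card_eq_sq_fixed σ hσσ (H3.conjQ_ne_id hF)
      obtain ⟨m, hm⟩ := exists_card_eq_pow_of_le (show F₁ ≤ K from fun x hx => (hK x).2 (h0 x hx))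
      rw [hc, hm, ← pow_mul] at hKc
      have := Nat.pow_right_injective (Finite.one_lt_card : 1 < Nat.card F₁) hKc
      rw [this] at hodd
      exact Nat.not_even_iff_odd.2 hodd ⟨m, by ring⟩
    obtain ⟨z, hz, hz0, hzl⟩ : ∃ z ∈ F₁, z ≠ 0 ∧ z = ζ / σ ζ * σ z := by
      have hls : ζ / σ ζ * σ (ζ / σ ζ) = 1 := by
        rw [map_div₀, hσσ]
        field_simp
      have key : ∀ x, x + ζ / σ ζ * σ x = ζ / σ ζ * σ (x + ζ / σ ζ * σ x) := fun x => by
        rw [map_add, map_mul, hσσ]
        linear_combination -x * hls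
      by_cases h1 : 1 + ζ / σ ζ = 0
      · refine ⟨a + ζ / σ ζ * σ a, F₁.add_mem ha (F₁.mul_mem hlam (hσF _ ha)), ?_, key a⟩
        rw [eq_neg_of_add_eq_zero_right h1]
        intro e
        exact haσ (by linear_combination -e)
      · exact ⟨1 + ζ / σ ζ * σ 1, F₁.add_mem F₁.one_mem (F₁.mul_mem hlam (hσF _ F₁.one_mem)),
          by rwa [map_one, mul_one], key 1⟩
    have hμ : (ζ / z) ^ q = ζ / z := by
      rw [← H3.conjQ_apply hF, map_div₀, div_eq_div_iff ((map_ne_zero σ).2 hz0) hz0]
      have e : z * σ ζ = ζ * σ z := by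
        conv_lhs => rw [hzl]
        field_simp
      linear_combination e
    obtain ⟨x, hx⟩ := H3.exists_norm_eq hF hμ
    have hx0 : x ≠ 0 := fun e => by
      rw [e, zero_pow (by omega)] at hx
      exact div_ne_zero hζ hz0 hx.symm
    let S : GL (Fin n) F := Units.map (Matrix.scalar (Fin n) : F →+* _).toMonoidHom (Units.mk0 x hx0)
    have hS : (S : Matrix (Fin n) (Fin n) F) = x • (1 : Matrix (Fin n) (Fin n) F) := by
      simp [S, Matrix.smul_one_eq_diagonal]
    have hent : EntriesIn F₁ ((1 : F) • D.gramAt (P * S)) := fun a b => by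
      rw [one_smul, FormData.gramAt_mul, hS, Matrix.transpose_smul, Matrix.transpose_one, smul_one_mul,
        Matrix.map_smul' _ _ _ (map_mul D.σ), Matrix.map_one _ (map_zero D.σ) (map_one D.σ), mul_smul_comm,
        mul_one, smul_smul, Matrix.smul_apply, smul_eq_mul]
      rw [show D.σ x * x = x ^ (q + 1) from (pow_succ x q).symm, hx, div_mul_eq_mul_div]
      exact F₁.div_mem (hW a b) hz
    have hf := isFormRationalStructure_of D hent
    rw [unitaryData_form] at hf
    exact .subfieldOdd F₁ r (P * S) hr hodd hc hf hirr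
      (by rwa [subfieldSubgroup_scalar F₁ P ⟨_, rfl⟩])

/-- A tensor decomposition of two planes gives a subfield structure. -/
theorem unitary_two_two {H : Subgroup (GL (Fin n) F)} (hH : H ≤ GU n F q) (hirr : ActsIrreducibly (matrixSet H))
    (e : Fin n ≃ Fin 2 × Fin 2) (P : GL (Fin n) F) {c : F} (hc : c ≠ 0) {G₁ G₂ : Matrix (Fin 2) (Fin 2) F}
    (hu1 : IsUnit G₁) (hu2 : IsUnit G₂) (hh1 : (G₁.map (H3.conjQ hF))ᵀ = G₁)
    (hh2 : (G₂.map (H3.conjQ hF))ᵀ = G₂) (hgram : (unitaryData hF n).gramAt P = c • tens e G₁ G₂)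
    (hle : H ≤ tensorProductSubgroup 2 2 e P) : UnitaryCase hF n H := by
  classical
  let σ := H3.conjQ hF
  let D := unitaryData hF n
  have hσσ := H3.conjQ_conjQ hF
  have : Nonempty (Fin n) := ⟨e.symm (0, 0)⟩
  obtain ⟨ζ, hζ, hζq⟩ := H3.exists_trace_zero_ne_zero hF
  have hζσ : σ ζ = -ζ := eq_neg_of_add_eq_zero_right hζq
  let J : Matrix (Fin 2) (Fin 2) F := !![0, 1; -1, 0]
  have hJσ : J.map σ = J := by
    ext a b; fin_cases a <;> fin_cases b <;> simp [J]
  have hJT : Jᵀ = -J := by
    ext a b; fin_cases a <;> fin_cases b <;> simp [J]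
  have hJu : IsUnit J := by
    rw [Matrix.isUnit_iff_isUnit_det, Matrix.det_fin_two]
    simp [J]
  have hJg : ∀ g : Matrix (Fin 2) (Fin 2) F, gᵀ * J * g = g.det • J := by
    intro g
    ext a b
    rw [Matrix.det_fin_two]
    fin_cases a <;> fin_cases b <;> simp [J, Matrix.mul_apply, Fin.sum_univ_two] <;> ring
  have hju : IsUnit (ζ • J) := by
    rw [Matrix.isUnit_iff_isUnit_det, Matrix.det_smul]
    exact (isUnit_iff_ne_zero.2 (pow_ne_zero _ hζ)).mul ((Matrix.isUnit_iff_isUnit_det J).1 hJu)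
  have hjh : ((ζ • J).map σ)ᵀ = ζ • J := by
    rw [Matrix.map_smul' _ _ _ (map_mul σ), Matrix.transpose_smul, hJσ, hJT, hζσ, neg_smul, smul_neg, neg_neg]
  obtain ⟨S₁, hS₁⟩ := exists_congr hF hu1 hh1 hju hjh
  obtain ⟨S₂, hS₂⟩ := exists_congr hF hu2 hh2 hju hjh
  let P' := P * tensUnit e S₁ S₂
  have hle' : H ≤ tensorProductSubgroup 2 2 e P' := hle.trans (tensorProductSubgroup_base e P S₁ S₂)
  have hgram' : D.gramAt P' = (c * (ζ * ζ)) • tens e J J := by
    rw [FormData.gramAt_mul, hgram]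
    show (tens e (S₁ : Matrix _ _ F) (S₂ : Matrix _ _ F))ᵀ * _ * (tens e (S₁ : Matrix _ _ F) (S₂ : Matrix _ _ F)).map σ = _
    rw [tens_transpose, tens_map, mul_smul_comm, smul_mul_assoc, tens_mul, tens_mul, hS₁, hS₂, tens_smul_left,
      tens_smul_right, smul_smul, smul_smul, mul_assoc]
  set d := c * (ζ * ζ) with hd
  have hd0 : d ≠ 0 := mul_ne_zero hc (mul_ne_zero hζ hζ)
  have htJ : IsUnit (tens e J J) := by
    obtain ⟨u, hu⟩ := hJu
    exact ⟨tensUnit e u u, by rw [← hu]; rfl⟩
  have hsymJ : (tens e J J)ᵀ = tens e J J := by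
    rw [tens_transpose, hJT]
    ext a b
    simp [tens_apply]
  have hdσ : σ d = d := by
    have h1 := D.gramAt_herm P'
    rw [hgram', Matrix.map_smul' _ _ _ (map_mul D.σ), Matrix.transpose_smul, tens_map] at h1
    rw [show J.map D.σ = J from hJσ, hsymJ, show D.ε = 1 from rfl, one_smul] at h1
    exact smul_left_injective F htJ.ne_zero h1
  obtain ⟨K, hK, hKc⟩ := card_eq_sq_fixed σ hσσ (H3.conjQ_ne_id hF)
  have hJK : ∀ a b, J a b ∈ K := fun a b => (hK _).2 (congrFun (congrFun hJσ a) b)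
  have hent : EntriesIn K (D.gramAt P') := fun a b => by
    rw [hgram', Matrix.smul_apply, tens_apply, smul_eq_mul]
    exact K.mul_mem ((hK _).2 hdσ) (K.mul_mem (hJK _ _) (hJK _ _))
  have hleK : H ≤ subfieldSubgroup K P' := by
    intro h hh
    obtain ⟨a, b, hab⟩ := mem_tensorProductSubgroup_iff.1 (hle' hh)
    have e3 : ((P'⁻¹ * h * P' : GL (Fin n) F) : Matrix (Fin n) (Fin n) F) =
        tens e (a : Matrix (Fin 2) (Fin 2) F) (b : Matrix (Fin 2) (Fin 2) F) := by
      rw [Units.val_mul, Units.val_mul, hab]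
      simp only [← mul_assoc]
      rw [← Units.val_mul, inv_mul_cancel, Units.val_one, one_mul, mul_assoc, ← Units.val_mul, inv_mul_cancel,
        Units.val_one, mul_one]
    have h1 : (tens e (a : Matrix (Fin 2) (Fin 2) F) (b : Matrix (Fin 2) (Fin 2) F))ᵀ * D.gramAt P' *
        (tens e (a : Matrix (Fin 2) (Fin 2) F) (b : Matrix (Fin 2) (Fin 2) F)).map D.σ = D.gramAt P' := by
      rw [← e3, ← FormData.gramAt_mul]
      rw [show P' * (P'⁻¹ * h * P') = h * P' by simp [mul_assoc]]
      refine eq_of_gramForm_eq D.σ fun u v => ?_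
      rw [← FormData.form_gramAt, ← FormData.form_gramAt, Units.val_mul, ← Matrix.mulVec_mulVec,
        ← Matrix.mulVec_mulVec]
      have hI : h ∈ D.isom := by rw [unitaryData_isom]; exact hH hh
      exact hI _ _
    rw [hgram', mul_smul_comm, smul_mul_assoc, tens_transpose, tens_map, tens_mul, tens_mul] at h1
    obtain ⟨x, hx, hax, hbx⟩ := tens_eq_tens e hJu.ne_zero hJu.ne_zero (smul_right_injective _ hd0 h1)
    have key : ∀ (g : GL (Fin 2) F) (μ : F), μ ≠ 0 →
        (g : Matrix (Fin 2) (Fin 2) F)ᵀ * J * (g : Matrix (Fin 2) (Fin 2) F).map σ = μ • J →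
        ∃ z : F, z ≠ 0 ∧ EntriesIn K (z • (g : Matrix (Fin 2) (Fin 2) F)) := by
      intro g μ hμ hg
      have hdet : (g : Matrix (Fin 2) (Fin 2) F).det ≠ 0 := Matrix.GeneralLinearGroup.det_ne_zero g
      set y := μ / (g : Matrix (Fin 2) (Fin 2) F).det with hy
      have h4 : (g : Matrix (Fin 2) (Fin 2) F).map σ = y • (g : Matrix (Fin 2) (Fin 2) F) := by
        refine (((Matrix.isUnit_transpose _).2 (Units.isUnit g)).mul hJu).mul_left_cancel ?_
        rw [mul_smul_comm, hJg, smul_smul, hg, hy, div_mul_cancel₀ _ hdet]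
      have h5 : σ y * y = 1 := by
        have h6 : (1 : F) • (g : Matrix (Fin 2) (Fin 2) F) = (σ y * y) • (g : Matrix (Fin 2) (Fin 2) F) := by
          rw [one_smul, mul_smul, ← h4, ← Matrix.map_smul' _ _ _ (map_mul σ), ← h4]
          exact Matrix.ext fun a b => (hσσ _).symm
        exact (smul_left_injective F (Units.ne_zero g) h6).symm
      obtain ⟨z, hz0, hz⟩ := exists_hilbert σ hσσ (H3.conjQ_ne_id hF) h5
      refine ⟨z, hz0, fun a b => (hK _).2 ?_⟩
      rw [Matrix.smul_apply, smul_eq_mul, map_mul, show σ ((g : Matrix (Fin 2) (Fin 2) F) a b) =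
        y * (g : Matrix (Fin 2) (Fin 2) F) a b from congrFun (congrFun h4 a) b, ← mul_assoc, hz]
    obtain ⟨z, hz, hza⟩ := key a x hx hax
    obtain ⟨w, hw, hwb⟩ := key b x⁻¹ (inv_ne_zero hx) hbx
    refine mem_subfieldSubgroup_of_entries K P' h (c := (z * w)⁻¹) (inv_ne_zero (mul_ne_zero hz hw))
      (M := tens e (z • (a : Matrix (Fin 2) (Fin 2) F)) (w • (b : Matrix (Fin 2) (Fin 2) F))) ?_ ?_
    · intro u v
      rw [tens_apply]
      exact K.mul_mem (hza _ _) (hwb _ _)
    · rw [e3, tens_smul_left, tens_smul_right, smul_smul, smul_smul, mul_assoc, inv_mul_cancel₀ (mul_ne_zero hz hw), one_smul]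
  rcases q_parity hF with hq | h2
  · have hf := isFormRationalStructure_of D (ζ := 1) (P := P') (F₁ := K) (by rwa [one_smul])
    rw [unitaryData_form] at hf
    exact .subfieldTwo K P' hq hKc hf hirr hleK
  · refine subfieldAlt_of hF hirr hK hKc P' hleK h2 hent fun i => ?_
    rw [hgram', Matrix.smul_apply, tens_apply]
    have : ∀ a, J a a = 0 := fun a => by fin_cases a <;> simp [J]
    rw [this, zero_mul, smul_zero]

/-- A tensor decomposition of the unitary form. -/
theorem unitary_tensor {H : Subgroup (GL (Fin n) F)} (hH : H ≤ GU n F q)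
    (hirr : ActsIrreducibly (matrixSet H)) (h : InFormTensor (unitaryData hF n) H) : UnitaryCase hF n H := by
  classical
  let D := unitaryData hF n
  obtain ⟨s, t, e, P, G₁, G₂, a₁, a₂, hs, ht, hgram, hG₁, hG₂, -, hle⟩ := h
  have hσσ := H3.conjQ_conjQ hF
  have : Nonempty (Fin s) := ⟨⟨0, by omega⟩⟩
  have : Nonempty (Fin t) := ⟨⟨0, by omega⟩⟩
  obtain ⟨b₁, hb₁, hh1, -⟩ := exists_herm_scale _ hσσ (H3.conjQ_ne_id hF) (Units.ne_zero G₁) hG₁
  obtain ⟨b₂, hb₂, hh2, -⟩ := exists_herm_scale _ hσσ (H3.conjQ_ne_id hF) (Units.ne_zero G₂) hG₂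
  have hu : ∀ {m : ℕ} (G : GL (Fin m) F) (b : F), b ≠ 0 → IsUnit (b • (G : Matrix (Fin m) (Fin m) F)) :=
    fun G b hb => by
      rw [Matrix.isUnit_iff_isUnit_det, Matrix.det_smul]
      exact (isUnit_iff_ne_zero.2 (pow_ne_zero _ hb)).mul ((Matrix.isUnit_iff_isUnit_det _).1 (Units.isUnit G))
  have hu1 := hu G₁ b₁ hb₁
  have hu2 := hu G₂ b₂ hb₂
  have hgram' : D.gramAt P = (b₁ * b₂)⁻¹ •
      tens e (b₁ • (G₁ : Matrix (Fin s) (Fin s) F)) (b₂ • (G₂ : Matrix (Fin t) (Fin t) F)) := by
    rw [hgram, tens_smul_left, tens_smul_right, smul_smul, smul_smul, mul_assoc, inv_mul_cancel₀ (mul_ne_zero hb₁ hb₂),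
      one_smul]
  have hc : (b₁ * b₂)⁻¹ ≠ 0 := inv_ne_zero (mul_ne_zero hb₁ hb₂)
  rcases lt_trichotomy s t with hst | rfl | hst
  · have hform := isTensorFormStructure_of D (σ' := fun x : F => x ^ q) (fun a => rfl) e P hc hgram'
    rw [unitaryData_form] at hform
    exact .tensor s t e P _ _ hs hst (isUnitaryFormPow_gram hF hu1 hh1) (isUnitaryFormPow_gram hF hu2 hh2)
      hform hirr hle
  · by_cases hs2 : s = 2
    · subst hs2
      exact unitary_two_two hF hH hirr e P hc hu1 hu2 hh1 hh2 hgram' hle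
    obtain ⟨S₁, hS₁⟩ := exists_congr_one hF hu1 hh1
    obtain ⟨S₂, hS₂⟩ := exists_congr_one hF hu2 hh2
    let P' := P * tensUnit e S₁ S₂
    have hle' : H ≤ tensorProductSubgroup s s e P' := hle.trans (tensorProductSubgroup_base e P S₁ S₂)
    have hgram1 : D.gramAt P' = (b₁ * b₂)⁻¹ • (1 : Matrix (Fin n) (Fin n) F) := by
      rw [FormData.gramAt_mul, hgram']
      show (tens e (S₁ : Matrix _ _ F) (S₂ : Matrix _ _ F))ᵀ * _ *
        (tens e (S₁ : Matrix _ _ F) (S₂ : Matrix _ _ F)).map (H3.conjQ hF) = _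
      rw [tens_transpose, tens_map, mul_smul_comm, smul_mul_assoc, tens_mul, tens_mul, hS₁, hS₂, tens_one]
    by_cases hsmall : q = 2 ∧ s = 3
    · obtain ⟨rfl, rfl⟩ := hsmall
      have hI : H ≤ D.isom := by rw [unitaryData_isom]; exact hH
      obtain ⟨R, hR, habs, hRI, hz, hcard, hmin, hnorm⟩ := SmallU.small_typeTwo hF e D rfl P' hc hgram1 hI hle'
      rw [unitaryData_isom] at hRI
      have hn : n = 3 ^ 2 := by simpa using Fintype.card_congr e
      refine .typeTwo 3 R 2 2 2 hR habs
        (fun x hx => ⟨1, fun u v => by rw [Units.val_one, one_mul]; exact hRI hx u v⟩) (by decide)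
        (by rwa [hz]) hn (by omega) (Or.inl ⟨by decide, hz, by rw [hcard]; norm_num, hRI⟩) hirr hnorm
    have hform := isTensorPowerFormStructure_of D (σ' := fun x : F => x ^ q) (fun a => rfl)
      (e.trans (finTwoArrowEquiv (Fin s)).symm) P' (G := (1 : Matrix (Fin s) (Fin s) F)) hc (by
        rw [hgram1]
        congr 1
        exact (show (1 : Matrix (Fin n) (Fin n) F) = Matrix.reindexAlgEquiv F F _ (tpow 1) by rw [tpow_one, map_one]))
    rw [unitaryData_form] at hform
    exact .tensorPower s 2 _ P' 1 (by omega) le_rfl hsmall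
      (isUnitaryFormPow_gram hF isUnit_one (by
        rw [Matrix.map_one _ (map_zero _) (map_one _), Matrix.transpose_one]))
      hform hirr (hle'.trans (tensorProductSubgroup_le_wreath e P'))
  · let e' := e.trans (Equiv.prodComm (Fin s) (Fin t))
    have hswap : tens e (b₁ • (G₁ : Matrix (Fin s) (Fin s) F)) (b₂ • (G₂ : Matrix (Fin t) (Fin t) F)) =
        tens e' (b₂ • (G₂ : Matrix (Fin t) (Fin t) F)) (b₁ • (G₁ : Matrix (Fin s) (Fin s) F)) := by
      ext u v
      rw [tens_apply, tens_apply, mul_comm]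
      rfl
    have hform := isTensorFormStructure_of D (σ' := fun x : F => x ^ q) (fun a => rfl) e' P hc
      (hswap ▸ hgram')
    rw [unitaryData_form] at hform
    exact .tensor t s e' P _ _ ht hst (isUnitaryFormPow_gram hF hu2 hh2) (isUnitaryFormPow_gram hF hu1 hh1)
      hform hirr (hle.trans (tensorProductSubgroup_swap e P))

/-- A tensor power of the unitary form. -/
theorem unitary_tensorPower {H : Subgroup (GL (Fin n) F)} (hirr : ActsIrreducibly (matrixSet H))
    (h : InFormTensorPower (unitaryData hF n) H) : UnitaryCase hF n H := by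
  classical
  let D := unitaryData hF n
  obtain ⟨s, k, e, P, G, c, a, hs, hk, hc, hgram, hG, -, hle, hs2, Q, hQperf, hQ, hQfix⟩ := h
  have hs3 : 3 ≤ s := by
    by_contra h3
    exact H3.conjQ_ne_id hF (hs2 (by omega))
  have hσσ := H3.conjQ_conjQ hF
  have : Nonempty (Fin s) := ⟨⟨0, by omega⟩⟩
  obtain ⟨b, hb, hh, -⟩ := exists_herm_scale _ hσσ (H3.conjQ_ne_id hF) (Units.ne_zero G) hG
  have hu : IsUnit (b • (G : Matrix (Fin s) (Fin s) F)) := by
    rw [Matrix.isUnit_iff_isUnit_det, Matrix.det_smul]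
    exact (isUnit_iff_ne_zero.2 (pow_ne_zero _ hb)).mul ((Matrix.isUnit_iff_isUnit_det _).1 (Units.isUnit G))
  have hex : ¬ (q = 2 ∧ s = 3) := by
    rintro ⟨rfl, rfl⟩
    obtain ⟨S, hS⟩ := exists_congr_one hF hu hh
    let Q' := Q.map (MulAut.conj S⁻¹).toMonoidHom
    have hQ'le : Q' ≤ GU 3 F 2 := by
      rintro _ ⟨x, hx, rfl⟩
      rw [← unitaryData_isom hF]
      intro u v
      let y : Matrix (Fin 3) (Fin 3) F := ((S⁻¹ * x * S : GL (Fin 3) F) : Matrix (Fin 3) (Fin 3) F)
      show (unitaryData hF 3).form (((MulAut.conj S⁻¹ x : GL (Fin 3) F) : Matrix (Fin 3) (Fin 3) F) *ᵥ u)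
        (((MulAut.conj S⁻¹ x : GL (Fin 3) F) : Matrix (Fin 3) (Fin 3) F) *ᵥ v) = _
      rw [show (MulAut.conj S⁻¹ x : GL (Fin 3) F) = S⁻¹ * x * S by simp]
      have h1 : yᵀ * y.map (H3.conjQ hF) = 1 := by
        have hx' : (x : Matrix (Fin 3) (Fin 3) F)ᵀ * (b • (G : Matrix (Fin 3) (Fin 3) F)) *
            (x : Matrix (Fin 3) (Fin 3) F).map (H3.conjQ hF) = b • (G : Matrix (Fin 3) (Fin 3) F) := by
          rw [mul_smul_comm, smul_mul_assoc]
          exact congrArg _ (hQfix x hx)
        have e1 : (S : Matrix (Fin 3) (Fin 3) F) * y = (x : Matrix (Fin 3) (Fin 3) F) * S := by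
          show (S : Matrix (Fin 3) (Fin 3) F) * ((S⁻¹ * x * S : GL (Fin 3) F) : Matrix _ _ F) = _
          rw [← Units.val_mul, ← Units.val_mul]
          simp [mul_assoc]
        calc yᵀ * y.map (H3.conjQ hF)
            = yᵀ * ((S : Matrix (Fin 3) (Fin 3) F)ᵀ * (b • (G : Matrix (Fin 3) (Fin 3) F)) *
                (S : Matrix (Fin 3) (Fin 3) F).map (H3.conjQ hF)) * y.map (H3.conjQ hF) := by rw [hS, mul_one]
          _ = ((S : Matrix (Fin 3) (Fin 3) F) * y)ᵀ * (b • (G : Matrix (Fin 3) (Fin 3) F)) *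
                ((S : Matrix (Fin 3) (Fin 3) F) * y).map (H3.conjQ hF) := by
              simp only [Matrix.transpose_mul, Matrix.map_mul, mul_assoc]
          _ = (S : Matrix (Fin 3) (Fin 3) F)ᵀ * ((x : Matrix (Fin 3) (Fin 3) F)ᵀ *
                (b • (G : Matrix (Fin 3) (Fin 3) F)) * (x : Matrix (Fin 3) (Fin 3) F).map (H3.conjQ hF)) *
                (S : Matrix (Fin 3) (Fin 3) F).map (H3.conjQ hF) := by
              rw [e1]; simp only [Matrix.transpose_mul, Matrix.map_mul, mul_assoc]
          _ = 1 := by rw [hx', hS]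
      show gramForm (H3.conjQ hF) (1 : Matrix (Fin 3) (Fin 3) F) (y *ᵥ u) (y *ᵥ v) = _
      rw [gramForm_mulVec, mul_one, h1]
      rfl
    have hperf : ⁅Q', Q'⁆ = Q' := by rw [← Subgroup.map_commutator, hQperf]
    have hne : Q' ≠ ⊥ := fun e0 => hQ ((Subgroup.map_eq_bot_iff_of_injective Q (MulEquiv.injective _)).1 e0)
    have hsol : Group.IsSolvable (GU 3 F 2) := by
      refine H25.isSolvable_of_card_eq_mul_pow (a := 3) (b := 4) Nat.prime_two Nat.prime_three ?_
      rw [H3.card_GU hF]
      decide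
    let Q'' := Q'.subgroupOf (GU 3 F 2)
    have hmap : Q''.map (GU 3 F 2).subtype = Q' := Subgroup.map_subgroupOf_eq_of_le hQ'le
    have hperf'' : ⁅Q'', Q''⁆ = Q'' := by
      apply Subgroup.map_injective (GU 3 F 2).subtype_injective
      rw [Subgroup.map_commutator, hmap, hperf]
    have hne'' : Q'' ≠ ⊥ := fun e0 => hne (by rw [← hmap, e0, Subgroup.map_bot])
    exact (Group.IsSolvable.commutator_lt_of_ne_bot hne'').ne hperf''
  have hgram' : D.gramAt P = (c / b ^ k) • Matrix.reindexAlgEquiv F F e.symm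
      (tpow fun _ => b • (G : Matrix (Fin s) (Fin s) F)) := by
    rw [hgram, tpow_smul, Finset.prod_const, Finset.card_univ, Fintype.card_fin, map_smul, smul_smul,
      div_mul_cancel₀ _ (pow_ne_zero _ hb)]
  have hform := isTensorPowerFormStructure_of D (σ' := fun x : F => x ^ q) (fun a => rfl) e P
    (div_ne_zero hc (pow_ne_zero _ hb)) hgram'
  rw [unitaryData_form] at hform
  exact .tensorPower s k e P _ hs3 hk hex (isUnitaryFormPow_gram hF hu hh) hform hirr hle

/-- The residual outcome. -/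
theorem unitary_residual {H : Subgroup (GL (Fin n) F)} (hn : 0 < n) (hirr : ActsIrreducibly (matrixSet H))
    (h : InFormResidual (unitaryData hF n) H) : UnitaryCase hF n H := by
  have : Nonempty (Fin n) := ⟨⟨0, hn⟩⟩
  obtain ⟨N, hcore, -, huniq⟩ := h
  have key : ∀ f : (Fin n → F) → (Fin n → F) → F, IsBilinearForm f → IsNondegenerateForm f →
      FixesForm (matrixSet N) f → False := fun f hf hnd hfix =>
    H3.conjQ_ne_id hF (huniq (RingHom.id F) (gramMatrix f)
      (fixesGram_of_fixesForm (RingHom.id F) hf.add_left hf.smul_left hf.add_right hf.smul_right hfix)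
      (gram_ne_zero (RingHom.id F)
        (eq_gramForm (RingHom.id F) hf.add_left hf.smul_left hf.add_right hf.smul_right) hnd)).symm
  refine .residual ⟨N, hcore, ?_, ?_⟩ hirr
  · rintro ⟨Q, hQ, hfix⟩
    exact key _ hQ.polar_bilinear hQ.nondegenerate fun s hs u v => by
      simp only [QuadraticMap.polar, ← Matrix.mulVec_add, hfix s hs]
  · rintro ⟨f, hf, hfix⟩
    exact key f hf.bilinear hf.nondegenerate hfix

/-- A normaliser of a symplectic-type group. -/
theorem unitary_typeTwo {H : Subgroup (GL (Fin n) F)} (hirr : ActsIrreducibly (matrixSet H))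
    (h : InFormTypeTwo (unitaryData hF n) H) : UnitaryCase hF n H := by
  obtain ⟨r, R, p, e, k, hR, habs, hsim, hrp, hmin, hn, hk, hcard, hle, hcase⟩ := h
  rw [Fintype.card_fin] at hn
  rw [unitaryData_form] at hsim
  refine .typeTwo r R p e k hR habs hsim hrp hmin hn hk ?_ hirr hle
  rcases hcase with ⟨-, hodd, hz, hI⟩ | ⟨-, rfl, he, hz⟩ | ⟨hid, -⟩
  · rw [unitaryData_isom] at hI
    exact Or.inl ⟨hodd, hz, by rw [hcard, hz, ← pow_succ', add_comm 1], hI⟩
  · exact Or.inr ⟨rfl, he, hz, by rw [hcard, hz, show (4 : ℕ) = 2 ^ 2 from rfl, ← pow_add]⟩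
  · exact absurd hid (H3.conjQ_ne_id hF)

/-- Aschbacher's theorem for the unitary group. -/
theorem unitary_aschbacher (hn : 3 ≤ n) {H : Subgroup (GL (Fin n) F)} (hH : H ≤ GU n F q) :
    UnitaryCase hF n H := by
  have : Nonempty (Fin n) := ⟨⟨0, by omega⟩⟩
  have hI : H ≤ (unitaryData hF n).isom := by rw [unitaryData_isom]; exact hH
  rcases form_aschbacher (unitaryData hF n) (by simpa using hn) hI with h | h | ⟨hirr, h⟩
  · rcases h with ⟨W, hW, hts, hle⟩ | ⟨W, hW, hnd, hdim, hle⟩
    · rw [unitaryData_form] at hts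
      exact .singular W hW hts hle
    · rw [unitaryData_form] at hnd
      rw [Fintype.card_fin] at hdim
      exact .nondeg W hW hnd hdim hle
  · obtain ⟨t, k, V, hV, hle⟩ := h
    rw [unitaryData_form] at hV
    exact .decomp t k V hV ((mDecomposition_card hV.decomp).trans (Fintype.card_fin n)) hle
  · rcases h with h | ⟨N, -, -, h⟩ | h | h | h | h | h
    · obtain ⟨k, V, hk, hV, hts, hle⟩ := halves_decomposition (unitaryData hF n) hirr h
      rw [unitaryData_form] at hts
      rw [Fintype.card_fin] at hk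
      exact .halves k V hk hV hts hirr hle
    · exact unitary_field hF (by omega) hirr h
    · exact unitary_tensor hF hH hirr h
    · exact unitary_subfield hF (by omega) hH hirr h
    · exact unitary_typeTwo hF hirr h
    · exact unitary_tensorPower hF hirr h
    · exact unitary_residual hF (by omega) hirr h

end Cfsg.Agent.H99.Asch
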