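import Cfsg.Agent.H99.Aschbacher.Linear

/-!
Aschbacher's theorem relative to a form, groundwork: a non-degenerate reflexive sesquilinear form given by its
Gram matrix, the adjoint anti-automorphism of the matrix algebra, perpendicular subspaces, and the first
reduction for reducible groups.
-/

set_option autoImplicit false

open scoped MatrixGroups Matrix Kronecker

namespace Cfsg.Agent.H99.Asch

open Cfsg.Geo

variable {ι : Type} [Fintype ι] [DecidableEq ι] {F : Type*} [Field F]

/-- A non-degenerate sesquilinear form with f(v, u) = ε⁻¹ σ(f(u, v)), given by its Gram matrix. -/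
structure FormData (ι : Type) [Fintype ι] [DecidableEq ι] (F : Type*) [Field F] where
  /-- The field automorphism. -/
  σ : F →+* F
  invol : ∀ a, σ (σ a) = a
  /-- The Gram matrix. -/
  U : GL ι F
  /-- The sign. -/
  ε : F
  eps_ne : ε ≠ 0
  herm : ((U : Matrix ι ι F).map σ)ᵀ = ε • (U : Matrix ι ι F)

namespace FormData

variable (D : FormData ι F)

/-- The form. -/
def form : (ι → F) → (ι → F) → F := gramForm D.σ (D.U : Matrix ι ι F)

/-- The adjoint: f (M u) v = f u (adj M v). -/
def adj (M : Matrix ι ι F) : Matrix ι ι F :=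
  (((D.U⁻¹ : GL ι F) : Matrix ι ι F) * Mᵀ * (D.U : Matrix ι ι F)).map D.σ

lemma map_map (M : Matrix ι ι F) : (M.map D.σ).map D.σ = M := by
  ext i j; exact D.invol _

lemma transpose_mul_U (M : Matrix ι ι F) :
    Mᵀ * (D.U : Matrix ι ι F) = (D.U : Matrix ι ι F) * (D.adj M).map D.σ := by
  rw [adj, map_map, ← mul_assoc, ← mul_assoc, ← Units.val_mul, mul_inv_cancel, Units.val_one, one_mul]

lemma form_adj (M : Matrix ι ι F) (u v : ι → F) : D.form (M *ᵥ u) v = D.form u (D.adj M *ᵥ v) := by
  rw [form, gramForm, gramForm, comp_mulVec, ← Matrix.vecMul_transpose, ← Matrix.dotProduct_mulVec,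
    Matrix.mulVec_mulVec, Matrix.mulVec_mulVec, transpose_mul_U]

lemma form_swap (u v : ι → F) : D.σ (D.form v u) = D.ε * D.form u v := by
  rw [form, gramForm_swap D.σ D.invol, D.herm, gramForm_smul_gram]

lemma form_eq_zero_comm {u v : ι → F} : D.form v u = 0 ↔ D.form u v = 0 := by
  constructor
  · intro h
    have := D.form_swap u v
    rw [h, map_zero] at this
    exact (mul_eq_zero.1 this.symm).resolve_left D.eps_ne
  · intro h
    apply D.σ.injective
    rw [map_zero, D.form_swap, h, mul_zero]

lemma form_add_left (x y v : ι → F) : D.form (x + y) v = D.form x v + D.form y v :=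
  gramForm_add_left _ _ x y v

lemma form_add_right (v x y : ι → F) : D.form v (x + y) = D.form v x + D.form v y :=
  gramForm_add_right _ _ v x y

lemma form_smul_left (c : F) (x v : ι → F) : D.form (c • x) v = c * D.form x v :=
  gramForm_smul_left _ _ c x v

lemma form_smul_right (c : F) (v x : ι → F) : D.form v (c • x) = D.σ c * D.form v x :=
  gramForm_smul_right _ _ c v x

lemma form_zero_left (v : ι → F) : D.form 0 v = 0 := by
  have := D.form_smul_left 0 0 v
  rwa [zero_smul, zero_mul] at this

lemma form_zero_right (v : ι → F) : D.form v 0 = 0 := by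
  have := D.form_smul_right 0 v 0
  rwa [zero_smul, map_zero, zero_mul] at this

lemma adj_add (M N : Matrix ι ι F) : D.adj (M + N) = D.adj M + D.adj N := by
  rw [adj, adj, adj, Matrix.transpose_add, mul_add, add_mul]
  exact Matrix.map_add _ (map_add D.σ) _ _

lemma adj_smul (c : F) (M : Matrix ι ι F) : D.adj (c • M) = D.σ c • D.adj M := by
  rw [adj, adj, Matrix.transpose_smul, mul_smul_comm, smul_mul_assoc]
  ext i j
  simp only [Matrix.map_apply, Matrix.smul_apply, smul_eq_mul, map_mul]

lemma adj_mul (M N : Matrix ι ι F) : D.adj (M * N) = D.adj N * D.adj M := by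
  rw [adj, adj, adj, Matrix.transpose_mul, ← Matrix.map_mul]
  congr 1
  simp only [mul_assoc]
  rw [← mul_assoc (D.U : Matrix ι ι F) ((D.U⁻¹ : GL ι F) : Matrix ι ι F), ← Units.val_mul, mul_inv_cancel,
    Units.val_one, one_mul]

lemma adj_one : D.adj 1 = 1 := by
  rw [adj, Matrix.transpose_one, mul_one, ← Units.val_mul, inv_mul_cancel, Units.val_one,
    Matrix.map_one _ (map_zero D.σ) (map_one D.σ)]

lemma adj_zero : D.adj 0 = 0 := by
  have := D.adj_smul 0 0
  rwa [zero_smul, map_zero, zero_smul] at this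

lemma adj_sub (M N : Matrix ι ι F) : D.adj (M - N) = D.adj M - D.adj N := by
  rw [eq_sub_iff_add_eq, ← adj_add, sub_add_cancel]

lemma adj_pow (M : Matrix ι ι F) (k : ℕ) : D.adj (M ^ k) = D.adj M ^ k := by
  induction k with
  | zero => rw [pow_zero, pow_zero, adj_one]
  | succ k ih => rw [pow_succ, adj_mul, ih, ← pow_succ']

lemma adj_algebraMap (c : F) :
    D.adj (algebraMap F (Matrix ι ι F) c) = algebraMap F (Matrix ι ι F) (D.σ c) := by
  rw [Algebra.algebraMap_eq_smul_one, Algebra.algebraMap_eq_smul_one, adj_smul, adj_one]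

lemma adj_adj (M : Matrix ι ι F) : D.adj (D.adj M) = M := by
  have h1 : D.ε • ((D.U : Matrix ι ι F) * (M.map D.σ)) = D.ε • ((D.adj M)ᵀ * (D.U : Matrix ι ι F)) := by
    have h := congrArg (fun X : Matrix ι ι F => (X.map D.σ)ᵀ) (D.transpose_mul_U M)
    simp only [Matrix.map_mul, Matrix.transpose_mul, map_map] at h
    rw [D.herm, Matrix.transpose_map, Matrix.transpose_transpose, smul_mul_assoc, mul_smul_comm] at h
    exact h
  rw [smul_right_inj D.eps_ne, transpose_mul_U] at h1
  exact (Matrix.map_injective D.σ.injective ((Units.mul_right_inj D.U).1 h1)).symm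

/-- The isometry group. -/
def isom : Subgroup (GL ι F) := preserving (Units.coeHom (Matrix ι ι F)) D.form

variable {D}

lemma mem_isom_iff_adj {g : GL ι F} :
    g ∈ D.isom ↔ D.adj (g : Matrix ι ι F) = ((g⁻¹ : GL ι F) : Matrix ι ι F) := by
  constructor
  · intro h
    have h1 : (g : Matrix ι ι F)ᵀ * (D.U : Matrix ι ι F) * (g : Matrix ι ι F).map D.σ = (D.U : Matrix ι ι F) :=
      eq_of_gramForm_eq D.σ fun u v => by rw [← gramForm_mulVec]; exact h u v
    rw [transpose_mul_U, mul_assoc, ← Matrix.map_mul] at h1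
    have h2 : (D.adj (g : Matrix ι ι F) * (g : Matrix ι ι F)).map D.σ = 1 :=
      (Units.mul_right_inj D.U).1 (h1.trans (mul_one _).symm)
    have h3 : D.adj (g : Matrix ι ι F) * (g : Matrix ι ι F) = 1 := by
      apply Matrix.map_injective D.σ.injective
      show (_ : Matrix ι ι F).map D.σ = (1 : Matrix ι ι F).map D.σ
      rw [h2, Matrix.map_one _ (map_zero D.σ) (map_one D.σ)]
    exact (Units.inv_eq_of_mul_eq_one_left h3).symm
  · intro h u v
    show D.form ((g : Matrix ι ι F) *ᵥ u) ((g : Matrix ι ι F) *ᵥ v) = D.form u v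
    rw [form_adj, h, glInv_mulVec]

variable (D)

lemma adj_conj {h : GL ι F} (hh : h ∈ D.isom) (M : Matrix ι ι F) :
    D.adj (conjHom h M) = conjHom h (D.adj M) := by
  rw [conjHom_apply, conjHom_apply, adj_mul, adj_mul, mem_isom_iff_adj.1 hh,
    mem_isom_iff_adj.1 (inv_mem hh), inv_inv, mul_assoc]

lemma adj_mem_env {N : Subgroup (GL ι F)} (hN : N ≤ D.isom) {M : Matrix ι ι F} (hM : M ∈ env N) :
    D.adj M ∈ env N := by
  induction hM using Algebra.adjoin_induction with
  | mem x hx =>
    obtain ⟨g, hg, rfl⟩ := hx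
    rw [mem_isom_iff_adj.1 (hN hg)]
    exact coe_mem_env (inv_mem hg)
  | algebraMap r => rw [adj_algebraMap]; exact Subalgebra.algebraMap_mem _ _
  | add x y _ _ hx hy => rw [adj_add]; exact (env N).add_mem hx hy
  | mul x y _ _ hx hy => rw [adj_mul]; exact (env N).mul_mem hy hx

/-- A subalgebra closed under adj is adjoint-closed for the form. -/
lemma isAdjointClosedFor {K : Subalgebra F (Matrix ι ι F)} (hK : ∀ k ∈ K, D.adj k ∈ K) :
    IsAdjointClosedFor D.form K :=
  fun k hk => ⟨D.adj k, hK k hk, fun u v => D.form_adj k u v⟩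

/-- The perpendicular subspace. -/
def perp (W : Submodule F (ι → F)) : Submodule F (ι → F) where
  carrier := {v | ∀ w ∈ W, D.form v w = 0}
  add_mem' := fun {x y} hx hy w hw => by rw [form_add_left, hx w hw, hy w hw, add_zero]
  zero_mem' := fun w _ => D.form_zero_left w
  smul_mem' := fun c x hx w hw => by rw [form_smul_left, hx w hw, mul_zero]

lemma mem_perp {W : Submodule F (ι → F)} {v : ι → F} : v ∈ D.perp W ↔ ∀ w ∈ W, D.form v w = 0 := Iff.rfl

lemma card_le_finrank_add_perp (W : Submodule F (ι → F)) :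
    Fintype.card ι ≤ Module.finrank F W + Module.finrank F (D.perp W) := by
  let b := Module.finBasis F W
  let L : (ι → F) →ₗ[F] (Fin (Module.finrank F W) → F) :=
    { toFun := fun v i => D.form v (b i : ι → F)
      map_add' := fun x y => funext fun i => D.form_add_left _ _ _
      map_smul' := fun c x => funext fun i => D.form_smul_left _ _ _ }
  have hker : LinearMap.ker L ≤ D.perp W := by
    intro v hv w hw
    have hv' : ∀ i, D.form v (b i : ι → F) = 0 := fun i => congrFun (LinearMap.mem_ker.1 hv) i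
    let f' : W →+ F := AddMonoidHom.mk' (fun w => D.form v (w : ι → F)) fun a a' => D.form_add_right _ _ _
    show f' ⟨w, hw⟩ = 0
    rw [← b.sum_repr ⟨w, hw⟩, map_sum]
    refine Finset.sum_eq_zero fun i _ => ?_
    show D.form v (b.repr ⟨w, hw⟩ i • (b i : ι → F)) = 0
    rw [form_smul_right, hv', mul_zero]
  have h1 := LinearMap.finrank_range_add_finrank_ker L
  have h2 := Submodule.finrank_le (LinearMap.range L)
  have h3 := Submodule.finrank_mono hker
  rw [Module.finrank_fintype_fun_eq_card] at h1
  simp only [Module.finrank_fintype_fun_eq_card, Fintype.card_fin] at h2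
  omega

lemma isNondegenerateOn_of_disjoint {W : Submodule F (ι → F)} (h : Disjoint W (D.perp W)) :
    IsNondegenerateOn D.form W := by
  intro w hw hw0
  have : ∃ x ∈ W, D.form w x ≠ 0 := by
    by_contra hne
    push Not at hne
    exact hw0 (Submodule.disjoint_def.1 h w hw hne)
  obtain ⟨x, hx, hwx⟩ := this
  exact ⟨⟨x, hx, fun e => hwx (D.form_eq_zero_comm.1 e)⟩, x, hx, hwx⟩

lemma isCompl_perp {W : Submodule F (ι → F)} (h : Disjoint W (D.perp W)) : IsCompl W (D.perp W) := by
  refine ⟨h, codisjoint_iff.2 (Submodule.eq_top_of_finrank_eq ?_)⟩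
  have h1 := Submodule.finrank_sup_add_finrank_inf_eq W (D.perp W)
  rw [disjoint_iff.1 h, finrank_bot] at h1
  have h2 := D.card_le_finrank_add_perp W
  have h3 := Submodule.finrank_le (W ⊔ D.perp W)
  rw [Module.finrank_fintype_fun_eq_card] at h3 ⊢
  omega

lemma nondegenerate [Finite F] : IsNondegenerateForm D.form :=
  gramForm_nondegenerate D.σ (Units.isUnit D.U)

end FormData

/-- An inclusion of images gives membership in the stabiliser. -/
lemma mem_subspaceStabilizer_of {W : Submodule F (ι → F)} {h : GL ι F}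
    (hle : ∀ v ∈ W, (h : Matrix ι ι F) *ᵥ v ∈ W) : h ∈ subspaceStabilizer W := by
  have hle' : W.map (Matrix.toLin' (h : Matrix ι ι F)) ≤ W := by
    rintro _ ⟨v, hv, rfl⟩; exact hle v hv
  have heq : W.map (Matrix.toLin' (h : Matrix ι ι F)) = W :=
    Submodule.eq_of_le_of_finrank_eq hle'
      (W.equivMapOfInjective _ (Matrix.mulVec_injective_of_isUnit (Units.isUnit h))).finrank_eq.symm
  intro v
  refine ⟨fun hv => hle v hv, fun hv => ?_⟩
  rw [← heq] at hv
  obtain ⟨w, hw, hwv⟩ := hv
  rwa [← Matrix.mulVec_injective_of_isUnit (Units.isUnit h) hwv]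

lemma isInv_subgroup_of_le {H : Subgroup (GL ι F)} {W : Submodule F (ι → F)}
    (hW : IsInv (matrixSet H) W) : H ≤ subspaceStabilizer W :=
  fun _ hh => mem_subspaceStabilizer_of fun v hv => hW _ (mem_matrixSet hh) v hv

/-- The outcomes of the first two classes relative to a form. -/
def InFormSubspace (D : FormData ι F) (H : Subgroup (GL ι F)) : Prop :=
  (∃ W : Submodule F (ι → F), W ≠ ⊥ ∧ IsTotallySingularFor D.form W ∧ H ≤ subspaceStabilizer W) ∨
  (∃ W : Submodule F (ι → F), W ≠ ⊥ ∧ IsNondegenerateOn D.form W ∧ 2 * Module.finrank F W < Fintype.card ι ∧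
    H ≤ subspaceStabilizer W)

/-- H permutes an orthogonal decomposition into non-degenerate subspaces. -/
def InFormDecomposition (D : FormData ι F) (H : Subgroup (GL ι F)) : Prop :=
  ∃ (t k : ℕ) (V : Fin t → Submodule F (ι → F)),
    IsNondegenerateMDecomposition D.form k V ∧ H ≤ decompositionStabilizer V

/-- A reducible isometry group fixes a totally singular or small non-degenerate subspace, or swaps two halves. -/
theorem form_reducible [Finite F] (D : FormData ι F) {H : Subgroup (GL ι F)} (hH : H ≤ D.isom)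
    (hred : ¬ ActsIrreducibly (matrixSet H)) : InFormSubspace D H ∨ InFormDecomposition D H := by
  rw [actsIrreducibly_iff] at hred
  push Not at hred
  obtain ⟨W, hW, hWb, hWt⟩ := hred
  have hWp : IsInv (matrixSet H) (D.perp W) := by
    rintro _ ⟨h, hh, rfl⟩ v hv w hw
    show D.form ((h : Matrix ι ι F) *ᵥ v) w = 0
    rw [FormData.form_adj, FormData.mem_isom_iff_adj.1 (hH hh)]
    exact hv _ (hW _ (mem_matrixSet (inv_mem hh)) w hw)
  by_cases hd : Disjoint W (D.perp W)
  swap
  · left; left
    refine ⟨W ⊓ D.perp W, fun e => hd (disjoint_iff.2 e), fun u hu v hv => hu.2 v hv.1, ?_⟩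
    exact isInv_subgroup_of_le fun s hs v hv => ⟨hW s hs v hv.1, hWp s hs v hv.2⟩
  have hc := D.isCompl_perp hd
  have hsum := Submodule.finrank_add_eq_of_isCompl hc
  rw [Module.finrank_fintype_fun_eq_card] at hsum
  have hd' : Disjoint (D.perp W) (D.perp (D.perp W)) := by
    rw [Submodule.disjoint_def]
    intro v hv hv'
    obtain ⟨a, ha, b, hb, hab⟩ :=
      Submodule.mem_sup.1 (show v ∈ W ⊔ D.perp W by rw [hc.sup_eq_top]; trivial)
    have h0 : ∀ x, D.form v x = 0 := by
      intro x
      obtain ⟨a', ha', b', hb', rfl⟩ :=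
        Submodule.mem_sup.1 (show x ∈ W ⊔ D.perp W by rw [hc.sup_eq_top]; trivial)
      rw [FormData.form_add_right, hv a' ha', hv' b' hb', add_zero]
    by_contra hv0
    obtain ⟨-, ⟨x, hx⟩⟩ := D.nondegenerate v hv0
    exact hx (h0 x)
  have hne' : D.perp W ≠ ⊥ := fun e => hWt (by simpa [e] using hc.sup_eq_top)
  rcases lt_trichotomy (2 * Module.finrank F W) (Fintype.card ι) with hlt | heq | hgt
  · exact Or.inl (Or.inr ⟨W, hWb, D.isNondegenerateOn_of_disjoint hd, hlt, isInv_subgroup_of_le hW⟩)
  · right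
    refine ⟨2, Module.finrank F W, ![W, D.perp W], ⟨⟨le_rfl, Nat.pos_of_ne_zero fun e =>
      hWb (Submodule.finrank_eq_zero.1 e), ?_, ?_, ?_⟩, ?_, ?_⟩, fun h hh => ⟨1, ?_⟩⟩
    · intro i
      fin_cases i
      · rfl
      · show Module.finrank F (D.perp W) = _
        omega
    · rw [iSupIndep_pair (by decide : (0 : Fin 2) ≠ 1) (fun i => by fin_cases i <;> simp)]
      exact hd
    · refine eq_top_iff.2 (hc.sup_eq_top ▸ sup_le (le_iSup ![W, D.perp W] 0) (le_iSup ![W, D.perp W] 1))
    · intro i
      fin_cases i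
      · exact D.isNondegenerateOn_of_disjoint hd
      · exact D.isNondegenerateOn_of_disjoint hd'
    · intro i j hij u hu v hv
      fin_cases i <;> fin_cases j
      · exact absurd rfl hij
      · exact D.form_eq_zero_comm.1 (hv u hu)
      · exact hu v hv
      · exact absurd rfl hij
    · intro i
      have key : ∀ X : Submodule F (ι → F), IsInv (matrixSet H) X →
          X.map (Matrix.toLin' (h : Matrix ι ι F)) = X := fun X hX =>
        Submodule.eq_of_le_of_finrank_eq (isInv_iff_map_le.1 hX _ (mem_matrixSet hh))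
          (X.equivMapOfInjective _ (Matrix.mulVec_injective_of_isUnit (Units.isUnit h))).finrank_eq.symm
      fin_cases i
      · exact key W hW
      · exact key _ hWp
  · exact Or.inl (Or.inr ⟨D.perp W, hne', D.isNondegenerateOn_of_disjoint hd', by omega,
      isInv_subgroup_of_le hWp⟩)

end Cfsg.Agent.H99.Asch
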