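import Cfsg.Agent.H99.Aschbacher.FormBase

/-!
The centre of an adjoint-closed algebra normalised by an irreducible isometry group: central idempotents give
decompositions compatible with the form; without them the centre is a field and the algebra is homogeneous.
-/

set_option autoImplicit false
set_option backward.isDefEq.respectTransparency false

open scoped MatrixGroups Matrix

namespace Cfsg.Agent.H99.Asch

open Cfsg.Geo

variable {ι : Type} [Fintype ι] [DecidableEq ι] {F : Type*} [Field F]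

attribute [local instance] endAlgSubACG
attribute [local instance 2000] endAlgRing endAlgSemiring endAlgModule endAlgSMul endAlgSubACM
  endAlgSubModule endAlgSubModuleF endAlgSubSMul endAlgSubAM endAlgSubAZC

/-- The centre of a subalgebra of the matrix algebra. -/
def centre (A : Subalgebra F (Matrix ι ι F)) : Subalgebra F (Matrix ι ι F) :=
  A ⊓ Subalgebra.centralizer F (A : Set (Matrix ι ι F))

lemma mem_centre {A : Subalgebra F (Matrix ι ι F)} {z : Matrix ι ι F} :
    z ∈ centre A ↔ z ∈ A ∧ ∀ a ∈ A, z * a = a * z := by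
  rw [centre, Algebra.mem_inf, Subalgebra.mem_centralizer_iff]
  exact and_congr_right fun _ => forall₂_congr fun a _ => eq_comm

lemma normalises_centre {H : Subgroup (GL ι F)} {A : Subalgebra F (Matrix ι ι F)} (hA : Normalises H A) :
    Normalises H (centre A) := by
  intro h hh z hz
  rw [mem_centre] at hz ⊢
  refine ⟨hA h hh z hz.1, fun a ha => ?_⟩
  have ha' := hA h⁻¹ (H.inv_mem hh) a ha
  rw [inv_inv] at ha'
  have e : conjHom h (((h⁻¹ : GL ι F) : Matrix ι ι F) * a * (h : Matrix ι ι F)) = a := by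
    rw [conjHom_apply]
    simp only [← mul_assoc]
    rw [← Units.val_mul, mul_inv_cancel, Units.val_one, one_mul, mul_assoc, ← Units.val_mul, mul_inv_cancel,
      Units.val_one, mul_one]
  have := congrArg (conjHom h) (hz.2 _ ha')
  rw [map_mul (conjHom h) z, map_mul (conjHom h) (((h⁻¹ : GL ι F) : Matrix ι ι F) * a * (h : Matrix ι ι F)) z, e]
    at this
  exact this

namespace FormData

lemma adj_mem_centre (D : FormData ι F) {A : Subalgebra F (Matrix ι ι F)} (hA : ∀ a ∈ A, D.adj a ∈ A)
    {z : Matrix ι ι F} (hz : z ∈ centre A) : D.adj z ∈ centre A := by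
  rw [mem_centre] at hz ⊢
  refine ⟨hA z hz.1, fun a ha => ?_⟩
  have := congrArg D.adj (hz.2 _ (hA a ha))
  rw [adj_mul, adj_mul, adj_adj] at this
  exact this.symm

end FormData

/-- A matrix with conjugates equal or orthogonal, adjoint to itself, gives an orthogonal decomposition. -/
lemma decomposition_of_idem [Fintype F] (D : FormData ι F) {H : Subgroup (GL ι F)}
    (hirr : ActsIrreducibly (matrixSet H)) (hH : H ≤ D.isom) {e : Matrix ι ι F}
    (he : e * e = e) (he0 : e ≠ 0) (he1 : e ≠ 1) (hadj : D.adj e = e)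
    (horb : ∀ g ∈ H, ∀ h ∈ H, conjHom g e = conjHom h e ∨ conjHom g e * conjHom h e = 0) :
    InFormDecomposition D H := by
  classical
  let O : Finset (Matrix ι ι F) := Finset.univ.image fun h : H => conjHom (h : GL ι F) e
  let t := O.card
  let o : Fin t → Matrix ι ι F := fun i => (O.equivFin.symm i : Matrix ι ι F)
  have hoinj : Function.Injective o := fun i j h => O.equivFin.symm.injective (Subtype.ext h)
  have homem : ∀ i, ∃ h ∈ H, o i = conjHom h e := fun i => by
    obtain ⟨h, -, hh⟩ := Finset.mem_image.1 (O.equivFin.symm i).2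
    exact ⟨h, h.2, hh.symm⟩
  have hosurj : ∀ h ∈ H, ∃ i, o i = conjHom h e := fun h hh =>
    ⟨O.equivFin ⟨conjHom h e, Finset.mem_image.2 ⟨⟨h, hh⟩, Finset.mem_univ _, rfl⟩⟩,
      by simp [o]⟩
  have hidem : ∀ i, o i * o i = o i := fun i => by
    obtain ⟨h, hh, hi⟩ := homem i
    rw [hi, ← map_mul, he]
  have hadjo : ∀ i, D.adj (o i) = o i := fun i => by
    obtain ⟨h, hh, hi⟩ := homem i
    rw [hi, D.adj_conj (hH hh), hadj]
  have horth : ∀ i j, i ≠ j → o i * o j = 0 := by
    intro i j hij
    obtain ⟨g, hg, hi⟩ := homem i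
    obtain ⟨h, hh, hj⟩ := homem j
    rcases horb g hg h hh with h' | h'
    · exact absurd (hoinj (by rw [hi, hj, h'])) hij
    · rw [hi, hj, h']
  have hperm : ∀ h ∈ H, ∀ i, ∃ j, conjHom h (o i) = o j := by
    intro h hh i
    obtain ⟨g, hg, hi⟩ := homem i
    obtain ⟨j, hj⟩ := hosurj (h * g) (H.mul_mem hh hg)
    refine ⟨j, ?_⟩
    rw [hj, hi, conjHom_apply, conjHom_apply, conjHom_apply]
    simp only [Units.val_mul, mul_inv_rev, mul_assoc]
  let V : Fin t → Submodule F (ι → F) := fun i => LinearMap.range (Matrix.toLin' (o i))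
  have hmemV : ∀ i v, v ∈ V i ↔ o i *ᵥ v = v := by
    intro i v
    constructor
    · rintro ⟨w, rfl⟩
      rw [Matrix.toLin'_apply, Matrix.mulVec_mulVec, hidem]
    · intro hv
      exact ⟨v, hv⟩
  have hmap : ∀ (h : GL ι F) i j, conjHom h (o i) = o j → (V i).map (Matrix.toLin' (h : Matrix ι ι F)) = V j := by
    intro h i j hij
    have e1 : o j * (h : Matrix ι ι F) = (h : Matrix ι ι F) * o i := by
      rw [← hij, conjHom_apply, mul_assoc, ← Units.val_mul, inv_mul_cancel, Units.val_one, mul_one]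
    ext v
    rw [Submodule.mem_map]
    constructor
    · rintro ⟨w, hw, rfl⟩
      rw [hmemV] at hw ⊢
      rw [Matrix.toLin'_apply, Matrix.mulVec_mulVec, e1, ← Matrix.mulVec_mulVec, hw]
    · intro hv
      rw [hmemV] at hv
      refine ⟨((h⁻¹ : GL ι F) : Matrix ι ι F) *ᵥ v, (hmemV i _).2 ?_, gl_mulVec_inv h v⟩
      conv_rhs => rw [← hv]
      rw [← hij, conjHom_apply, Matrix.mulVec_mulVec, Matrix.mulVec_mulVec]
      simp only [← mul_assoc, ← Units.val_mul, inv_mul_cancel, Units.val_one, one_mul]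
  -- the sum of all conjugates is the identity
  have hsum : ∑ i, o i = 1 := by
    have hsmul : ∀ i, o i * ∑ j, o j = o i := fun i => by
      rw [Finset.mul_sum, Finset.sum_eq_single i (fun j _ hj => horth i j hj.symm)
        (fun hn => absurd (Finset.mem_univ i) hn), hidem]
    let X : Submodule F (ι → F) := LinearMap.range (Matrix.toLin' (∑ i, o i))
    have hX : IsInv (matrixSet H) X := by
      rintro _ ⟨h, hh, rfl⟩ _ ⟨w, rfl⟩
      refine ⟨(h : Matrix ι ι F) *ᵥ w, ?_⟩
      rw [Matrix.toLin'_apply, Matrix.toLin'_apply, Matrix.mulVec_mulVec, Matrix.mulVec_mulVec]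
      congr 1
      choose σ hσ using hperm h hh
      have hσi : Function.Injective σ := fun i j hij => hoinj (conj_inj h (by
        rw [← conjHom_apply, ← conjHom_apply, hσ, hσ, hij]))
      have h1 : conjHom h (∑ i, o i) = ∑ i, o i := by
        rw [map_sum]
        simp only [hσ]
        exact Equiv.sum_comp (Equiv.ofBijective σ (Finite.injective_iff_bijective.1 hσi)) o
      calc (∑ i, o i) * (h : Matrix ι ι F) = conjHom h (∑ i, o i) * (h : Matrix ι ι F) := by rw [h1]
        _ = (h : Matrix ι ι F) * ∑ i, o i := by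
          rw [conjHom_apply, mul_assoc, ← Units.val_mul, inv_mul_cancel, Units.val_one, mul_one]
    have hidemS : (∑ i, o i) * (∑ i, o i) = ∑ i, o i := by
      rw [Finset.sum_mul]; simp only [hsmul]
    rcases actsIrreducibly_iff.1 hirr X hX with h | h
    · exfalso
      have h0 : ∑ i, o i = 0 := by
        apply Matrix.toLin'.injective
        rw [map_zero]
        exact LinearMap.range_eq_bot.1 h
      obtain ⟨i, hi⟩ := hosurj 1 H.one_mem
      have := hsmul i
      rw [h0, mul_zero, hi, conjHom_apply, inv_one, Units.val_one, one_mul, mul_one] at this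
      exact he0 this.symm
    · refine Matrix.ext_of_mulVec_single fun i => ?_
      obtain ⟨w, hw⟩ := (h ▸ Submodule.mem_top : Pi.single i (1 : F) ∈ X)
      rw [Matrix.toLin'_apply] at hw
      rw [Matrix.one_mulVec, ← hw, Matrix.mulVec_mulVec, hidemS]
  have ht2 : 2 ≤ t := by
    by_contra hlt
    obtain ⟨i, hi⟩ := hosurj 1 H.one_mem
    have hone : (Finset.univ : Finset (Fin t)) = {i} :=
      Finset.eq_singleton_iff_unique_mem.2 ⟨Finset.mem_univ i, fun j _ => Fin.ext (by omega)⟩
    rw [hone, Finset.sum_singleton, hi, conjHom_apply, inv_one, Units.val_one, one_mul, mul_one] at hsum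
    exact he1 hsum
  have hfr : ∀ i, Module.finrank F (V i) = Module.finrank F (LinearMap.range (Matrix.toLin' e)) := by
    intro i
    obtain ⟨h, hh, hi⟩ := homem i
    obtain ⟨j, hj⟩ := hosurj 1 H.one_mem
    have hje : o j = e := by rw [hj, conjHom_apply, inv_one, Units.val_one, one_mul, mul_one]
    have hji : conjHom h (o j) = o i := by rw [hje, hi]
    rw [← hmap h j i hji, ((V j).equivMapOfInjective _
      (Matrix.mulVec_injective_of_isUnit (Units.isUnit h))).finrank_eq.symm]
    show Module.finrank F (LinearMap.range (Matrix.toLin' (o j))) = _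
    rw [hje]
  have hpos : 0 < Module.finrank F (LinearMap.range (Matrix.toLin' e)) := by
    refine Nat.pos_of_ne_zero fun h0 => he0 ?_
    apply Matrix.toLin'.injective
    rw [map_zero]
    exact LinearMap.range_eq_bot.1 (Submodule.finrank_eq_zero.1 h0)
  have hindep : iSupIndep V := by
    rw [iSupIndep_iff_finsetSum_eq_zero_imp_eq_zero]
    intro s v hv hsum0 i hi
    have h1 := congrArg (fun w => o i *ᵥ w) hsum0
    simp only [Matrix.mulVec_sum, Matrix.mulVec_zero] at h1
    rw [Finset.sum_eq_single i (fun j hj hji => ?_) (fun hn => absurd hi hn)] at h1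
    · rwa [(hmemV i _).1 (hv i hi)] at h1
    · rw [← (hmemV j _).1 (hv j hj), Matrix.mulVec_mulVec, horth i j hji.symm, Matrix.zero_mulVec]
  have hsup : iSup V = ⊤ := by
    rw [eq_top_iff]
    intro v _
    rw [← Matrix.one_mulVec v, ← hsum, Matrix.sum_mulVec]
    exact Submodule.sum_mem _ fun i _ => Submodule.mem_iSup_of_mem i ⟨v, rfl⟩
  have hperp : ∀ i j, i ≠ j → AreOrthogonalFor D.form (V i) (V j) := by
    intro i j hij u hu v hv
    rw [← (hmemV i u).1 hu, ← (hmemV j v).1 hv, D.form_adj, hadjo, Matrix.mulVec_mulVec, horth i j hij,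
      Matrix.zero_mulVec, D.form_zero_right]
  refine ⟨t, _, V, ⟨⟨ht2, hpos, hfr, hindep, hsup⟩, fun i => ?_, hperp⟩, fun h hh => ?_⟩
  · refine D.isNondegenerateOn_of_disjoint ?_
    rw [Submodule.disjoint_def]
    intro v hv hv'
    by_contra hv0
    obtain ⟨-, x, hx⟩ := D.nondegenerate v hv0
    apply hx
    rw [← Matrix.one_mulVec x, ← hsum, Matrix.sum_mulVec]
    let f' : (ι → F) →+ F := AddMonoidHom.mk' (fun w => D.form v w) fun a a' => D.form_add_right _ _ _
    show f' _ = 0
    rw [map_sum]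
    refine Finset.sum_eq_zero fun j _ => ?_
    rcases eq_or_ne i j with rfl | hij
    · exact hv' _ ⟨x, rfl⟩
    · exact hperp i j hij v hv _ ⟨x, rfl⟩
  · choose σ hσ using hperm h hh
    have hσi : Function.Injective σ := fun i j hij => hoinj (conj_inj h (by
      rw [← conjHom_apply, ← conjHom_apply, hσ, hσ, hij]))
    exact ⟨Equiv.ofBijective σ (Finite.injective_iff_bijective.1 hσi), fun i => hmap h i (σ i) (hσ i)⟩

/-- H preserves or swaps two complementary totally singular halves, given by an idempotent p with adjoint 1 - p. -/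
def InFormHalves (D : FormData ι F) (H : Subgroup (GL ι F)) : Prop :=
  ∃ p : Matrix ι ι F, p * p = p ∧ D.adj p = 1 - p ∧ ∀ h ∈ H, conjHom h p = p ∨ conjHom h p = 1 - p

/-- A central idempotent of an adjoint-closed normalised algebra gives a decomposition. -/
theorem decomposition_of_centre [Fintype F] (D : FormData ι F) {H : Subgroup (GL ι F)}
    (hirr : ActsIrreducibly (matrixSet H)) (hH : H ≤ D.isom) {Z : Subalgebra F (Matrix ι ι F)}
    (hcomm : ∀ x ∈ Z, ∀ y ∈ Z, x * y = y * x) (hZn : Normalises H Z) (hZa : ∀ z ∈ Z, D.adj z ∈ Z)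
    (hex : ∃ e ∈ Z, e * e = e ∧ e ≠ 0 ∧ e ≠ 1) : InFormDecomposition D H ∨ InFormHalves D H := by
  classical
  let P : Matrix ι ι F → Prop := fun e => e ∈ Z ∧ e * e = e ∧ e ≠ 0
  obtain ⟨e₀, he₀, he₀i, he₀0, he₀1⟩ := hex
  let rk : Matrix ι ι F → ℕ := fun e => Module.finrank F (LinearMap.range (Matrix.toLin' e))
  have : Nonempty {e // P e} := ⟨⟨e₀, he₀, he₀i, he₀0⟩⟩
  have : Finite {e // P e} := inferInstance
  obtain ⟨⟨p, hpZ, hpi, hp0⟩, hpmin⟩ := Finite.exists_min fun e : {e // P e} => rk e.1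
  have hrk0 : ∀ e f : Matrix ι ι F, e * e = e → f * f = f → e * f = f → rk e ≤ rk f → e * f = f * e → f = e := by
    intro e f he hf hef hle hc
    have hsub : LinearMap.range (Matrix.toLin' f) ≤ LinearMap.range (Matrix.toLin' e) := by
      rintro _ ⟨w, rfl⟩
      exact ⟨f *ᵥ w, by rw [Matrix.toLin'_apply, Matrix.toLin'_apply, Matrix.mulVec_mulVec, hef]⟩
    have heq := Submodule.eq_of_le_of_finrank_le hsub hle
    refine Matrix.ext_of_mulVec_single fun i => ?_
    obtain ⟨w, hw⟩ : e *ᵥ Pi.single i 1 ∈ LinearMap.range (Matrix.toLin' f) := heq ▸ ⟨_, rfl⟩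
    rw [Matrix.toLin'_apply] at hw
    have h1 := congrArg (fun x => f *ᵥ x) hw
    simp only [Matrix.mulVec_mulVec, hf] at h1
    rw [← hef, hc, ← h1, hw]
  -- p is minimal
  have hpmin' : ∀ f ∈ Z, f * f = f → p * f = 0 ∨ p * f = p := by
    intro f hfZ hf
    by_cases h0 : p * f = 0
    · exact Or.inl h0
    have hpf : p * f * (p * f) = p * f := by
      rw [mul_assoc, ← mul_assoc f, hcomm f hfZ p hpZ, mul_assoc p f f, hf, ← mul_assoc, hpi]
    exact Or.inr (hrk0 p (p * f) hpi hpf (by rw [← mul_assoc, hpi])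
      (hpmin ⟨p * f, Z.mul_mem hpZ hfZ, hpf, h0⟩) (hcomm p hpZ _ (Z.mul_mem hpZ hfZ)))
  -- so are its conjugates
  have hconjZ : ∀ h ∈ H, ∀ z ∈ Z, conjHom h z ∈ Z := hZn
  have hcinv : ∀ (h : GL ι F) (z : Matrix ι ι F), conjHom h (conjHom h⁻¹ z) = z := by
    intro h z
    rw [conjHom_apply, conjHom_apply, inv_inv]
    simp only [← mul_assoc]
    rw [← Units.val_mul, mul_inv_cancel, Units.val_one, one_mul, mul_assoc, ← Units.val_mul, mul_inv_cancel,
      Units.val_one, mul_one]
  have hcmin : ∀ h ∈ H, ∀ f ∈ Z, f * f = f → conjHom h p * f = 0 ∨ conjHom h p * f = conjHom h p := by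
    intro h hh f hfZ hf
    have hfi : conjHom h⁻¹ f * conjHom h⁻¹ f = conjHom h⁻¹ f := by rw [← map_mul, hf]
    rw [← hcinv h f, ← map_mul]
    rcases hpmin' _ (hconjZ _ (inv_mem hh) f hfZ) hfi with h1 | h1 <;> rw [h1]
    · exact Or.inl (map_zero _)
    · exact Or.inr rfl
  have hcidem : ∀ h, conjHom h p * conjHom h p = conjHom h p := fun h => by rw [← map_mul, hpi]
  have horb : ∀ g ∈ H, ∀ h ∈ H, conjHom g p = conjHom h p ∨ conjHom g p * conjHom h p = 0 := by
    intro g hg h hh
    rcases hcmin g hg _ (hconjZ h hh p hpZ) (hcidem h) with h1 | h1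
    · exact Or.inr h1
    rcases hcmin h hh _ (hconjZ g hg p hpZ) (hcidem g) with h2 | h2
    · rw [hcomm _ (hconjZ h hh p hpZ) _ (hconjZ g hg p hpZ)] at h2
      exact Or.inr h2
    · rw [hcomm _ (hconjZ h hh p hpZ) _ (hconjZ g hg p hpZ), h1] at h2
      exact Or.inl h2
  have hp1 : p ≠ 1 := by
    intro e
    rcases hpmin' e₀ he₀ he₀i with h1 | h1 <;> rw [e, one_mul] at h1
    · exact he₀0 h1
    · exact he₀1 h1
  have hinj0 : ∀ (h : GL ι F) (x : Matrix ι ι F), conjHom h x = 0 → x = 0 := fun h x e =>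
    conj_inj h (by rw [← conjHom_apply, e, mul_zero, zero_mul])
  set a := D.adj p with ha
  have haZ : a ∈ Z := hZa p hpZ
  have hai : a * a = a := by rw [ha, ← D.adj_mul, hpi]
  rcases hpmin' a haZ hai with hpa | hpa
  swap
  · left
    have hap : a = p := by
      have := congrArg D.adj hpa
      rw [D.adj_mul, ha, D.adj_adj, ← ha, hpa] at this
      exact this.symm
    exact decomposition_of_idem D hirr hH hpi hp0 hp1 hap horb
  have hap : a * p = 0 := by rw [hcomm a haZ p hpZ, hpa]
  by_cases hq : p + a = 1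
  · right
    have ha1 : a = 1 - p := eq_sub_of_add_eq' hq
    refine ⟨p, hpi, ha1, fun h hh => ?_⟩
    have hcp0 : conjHom h p ≠ 0 := fun e => hp0 (hinj0 h p e)
    rcases hcmin h hh p hpZ hpi with h1 | h1
    · right
      have h2 : conjHom h p * a = conjHom h p := by rw [ha1, mul_sub, mul_one, h1, sub_zero]
      have h3 : p * D.adj (conjHom h p) = D.adj (conjHom h p) := by
        have h3 := congrArg D.adj h2
        rwa [D.adj_mul, ha, D.adj_adj] at h3
      rcases hpmin' _ (hZa _ (hconjZ h hh p hpZ)) (by rw [← D.adj_mul, hcidem]) with h4 | h4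
      · rw [h3] at h4
        exfalso
        apply hcp0
        have h5 := congrArg D.adj h4
        rwa [D.adj_adj, D.adj_zero] at h5
      · rw [h3] at h4
        have h5 := congrArg D.adj h4
        rw [D.adj_adj, ← ha, ha1] at h5
        exact h5
    · left
      rcases horb h hh 1 H.one_mem with h2 | h2
      · rw [h2, conjHom_apply, inv_one, Units.val_one, one_mul, mul_one]
      · rw [show conjHom (1 : GL ι F) p = p by
          rw [conjHom_apply, inv_one, Units.val_one, one_mul, mul_one], h1] at h2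
        exact absurd h2 hcp0
  left
  have hqi : (p + a) * (p + a) = p + a := by
    rw [add_mul, mul_add, mul_add, hpi, hai, hpa, hap, add_zero, zero_add]
  have hq0 : p + a ≠ 0 := by
    intro e
    apply hp0
    have := congrArg (fun x => p * x) e
    simpa [mul_add, hpi, hpa] using this
  refine decomposition_of_idem D hirr hH hqi hq0 hq
    (by rw [D.adj_add, ha, D.adj_adj, add_comm]) fun g hg h hh => ?_
  have hcg : conjHom g a = D.adj (conjHom g p) := by rw [D.adj_conj (hH hg)]
  have hch : conjHom h a = D.adj (conjHom h p) := by rw [D.adj_conj (hH hh)]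
  by_cases hall : conjHom g p = conjHom h p ∨ conjHom g p = conjHom h a
  · left
    rw [map_add, map_add]
    rcases hall with e | e
    · rw [hcg, hch, e]
    · rw [hcg, e, hch, D.adj_adj, add_comm]
  right
  push Not at hall
  have z1 : conjHom g p * conjHom h p = 0 := (horb g hg h hh).resolve_left hall.1
  have hZ := fun (k : GL ι F) (hk : k ∈ H) (z : Matrix ι ι F) (hz : z ∈ Z) => hconjZ k hk z hz
  have z2 : conjHom g p * conjHom h a = 0 := by
    rcases hcmin g hg _ (hZ h hh a haZ) (by rw [← map_mul, hai]) with h1 | h1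
    · exact h1
    exfalso
    apply hall.2
    have h2 := congrArg D.adj h1
    rw [D.adj_mul, hch, D.adj_adj] at h2
    rcases hcmin h hh _ (hZa _ (hZ g hg p hpZ)) (by rw [← D.adj_mul, hcidem]) with h3 | h3
    · rw [h2] at h3
      have h4 := congrArg D.adj h3
      rw [D.adj_adj, D.adj_zero] at h4
      exact absurd (hinj0 g p h4) hp0
    · rw [h2] at h3
      rw [hch, ← h3, D.adj_adj]
  have z3 : conjHom g a * conjHom h p = 0 := by
    have h1 := congrArg D.adj z2
    rw [D.adj_mul, hch, D.adj_adj, ← hcg, D.adj_zero,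
      hcomm _ (hZ h hh p hpZ) _ (hZ g hg a haZ)] at h1
    exact h1
  have z4 : conjHom g a * conjHom h a = 0 := by
    have h1 := congrArg D.adj z1
    rw [D.adj_mul, ← hcg, ← hch, D.adj_zero, hcomm _ (hZ h hh a haZ) _ (hZ g hg a haZ)] at h1
    exact h1
  rw [map_add, map_add, add_mul, mul_add, mul_add, z1, z2, z3, z4, add_zero, add_zero]

/-- Without idempotents, a non-zero element of a normalised commutative algebra is invertible. -/
lemma isUnit_of_no_idem [Fintype F] {H : Subgroup (GL ι F)} (hirr : ActsIrreducibly (matrixSet H))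
    {Z : Subalgebra F (Matrix ι ι F)} (hcomm : ∀ x ∈ Z, ∀ y ∈ Z, x * y = y * x) (hZn : Normalises H Z)
    (hno : ∀ e ∈ Z, e * e = e → e = 0 ∨ e = 1) {z : Matrix ι ι F} (hz : z ∈ Z) (hz0 : z ≠ 0) : IsUnit z := by
  classical
  have hdic : ∀ x ∈ Z, IsUnit x ∨ IsNilpotent x := by
    intro x hx
    obtain ⟨i, j, hne, hij⟩ := Finite.exists_ne_map_eq_of_infinite fun k : ℕ => x ^ k
    wlog hlt : i < j generalizing i j
    · exact this j i hne.symm hij.symm (by omega)
    have hij : x ^ i = x ^ j := hij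
    have hper : ∀ k, i ≤ k → x ^ (k + (j - i)) = x ^ k := by
      intro k hk
      have : k + (j - i) = (k - i) + j := by omega
      rw [this, pow_add, ← hij, ← pow_add, Nat.sub_add_cancel hk]
    have hperm : ∀ a k, i ≤ k → x ^ (k + a * (j - i)) = x ^ k := by
      intro a
      induction a with
      | zero => simp
      | succ a ih =>
        intro k hk
        rw [Nat.succ_mul, ← add_assoc, hper _ (by omega), ih k hk]
    let m := (i + 1) * (j - i)
    have hm : i ≤ m := by
      have : i + 1 ≤ m := Nat.le_mul_of_pos_right _ (by omega)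
      omega
    have hidem : x ^ m * x ^ m = x ^ m := by
      rw [← pow_add]
      exact hperm (i + 1) m hm
    rcases hno _ (Z.pow_mem hx m) hidem with h | h
    · exact Or.inr ⟨m, h⟩
    · left
      have hm0 : m ≠ 0 := Nat.mul_ne_zero (by omega) (by omega)
      exact IsUnit.of_pow_eq_one h hm0
  refine (hdic z hz).resolve_right fun hnil => hz0 ?_
  -- the nilpotent elements kill a common invariant subspace
  let J : Set (Matrix ι ι F) := {x | x ∈ Z ∧ IsNilpotent x}
  let W : Submodule F (ι → F) := ⨅ x ∈ J, LinearMap.ker (Matrix.toLin' x)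
  have hWmem : ∀ v, v ∈ W ↔ ∀ x ∈ J, x *ᵥ v = 0 := fun v => by
    simp [W, Submodule.mem_iInf, LinearMap.mem_ker, Matrix.toLin'_apply]
  have hJn : ∀ h ∈ H, ∀ x ∈ J, conjHom h x ∈ J := fun h hh x hx => ⟨hZn h hh x hx.1, hx.2.map _⟩
  have hW : IsInv (matrixSet H) W := by
    rintro _ ⟨h, hh, rfl⟩ v hv
    rw [hWmem] at hv ⊢
    intro x hx
    have h1 := hv _ (hJn h⁻¹ (H.inv_mem hh) x hx)
    rw [conjHom_apply, inv_inv, ← Matrix.mulVec_mulVec, ← Matrix.mulVec_mulVec] at h1
    exact Matrix.mulVec_injective_of_isUnit (Units.isUnit h⁻¹) (h1.trans (Matrix.mulVec_zero _).symm)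
  rcases actsIrreducibly_iff.1 hirr W hW with h | h
  swap
  · refine Matrix.ext_of_mulVec_single fun i => ?_
    rw [(hWmem _).1 (h ▸ Submodule.mem_top) z ⟨hz, hnil⟩, Matrix.zero_mulVec]
  exfalso
  -- a minimal non-zero common kernel
  have key : ∀ s : Finset (Matrix ι ι F), (↑s ⊆ J) → ∀ v : ι → F, v ≠ 0 →
      ∃ w : ι → F, w ≠ 0 ∧ ∀ x ∈ s, x *ᵥ w = 0 := by
    intro s
    induction s using Finset.induction with
    | empty => intro _ v hv; exact ⟨v, hv, by simp⟩
    | insert a s has ih =>
      intro hs v hv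
      rw [Finset.coe_insert, Set.insert_subset_iff] at hs
      obtain ⟨w, hw, hws⟩ := ih hs.2 v hv
      obtain ⟨k, hk⟩ := hs.1.2
      have hk' : a ^ k *ᵥ w = 0 := by rw [hk, Matrix.zero_mulVec]
      have hex' : ∃ l, a ^ l *ᵥ w = 0 := ⟨k, hk'⟩
      have hl := Nat.find_spec hex'
      have hl0 : Nat.find hex' ≠ 0 := fun e => by
        rw [e, pow_zero, Matrix.one_mulVec] at hl
        exact hw hl
      refine ⟨a ^ (Nat.find hex' - 1) *ᵥ w, Nat.find_min hex' (by omega), fun x hx => ?_⟩
      rcases Finset.mem_insert.1 hx with rfl | hx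
      · rw [Matrix.mulVec_mulVec, ← pow_succ', Nat.sub_add_cancel (Nat.pos_of_ne_zero hl0), hl]
      · rw [Matrix.mulVec_mulVec, hcomm x (hs.2 hx).1 _ (Z.pow_mem hs.1.1 _), ← Matrix.mulVec_mulVec,
          hws x hx, Matrix.mulVec_zero]
  obtain ⟨i⟩ : Nonempty ι := not_isEmpty_iff.1 fun hι => hz0 (Subsingleton.elim _ _)
  have hJfin : J.Finite := Set.toFinite _
  obtain ⟨w, hw, hws⟩ := key hJfin.toFinset (by rw [Set.Finite.coe_toFinset]) (Pi.single i 1) (by simp)
  apply hw
  rw [← Submodule.mem_bot F, ← h, hWmem]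
  exact fun x hx => hws x (hJfin.mem_toFinset.2 hx)

/-- Without central idempotents the algebra is homogeneous. -/
theorem homogeneous_of_no_idem [Fintype F] [Nonempty ι] {H : Subgroup (GL ι F)}
    (hirr : ActsIrreducibly (matrixSet H)) {A : Subalgebra F (Matrix ι ι F)} (hA : Normalises H A)
    (hno : ∀ e ∈ centre A, e * e = e → e = 0 ∨ e = 1) :
    ∃ U : Submodule (EndAlg A) (ι → F), IsAtom U ∧ isotypicComponent (EndAlg A) (ι → F) U = ⊤ := by
  classical
  have hh : ∀ h ∈ H, ∀ a ∈ A, ((h⁻¹ : GL ι F) : Matrix ι ι F) * a * (h : Matrix ι ι F) ∈ A := by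
    intro h hh a ha
    simpa using hA h⁻¹ (H.inv_mem hh) a ha
  have : IsArtinian (EndAlg A) (ι → F) := isArtinian_of_tower F inferInstance
  obtain ⟨U, hU⟩ := IsAtomic.exists_atom (Submodule (EndAlg A) (ι → F))
  have hsimple : IsSimpleModule (EndAlg A) U := isSimpleModule_iff_isAtom.2 hU
  refine ⟨U, hU, ?_⟩
  -- the module is semisimple
  let S : Submodule (EndAlg A) (ι → F) :=
    sSup {m : Submodule (EndAlg A) (ι → F) | IsSimpleModule (EndAlg A) m}
  have hS : IsInv (matrixSet H) (S.restrictScalars F) := by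
    rintro _ ⟨h, hhH, rfl⟩ v hv
    have hle : S ≤ moveSub h⁻¹ (hh h⁻¹ (H.inv_mem hhH)) S := by
      refine sSup_le fun m hm => ?_
      intro w hw
      rw [mem_moveSub, inv_inv]
      have hat : IsAtom (moveSub h (hh h hhH) m) :=
        moveSub_isAtom h (hh h hhH) (hh h⁻¹ (H.inv_mem hhH)) (isSimpleModule_iff_isAtom.1 hm)
      exact (le_sSup (show moveSub h (hh h hhH) m ∈ {m : Submodule (EndAlg A) (ι → F) |
        IsSimpleModule (EndAlg A) m} from isSimpleModule_iff_isAtom.2 hat)) (mulVec_mem_moveSub h _ hw)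
    have := hle hv
    rw [mem_moveSub, inv_inv] at this
    exact this
  have hStop : S = ⊤ := by
    rcases actsIrreducibly_iff.1 hirr _ hS with h | h
    · exfalso
      apply hU.1
      rw [eq_bot_iff]
      intro u hu
      have h1 : u ∈ S.restrictScalars F := (le_sSup hsimple : U ≤ S) hu
      rw [h] at h1
      exact h1
    · exact (Submodule.restrictScalars_eq_top_iff F _ _).1 h
  have : IsSemisimpleModule (EndAlg A) (ι → F) := IsSemisimpleModule.of_sSup_simples_eq_top hStop
  let W := isotypicComponent (EndAlg A) (ι → F) U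
  have hWmem : W ∈ isotypicComponents (EndAlg A) (ι → F) := ⟨U, hsimple, rfl⟩
  let W' : Submodule (EndAlg A) (ι → F) := sSup (isotypicComponents (EndAlg A) (ι → F) \ {W})
  have hc : IsCompl W W' := by
    refine ⟨sSupIndep_isotypicComponents (EndAlg A) (ι → F) hWmem, codisjoint_iff.2 (eq_top_iff.2 ?_)⟩
    rw [← sSup_isotypicComponents (EndAlg A) (ι → F)]
    refine sSup_le fun c hcm => ?_
    by_cases e : c = W
    · exact e ▸ le_sup_left
    · exact le_sup_of_le_right (le_sSup ⟨hcm, e⟩)
  have hWinv : W.IsFullyInvariant := Submodule.IsFullyInvariant.isotypicComponent (EndAlg A) (ι → F) U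
  have hW'inv : ∀ d : Module.End (EndAlg A) (ι → F), ∀ v ∈ W', d v ∈ W' := by
    intro d
    have : W' ≤ W'.comap d := sSup_le fun c hcm =>
      ((Submodule.IsFullyInvariant.of_mem_isotypicComponents hcm.1) d).trans
        (Submodule.comap_mono (le_sSup hcm))
    exact fun v hv => this hv
  let π : Module.End (EndAlg A) (ι → F) := Submodule.projection W W' hc
  have hπW : ∀ w ∈ W, π w = w := fun w hw => Submodule.projection_apply_left hc ⟨w, hw⟩
  have hπW' : ∀ w ∈ W', π w = 0 := fun w hw => (Submodule.projection_apply_eq_zero_iff hc).2 hw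
  have hπd : ∀ (d : Module.End (EndAlg A) (ι → F)) v, π (d v) = d (π v) := by
    intro d v
    obtain ⟨w, hw, w', hw', rfl⟩ := Submodule.mem_sup.1 (show v ∈ W ⊔ W' by rw [hc.sup_eq_top]; trivial)
    rw [map_add, map_add, map_add, hπW' _ (hW'inv d w' hw'), hπW' w' hw', hπW w hw, map_add, map_zero,
      hπW _ (hWinv d hw)]
  have : Module.Finite (Module.End (EndAlg A) (ι → F)) (ι → F) := Module.Finite.of_finite
  let f : Module.End (Module.End (EndAlg A) (ι → F)) (ι → F) :=
    { toFun := π, map_add' := π.map_add, map_smul' := fun d v => hπd d v }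
  obtain ⟨b, hb⟩ := Module.Finite.toModuleEnd_moduleEnd_surjective (R := EndAlg A) (M := ι → F) f
  obtain ⟨a, ha, hab⟩ := endAlg_exists b
  have hav : ∀ v, a *ᵥ v = π v := fun v => by
    rw [← hab]
    exact congrArg (fun g : Module.End (Module.End (EndAlg A) (ι → F)) (ι → F) => g v) hb
  have hai : a * a = a := Matrix.ext_of_mulVec_single fun i => by
    rw [← Matrix.mulVec_mulVec, hav (a *ᵥ _), hav]
    obtain ⟨w, hw, w', hw', e⟩ := Submodule.mem_sup.1
      (show (Pi.single i (1 : F) : ι → F) ∈ W ⊔ W' by rw [hc.sup_eq_top]; trivial)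
    rw [← e, map_add, hπW w hw, hπW' w' hw', add_zero, hπW w hw]
  have hacen : a ∈ centre A := mem_centre.2 ⟨ha, fun a' ha' => Matrix.ext_of_mulVec_single fun i => by
    rw [← Matrix.mulVec_mulVec, ← Matrix.mulVec_mulVec, hav, hav]
    exact map_smul π (toEndAlg ha') (Pi.single i (1 : F))⟩
  rcases hno a hacen hai with h | h
  · exfalso
    apply hU.1
    rw [eq_bot_iff]
    intro u hu
    have h1 := hπW u ((le_sSup ⟨LinearEquiv.refl _ U⟩ : U ≤ W) hu)
    rw [← hav, h, Matrix.zero_mulVec] at h1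
    rw [Submodule.mem_bot]
    exact h1.symm
  · rw [eq_top_iff]
    intro v _
    obtain ⟨w, hw, w', hw', e⟩ := Submodule.mem_sup.1 (show v ∈ W ⊔ W' by rw [hc.sup_eq_top]; trivial)
    have h1 := hπW' w' hw'
    rw [← hav, h, Matrix.one_mulVec] at h1
    rw [← e, h1, add_zero]
    exact hw

end Cfsg.Agent.H99.Asch
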