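import Cfsg.Agent.H99.Aschbacher.FormTypeTwo
import Cfsg.Agent.H99.Aschbacher.Perfect

/-!
A perfect absolutely irreducible minimal normal subgroup: simple modulo scalars, or a tensor power.
-/

set_option autoImplicit false
set_option maxHeartbeats 1000000

open scoped MatrixGroups Matrix commutatorElement

namespace Cfsg.Agent.H99.Asch

open Cfsg.Geo

variable {ι : Type} [Fintype ι] [DecidableEq ι] {F : Type*} [Field F]

/-- The embedding of the matrices of the tensor power in a frame. -/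
def frameHom {s k : ℕ} (e : ι ≃ (Fin k → Fin s)) (P : GL ι F) :
    Matrix (Fin k → Fin s) (Fin k → Fin s) F →ₐ[F] Matrix ι ι F :=
  (conjHom P).comp (Matrix.reindexAlgEquiv F F e.symm).toAlgHom

/-- A simple perfect normal subgroup gives the conditions of a residual core but realisability. -/
theorem perfect_simple [Fintype F] (hn3 : 3 ≤ Fintype.card ι) {H N : Subgroup (GL ι F)}
    (hN : NormalIn H N) (henv : env N = ⊤) (hperf : ⁅N, N⁆ = N)
    (hs : ∀ Q : Subgroup (GL ι F), Q ≤ N → (∀ x ∈ N, ∀ y ∈ Q, x * y * x⁻¹ ∈ Q) → Q ≤ scalars ι F ∨ Q = N)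
    (hreal : ∀ F₀ : Subfield F, F₀ ≠ ⊤ → ¬ RealisableOver F₀ (matrixSet N)) : IsResidualCore H N := by
  classical
  have : Nonempty ι := Fintype.card_pos_iff.1 (by omega)
  have : Nontrivial ι := Fintype.one_lt_card_iff_nontrivial.1 (by omega)
  have habs := absIrred_of_env henv
  have hzc : ∀ K : Subgroup (GL ι F), scalars ι F ≤ Subgroup.centralizer (K : Set (GL ι F)) := fun K z hz =>
    Subgroup.mem_centralizer_iff.2 fun g _ => (scalars_commute hz g).symm
  -- N is not scalar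
  have hns : ¬ N ≤ scalars ι F := by
    intro h
    have h1 : ⁅N, N⁆ = ⊥ := Subgroup.commutator_eq_bot_iff_le_centralizer.2 fun x hx =>
      Subgroup.mem_centralizer_iff.2 fun y _ => (scalars_commute (h hx) y).symm
    rw [hperf] at h1
    obtain ⟨i, j, hij⟩ := exists_pair_ne ι
    have hle : env N ≤ ⊥ := env_le_iff.2 fun g hg => by
      rw [h1, Subgroup.mem_bot] at hg
      rw [hg, Units.val_one]
      exact one_mem _
    rw [henv] at hle
    obtain ⟨c, hc⟩ := Algebra.mem_bot.1 (hle (Algebra.mem_top (x := Matrix.single i j (1 : F))))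
    have := congrArg (fun M : Matrix ι ι F => M i j) hc
    simp [Matrix.algebraMap_matrix_apply, hij] at this
  let S : Subgroup N := (scalars ι F).subgroupOf N
  have hnab : ¬ IsMulCommutative (N ⧸ S) := by
    intro hc
    apply hns
    have h1 : ⁅N, N⁆ ≤ scalars ι F := by
      refine Subgroup.commutator_le.2 fun x hx y hy => ?_
      have h2 := hc.is_comm.comm (QuotientGroup.mk ⟨x, hx⟩ : N ⧸ S) (QuotientGroup.mk ⟨y, hy⟩)
      have h3 : (QuotientGroup.mk (⟨x, hx⟩ * ⟨y, hy⟩ * ⟨x, hx⟩⁻¹ * ⟨y, hy⟩⁻¹) : N ⧸ S) = 1 := by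
        rw [QuotientGroup.mk_mul, QuotientGroup.mk_mul, QuotientGroup.mk_mul, QuotientGroup.mk_inv,
          QuotientGroup.mk_inv, h2, mul_inv_cancel_right, mul_inv_cancel]
      exact (QuotientGroup.eq_one_iff (N := S) _).1 h3
    rwa [hperf] at h1
  refine ⟨hN.1, hN.2, hperf, ?_, hnab, ?_, habs, hreal⟩
  · have : Nontrivial (N ⧸ S) := by
      refine QuotientGroup.nontrivial_iff.2 fun h => hns fun x hx => ?_
      exact (show (⟨x, hx⟩ : N) ∈ S from h ▸ Subgroup.mem_top _)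
    refine ⟨fun M hM => ?_⟩
    let M' : Subgroup N := M.comap (QuotientGroup.mk' S)
    have hMN : (M'.map N.subtype) ≤ N := by
      rintro _ ⟨y, -, rfl⟩; exact y.2
    rcases hs _ hMN (by
      rintro x hx _ ⟨y, hy, rfl⟩
      exact ⟨⟨x, hx⟩ * y * ⟨x, hx⟩⁻¹, (Subgroup.normal_comap (QuotientGroup.mk' S)).conj_mem y hy _, rfl⟩) with h | h
    · left
      rw [eq_bot_iff]
      intro q hq
      obtain ⟨y, rfl⟩ := QuotientGroup.mk_surjective q
      rw [Subgroup.mem_bot, QuotientGroup.eq_one_iff]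
      exact h ⟨y, hq, rfl⟩
    · right
      rw [eq_top_iff]
      intro q _
      obtain ⟨y, rfl⟩ := QuotientGroup.mk_surjective q
      obtain ⟨y', hy', he⟩ := (h.symm ▸ y.2 : (y : GL ι F) ∈ M'.map N.subtype)
      rw [Subtype.ext (he : (y' : GL ι F) = y)] at hy'
      exact hy'
  · intro h hh hx
    refine mem_scalars_of_commute habs ?_
    have key : ⁅N, N⁆ ≤ Subgroup.centralizer {h} := by
      refine Subgroup.commutator_le.2 fun x hxN y hyN => ?_
      rw [Subgroup.mem_centralizer_singleton_iff]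
      obtain ⟨z, hz, hzx⟩ : ∃ z ∈ scalars ι F, h * x * h⁻¹ = z * x := ⟨_, hx x hxN, by simp⟩
      obtain ⟨w, hw, hwy⟩ : ∃ w ∈ scalars ι F, h * y * h⁻¹ = w * y := ⟨_, hx y hyN, by simp⟩
      have hz' : ∀ g, z * g = g * z := scalars_commute hz
      have hw' : ∀ g, w * g = g * w := scalars_commute hw
      have e : h * ⁅x, y⁆ * h⁻¹ = ⁅x, y⁆ := by
        calc h * ⁅x, y⁆ * h⁻¹ = ⁅h * x * h⁻¹, h * y * h⁻¹⁆ := conjugate_commutatorElement x y h
          _ = ⁅z * x, w * y⁆ := by rw [hzx, hwy]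
          _ = z * x * (w * y) * (x⁻¹ * z⁻¹) * (y⁻¹ * w⁻¹) := by simp [commutatorElement_def, mul_inv_rev]
          _ = w * (z * (x * y * x⁻¹) * z⁻¹) * (y⁻¹ * w⁻¹) := by
            rw [mul_assoc z x, ← mul_assoc x w y, ← hw' x]
            simp only [← mul_assoc]
            rw [← hw' z]
          _ = w * (x * y * x⁻¹ * y⁻¹) * w⁻¹ := by
            rw [hz' (x * y * x⁻¹)]
            simp [mul_assoc]
          _ = ⁅x, y⁆ := by rw [hw' _, mul_inv_cancel_right, commutatorElement_def]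
      exact (mul_inv_eq_iff_eq_mul.1 e).symm
    rw [hperf] at key
    intro x hxN
    have := Subgroup.mem_centralizer_singleton_iff.1 (key hxN)
    exact this.symm

/-- A perfect minimal normal subgroup that is not simple modulo scalars is a tensor power permuted by H. -/
theorem perfect_factors [Fintype F] (hn3 : 3 ≤ Fintype.card ι) {H N : Subgroup (GL ι F)}
    (hN : NormalIn H N) (henv : env N = ⊤) (hmin : ∀ M, NormalIn H M → M ≤ N → M ≤ scalars ι F ∨ M = N)
    (hperf : ⁅N, N⁆ = N)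
    (hs : ¬ ∀ Q : Subgroup (GL ι F), Q ≤ N → (∀ x ∈ N, ∀ y ∈ Q, x * y * x⁻¹ ∈ Q) → Q ≤ scalars ι F ∨ Q = N) :
    ∃ (s k : ℕ) (e : ι ≃ (Fin k → Fin s)) (P : GL ι F) (Q : Fin k → Subgroup (GL ι F)) (i₀ : Fin k)
      (L : Fin k → Matrix (Fin s) (Fin s) F →ₐ[F] Matrix ι ι F),
      2 ≤ s ∧ 2 ≤ k ∧ (∀ i, Q i ≤ N) ∧ (⨆ i, Q i) = N ∧ (∀ i, ⁅Q i, Q i⁆ = Q i) ∧
      (∀ i, ¬ Q i ≤ scalars ι F) ∧ (∀ i, Function.Injective (L i)) ∧ (∀ i, (L i).range = env (Q i)) ∧
      (∀ i a, L i a = frameHom e P (tpow (Function.update 1 i a))) ∧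
      H ≤ tensorWreathSubgroup s k e P ∧
      (∀ i, ∃ h ∈ H, ∃ (σ : Equiv.Perm (Fin k)) (g : Fin k → GL (Fin s) F) (c : Fˣ), σ i₀ = i ∧
        h = Units.map (frameHom e P).toMonoidHom (permUnit σ * tpowUnit g) * scl c) ∧
      ∀ h ∈ H, ∃ (σ : Equiv.Perm (Fin k)) (g : Fin k → GL (Fin s) F) (c : Fˣ),
        h = Units.map (frameHom e P).toMonoidHom (permUnit σ * tpowUnit g) * scl c := by
  classical
  have : Nonempty ι := Fintype.card_pos_iff.1 (by omega)
  have : Nontrivial ι := Fintype.one_lt_card_iff_nontrivial.1 (by omega)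
  have habs := absIrred_of_env henv
  have hzc : ∀ K : Subgroup (GL ι F), scalars ι F ≤ Subgroup.centralizer (K : Set (GL ι F)) := fun K z hz =>
    Subgroup.mem_centralizer_iff.2 fun g _ => (scalars_commute hz g).symm
  -- N is not scalar
  have hns : ¬ N ≤ scalars ι F := by
    intro h
    have h1 : ⁅N, N⁆ = ⊥ := Subgroup.commutator_eq_bot_iff_le_centralizer.2 fun x hx =>
      Subgroup.mem_centralizer_iff.2 fun y _ => (scalars_commute (h hx) y).symm
    rw [hperf] at h1
    obtain ⟨i, j, hij⟩ := exists_pair_ne ι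
    have hle : env N ≤ ⊥ := env_le_iff.2 fun g hg => by
      rw [h1, Subgroup.mem_bot] at hg
      rw [hg, Units.val_one]
      exact one_mem _
    rw [henv] at hle
    obtain ⟨c, hc⟩ := Algebra.mem_bot.1 (hle (Algebra.mem_top (x := Matrix.single i j (1 : F))))
    have := congrArg (fun M : Matrix ι ι F => M i j) hc
    simp [Matrix.algebraMap_matrix_apply, hij] at this
  -- several simple factors
  push Not at hs
  obtain ⟨Q₁, hQ₁⟩ := hs
  let NQ : Subgroup (GL ι F) → Prop := fun Q => Q ≤ N ∧ (∀ x ∈ N, ∀ y ∈ Q, x * y * x⁻¹ ∈ Q) ∧ ¬ Q ≤ scalars ι F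
  have hNQ₁ : NQ Q₁ := ⟨hQ₁.1, hQ₁.2.1, hQ₁.2.2.1⟩
  obtain ⟨Q₀, hQ₀le, hQ₀min⟩ := Finite.exists_le_minimal (p := NQ) hNQ₁
  have hQ₀N : Q₀ ≠ N := fun e => hQ₁.2.2.2 (le_antisymm hQ₁.1 (e ▸ hQ₀le))
  let cQ : GL ι F → Subgroup (GL ι F) := fun h => Q₀.map (MulAut.conj h).toMonoidHom
  have hcQ : ∀ h x, x ∈ cQ h ↔ h⁻¹ * x * h ∈ Q₀ := fun h x => by
    rw [Subgroup.mem_map_equiv, MulAut.conj_symm_apply]
  have hcQmin : ∀ h ∈ H, Minimal NQ (cQ h) := by
    intro h hh
    have hconj : ∀ (Q : Subgroup (GL ι F)) (g : GL ι F), g ∈ H → NQ Q → NQ (Q.map (MulAut.conj g).toMonoidHom) := by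
      intro Q g hg hQ
      refine ⟨?_, ?_, ?_⟩
      · rintro _ ⟨x, hx, rfl⟩
        exact hN.2 g hg x (hQ.1 hx)
      · rintro x hx _ ⟨y, hy, rfl⟩
        refine ⟨g⁻¹ * x * g * y * (g⁻¹ * x * g)⁻¹, hQ.2.1 _ ?_ y hy, ?_⟩
        · have := hN.2 g⁻¹ (H.inv_mem hg) x hx
          rwa [inv_inv] at this
        · show g * _ * g⁻¹ = x * (g * y * g⁻¹) * x⁻¹
          simp [mul_assoc]
      · intro hle
        apply hQ.2.2
        intro y hy
        have := scalars_normal.conj_mem _ (hle ⟨y, hy, rfl⟩) g⁻¹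
        simpa [mul_assoc] using this
    refine ⟨hconj _ h hh hQ₀min.prop, fun Q hQ hle x hx => ?_⟩
    have h2 : Q.map (MulAut.conj h⁻¹).toMonoidHom ≤ Q₀ := by
      rintro _ ⟨y, hy, rfl⟩
      have := (hcQ h y).1 (hle hy)
      simpa using this
    have h3 := hQ₀min.2 (hconj Q h⁻¹ (H.inv_mem hh) hQ) h2
    obtain ⟨y, hy, he⟩ := h3 ((hcQ h x).1 hx)
    have : y = x := by
      have e : h⁻¹ * y * h⁻¹⁻¹ = h⁻¹ * x * h := he
      simpa using e
    exact this ▸ hy
  let Qs : Set (Subgroup (GL ι F)) := Set.range fun h : H => cQ h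
  let k := Nat.card Qs
  let idx : Fin k ≃ Qs := (Finite.equivFin Qs).symm
  let Q : Fin k → Subgroup (GL ι F) := fun i => (idx i).1
  choose hs' hhs using fun i : Fin k => (idx i).2
  have hQmin : ∀ i, Minimal NQ (Q i) := fun i => by
    show Minimal NQ (idx i).1
    rw [← hhs i]; exact hcQmin _ (hs' i).2
  have hQinj : Function.Injective Q := fun i j h => idx.injective (Subtype.ext h)
  have hcover : ∀ h ∈ H, ∃ i, Q i = cQ h := fun h hh =>
    ⟨idx.symm ⟨cQ h, ⟨h, hh⟩, rfl⟩, by show (idx (idx.symm _)).1 = _; rw [Equiv.apply_symm_apply]⟩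
  have hbot : ∀ i j, i ≠ j → ⁅Q i, Q j⁆ ≤ scalars ι F := by
    intro i j hij
    have hinf : Q i ⊓ Q j ≤ scalars ι F := by
      by_contra hne
      have hq : NQ (Q i ⊓ Q j) := ⟨inf_le_left.trans (hQmin i).prop.1, fun x hx y hy =>
        ⟨(hQmin i).prop.2.1 x hx y hy.1, (hQmin j).prop.2.1 x hx y hy.2⟩, hne⟩
      exact hij (hQinj (le_antisymm (((hQmin i).2 hq inf_le_left).trans inf_le_right)
        (((hQmin j).2 hq inf_le_right).trans inf_le_left)))
    refine le_trans (Subgroup.commutator_le.2 fun x hx y hy => ?_) hinf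
    refine ⟨?_, ?_⟩
    · rw [commutatorElement_def]
      have := (hQmin i).prop.2.1 y ((hQmin j).prop.1 hy) x⁻¹ ((Q i).inv_mem hx)
      have h2 := (Q i).mul_mem hx this
      simpa [mul_assoc] using h2
    · rw [commutatorElement_def]
      exact (Q j).mul_mem ((hQmin j).prop.2.1 x ((hQmin i).prop.1 hx) y hy) ((Q j).inv_mem hy)
  -- the factors generate N
  have hsupN : ⨆ i, Q i = N := by
    have hle : ⨆ i, Q i ≤ N := iSup_le fun i => (hQmin i).prop.1
    refine (hmin _ ⟨hle.trans hN.1, fun h hh x hx => ?_⟩ hle).resolve_left fun hsc => ?_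
    · have hmap : (⨆ i, Q i).map (MulAut.conj h).toMonoidHom ≤ ⨆ i, Q i := by
        rw [Subgroup.map_iSup]
        refine iSup_le fun i => ?_
        obtain ⟨j, hj⟩ := hcover (h * hs' i) (H.mul_mem hh (hs' i).2)
        refine le_trans ?_ (le_iSup Q j)
        rw [hj]
        rintro _ ⟨y, hy, rfl⟩
        have hy' : y ∈ cQ (hs' i) := by rw [show cQ (hs' i) = Q i from hhs i]; exact hy
        rw [hcQ] at hy' ⊢
        show (h * (hs' i : GL ι F))⁻¹ * (h * y * h⁻¹) * (h * (hs' i : GL ι F)) ∈ Q₀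
        simpa [mul_assoc] using hy'
      exact hmap ⟨x, hx, rfl⟩
    · obtain ⟨i, hi⟩ := hcover 1 H.one_mem
      exact (hQmin i).prop.2.2 ((le_iSup Q i).trans hsc)
  -- each factor is perfect
  have hQperf : ∀ i, ⁅Q i, Q i⁆ = Q i := by
    intro i
    have hle : ⁅Q i, Q i⁆ ≤ Q i :=
      Subgroup.commutator_le.2 fun x hx y hy => by
        rw [commutatorElement_def]
        exact (Q i).mul_mem ((Q i).mul_mem ((Q i).mul_mem hx hy) ((Q i).inv_mem hx)) ((Q i).inv_mem hy)
    have hnorm : ∀ x ∈ N, ∀ y ∈ ⁅Q i, Q i⁆, x * y * x⁻¹ ∈ ⁅Q i, Q i⁆ := by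
      intro x hx y hy
      have h1 : ⁅Q i, Q i⁆.map (MulAut.conj x).toMonoidHom ≤ ⁅Q i, Q i⁆ := by
        rw [Subgroup.map_commutator]
        exact Subgroup.commutator_mono (by rintro _ ⟨z, hz, rfl⟩; exact (hQmin i).prop.2.1 x hx z hz)
          (by rintro _ ⟨z, hz, rfl⟩; exact (hQmin i).prop.2.1 x hx z hz)
      exact h1 ⟨y, hy, rfl⟩
    refine le_antisymm hle ((hQmin i).2 ⟨hle.trans (hQmin i).prop.1, hnorm, fun hsc => ?_⟩ hle)
    -- otherwise all commutators would be scalar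
    have hall : ∀ j, ⁅Q j, Q j⁆ ≤ scalars ι F := by
      intro j
      have e1 : ∀ l, Q l = Q₀.map (MulAut.conj (hs' l : GL ι F)).toMonoidHom := fun l => (hhs l).symm
      have hsc' : ⁅Q₀, Q₀⁆ ≤ scalars ι F := by
        intro y hy
        have : MulAut.conj (hs' i : GL ι F) y ∈ ⁅Q i, Q i⁆ := by
          rw [e1 i, ← Subgroup.map_commutator]; exact ⟨y, hy, rfl⟩
        have := scalars_normal.conj_mem _ (hsc this) (hs' i : GL ι F)⁻¹
        simpa [mul_assoc] using this
      rw [e1 j, ← Subgroup.map_commutator]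
      rintro _ ⟨y, hy, rfl⟩
      exact scalars_normal.conj_mem _ (hsc' hy) _
    apply hns
    let π := QuotientGroup.mk' (scalars ι F)
    have h0 : ⁅N.map π, N.map π⁆ = ⊥ := by
      rw [← hsupN, Subgroup.map_iSup, Subgroup.commutator_eq_bot_iff_le_centralizer]
      refine iSup_le fun a => ?_
      rw [Subgroup.le_centralizer_iff]
      refine iSup_le fun b => ?_
      rw [← Subgroup.commutator_eq_bot_iff_le_centralizer, ← Subgroup.map_commutator, eq_bot_iff]
      rintro _ ⟨y, hy, rfl⟩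
      rw [Subgroup.mem_bot]
      refine (QuotientGroup.eq_one_iff y).2 ?_
      rcases eq_or_ne b a with rfl | hab
      · exact hall b hy
      · exact hbot b a hab hy
    rw [← Subgroup.map_commutator, hperf] at h0
    intro x hx
    exact (QuotientGroup.eq_one_iff x).1 (Subgroup.mem_bot.1 (h0 ▸ (⟨x, hx, rfl⟩ : π x ∈ N.map π)))
  -- distinct factors commute
  have hQcomm : ∀ i j, i ≠ j → ∀ x ∈ Q i, ∀ y ∈ Q j, x * y = y * x := by
    intro i j hij x hx y hy
    have h1 : ∀ a b, a ≠ b → ∀ K : Subgroup (GL ι F), ⁅⁅Q a, Q b⁆, K⁆ = ⊥ := fun a b hab K =>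
      Subgroup.commutator_eq_bot_iff_le_centralizer.2 ((hbot a b hab).trans (hzc K))
    have h2 : ⁅⁅Q i, Q i⁆, Q j⁆ = ⊥ :=
      Subgroup.commutator_commutator_eq_bot_of_rotate (h1 i j hij _) (h1 j i hij.symm _)
    rw [hQperf, Subgroup.commutator_eq_bot_iff_le_centralizer] at h2
    exact (Subgroup.mem_centralizer_iff.1 (h2 hx) y hy).symm
  have hk2 : 2 ≤ k := by
    by_contra hlt
    obtain ⟨i, hi⟩ := hcover 1 H.one_mem
    have h1 : cQ 1 = Q₀ := by
      ext x
      rw [hcQ]; simp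
    apply hQ₀N
    rw [← h1, ← hi, ← hsupN]
    refine le_antisymm (le_iSup Q i) (iSup_le fun j => ?_)
    rw [show j = i from Fin.ext (by omega)]
  obtain ⟨i₀, hi₀⟩ := hcover 1 H.one_mem
  have hQi₀ : Q i₀ = Q₀ := by
    rw [hi₀]; ext x; rw [hcQ]; simp
  let S : Set (Matrix ι ι F) := ⋃ i, matrixSet (Q i)
  have hSgen : Algebra.adjoin F S = ⊤ := by
    rw [eq_top_iff, ← henv]
    refine Algebra.adjoin_le ?_
    rintro _ ⟨g, hg, rfl⟩
    rw [← hsupN, Subgroup.iSup_eq_closure] at hg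
    induction hg using Subgroup.closure_induction with
    | mem x hx =>
      obtain ⟨i, hi⟩ := Set.mem_iUnion.1 hx
      exact Algebra.subset_adjoin (Set.mem_iUnion.2 ⟨i, x, hi, rfl⟩)
    | one => exact one_mem _
    | mul x y _ _ hx hy => exact mul_mem hx hy
    | inv x _ hx =>
      obtain ⟨j, hj⟩ : ∃ j : ℕ, x⁻¹ = x ^ j := ⟨orderOf x - 1, by
        rw [inv_eq_iff_mul_eq_one, ← pow_succ', Nat.sub_add_cancel (orderOf_pos x), pow_orderOf_eq_one]⟩
      show ((x⁻¹ : GL ι F) : Matrix ι ι F) ∈ _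
      rw [hj, Units.val_pow_eq_pow_val]
      exact pow_mem hx j
  let A₀ := env (Q i₀)
  have hSA : ∀ s ∈ S, s ∈ A₀ ∨ ∀ a ∈ A₀, s * a = a * s := by
    intro s hs
    obtain ⟨j, g, hg, rfl⟩ := Set.mem_iUnion.1 hs
    rcases eq_or_ne j i₀ with rfl | hj
    · exact Or.inl (coe_mem_env hg)
    · refine Or.inr fun a ha => commute_adjoin ?_ ha
      rintro _ ⟨g', hg', rfl⟩
      exact congrArg Units.val (hQcomm j i₀ hj g hg g' hg')
  have hSabs := absIrred_of_adjoin hSgen
  obtain ⟨-, hfull⟩ := clifford_of_mem_or_commute hSabs.1 hSA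
  obtain ⟨s, f, hs0, hf, hfspan⟩ := hfull fun z hz hzc => hSabs.2 z fun t ht => by
    rcases hSA t ht with h | h
    · exact hzc t h
    · exact (h z hz).symm
  have : NeZero s := ⟨hs0.ne'⟩
  obtain ⟨t, e₀, P₀, hP₀⟩ := exists_frame hf
  have : NeZero t := ⟨by obtain ⟨x⟩ := ‹Nonempty ι›; have := (e₀ x).2.pos; omega⟩
  let L₀ : Matrix (Fin s) (Fin s) F →ₐ[F] Matrix ι ι F := (conjHom P₀).comp (tensL e₀)
  have hL₀inj : Function.Injective L₀ := fun a b h => tensL_injective e₀ (conj_inj P₀ h)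
  have hL₀range : L₀.range = A₀ := by
    apply le_antisymm
    · rintro _ ⟨a, rfl⟩
      show L₀ a ∈ A₀
      rw [Matrix.matrix_eq_sum_single a, map_sum]
      refine A₀.sum_mem fun i _ => ?_
      rw [map_sum]
      refine A₀.sum_mem fun j _ => ?_
      rw [show Matrix.single i j (a i j) = a i j • Matrix.single i j (1 : F) by
        rw [Matrix.smul_single, smul_eq_mul, mul_one], map_smul]
      refine A₀.smul_mem ?_ _
      show conjHom P₀ (tensL e₀ (Matrix.single i j 1)) ∈ A₀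
      rw [conjHom_apply, tensL_apply, ← hP₀, ← Subalgebra.mem_toSubmodule, ← hfspan]
      exact Submodule.subset_span ⟨(i, j), rfl⟩
    · intro M hM
      rw [← Subalgebra.mem_toSubmodule, ← hfspan] at hM
      refine (Submodule.span_le (p := Subalgebra.toSubmodule L₀.range)).2 ?_ hM
      rintro _ ⟨⟨a, b⟩, rfl⟩
      exact ⟨Matrix.single a b 1, (hP₀ a b).symm⟩
  have hs2 : 2 ≤ s := by
    by_contra hlt
    have : Subsingleton (Fin s) := Fin.subsingleton_iff_le_one.2 (by omega)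
    apply (hQmin i₀).prop.2.2
    intro g hg
    obtain ⟨a, ha⟩ : (g : Matrix ι ι F) ∈ L₀.range := by rw [hL₀range]; exact coe_mem_env hg
    apply mem_scalars_of_smul (c := a 0 0)
    have h1 : a = algebraMap F _ (a 0 0) := by
      ext i j
      rw [Subsingleton.elim i 0, Subsingleton.elim j 0]
      simp [Matrix.algebraMap_matrix_apply]
    rw [← ha, h1]
    show L₀ (algebraMap F _ (a 0 0)) = _
    rw [AlgHom.commutes, Algebra.algebraMap_eq_smul_one]
    simp [Matrix.algebraMap_matrix_apply]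
  let L : Fin k → Matrix (Fin s) (Fin s) F →ₐ[F] Matrix ι ι F := fun i => (conjHom (hs' i : GL ι F)).comp L₀
  have hLinj : ∀ i, Function.Injective (L i) := fun i a b h => hL₀inj (conj_inj _ h)
  have hmapenv : ∀ (h : GL ι F) (K : Subgroup (GL ι F)),
      (env K).map (conjHom h) = env (K.map (MulAut.conj h).toMonoidHom) := by
    intro h K
    rw [env, AlgHom.map_adjoin, env]
    congr 1
    ext M
    constructor
    · rintro ⟨_, ⟨g, hg, rfl⟩, rfl⟩
      exact ⟨_, ⟨g, hg, rfl⟩, (conjHom_coe h g).symm⟩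
    · rintro ⟨_, ⟨g, hg, rfl⟩, rfl⟩
      exact ⟨_, ⟨g, hg, rfl⟩, conjHom_coe h g⟩
  have hLrange : ∀ i, (L i).range = env (Q i) := by
    intro i
    show ((conjHom (hs' i : GL ι F)).comp L₀).range = _
    rw [AlgHom.range_comp, hL₀range, hmapenv, hQi₀]
    exact congrArg env (hhs i)
  have hcommL : ∀ i j, i ≠ j → ∀ a b, L i a * L j b = L j b * L i a := by
    intro i j hij a b
    have ha : L i a ∈ env (Q i) := hLrange i ▸ ⟨a, rfl⟩
    have hb : L j b ∈ env (Q j) := hLrange j ▸ ⟨b, rfl⟩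
    refine commute_adjoin ?_ hb
    rintro _ ⟨g, hg, rfl⟩
    symm
    refine commute_adjoin ?_ ha
    rintro _ ⟨g', hg', rfl⟩
    exact congrArg Units.val (hQcomm j i hij.symm g hg g' hg')
  have hgenL : Algebra.adjoin F (⋃ i, Set.range (L i)) = ⊤ := by
    rw [eq_top_iff, ← hSgen]
    refine Algebra.adjoin_mono (Set.iUnion_mono fun i => ?_)
    rintro _ ⟨g, hg, rfl⟩
    obtain ⟨a, ha⟩ : (g : Matrix ι ι F) ∈ (L i).range := hLrange i ▸ coe_mem_env hg
    exact ⟨a, ha⟩
  obtain ⟨e, P, hLP⟩ := exists_tensorPower L hcommL hgenL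
  let Λ : Matrix (Fin k → Fin s) (Fin k → Fin s) F →ₐ[F] Matrix ι ι F :=
    (conjHom P).comp (Matrix.reindexAlgEquiv F F e.symm).toAlgHom
  have hLΛ : ∀ i a, L i a = Λ (tpow (Function.update 1 i a)) := hLP
  have hΛmem : ∀ W ∈ tensorWreathStandard s k F, Units.map Λ.toMonoidHom W ∈ tensorWreathSubgroup s k e P :=
    fun W hW => ⟨glReindex e.symm W, ⟨W, hW, rfl⟩, Units.ext rfl⟩
  have hdesc : ∀ h ∈ H, ∃ (σ : Equiv.Perm (Fin k)) (g : Fin k → GL (Fin s) F) (c' : Fˣ),
      h = Units.map Λ.toMonoidHom (permUnit σ * tpowUnit g) * scl c' ∧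
      ∀ i, Q (σ i) = cQ (h * hs' i) := by
    intro h hh
    choose π hπ using fun i => hcover (h * hs' i) (H.mul_mem hh (hs' i).2)
    have himg : ∀ i, (env (Q i)).map (conjHom h) = env (Q (π i)) := by
      intro i
      rw [hmapenv, hπ, show Q i = cQ (hs' i) from (hhs i).symm]
      show env ((Q₀.map _).map _) = _
      rw [Subgroup.map_map]
      congr 2
      exact MonoidHom.ext fun x => by simp [mul_assoc]
    have hπinj : Function.Injective π := by
      intro i j hij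
      apply hQinj
      have hi := hπ i; have hj := hπ j
      rw [hij, hj] at hi
      rw [show Q i = cQ (hs' i) from (hhs i).symm, show Q j = cQ (hs' j) from (hhs j).symm]
      ext x
      have := SetLike.ext_iff.1 hi (h * x * h⁻¹)
      rw [hcQ, hcQ] at this
      rw [hcQ, hcQ]
      simpa [mul_assoc] using this.symm
    have hb : ∀ i a, conjHom h (L i a) ∈ (L (π i)).range := fun i a => by
      rw [hLrange, ← himg]
      exact ⟨L i a, hLrange i ▸ ⟨a, rfl⟩, rfl⟩
    let φ : ∀ _ : Fin k, Matrix (Fin s) (Fin s) F →ₐ[F] Matrix (Fin s) (Fin s) F := fun i =>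
      (AlgEquiv.ofInjective (L (π i)) (hLinj _)).symm.toAlgHom.comp
        (((conjHom h).comp (L i)).codRestrict (L (π i)).range (hb i))
    have hφ : ∀ i a, L (π i) (φ i a) = conjHom h (L i a) := fun i a =>
      congrArg Subtype.val ((AlgEquiv.ofInjective (L (π i)) (hLinj _)).apply_symm_apply _)
    choose g hg using fun i => exists_inner (φ i) (fun a b hab => hLinj i (conj_inj h (by
      have := congrArg (L (π i)) hab
      rwa [hφ, hφ] at this)))
    let σ : Equiv.Perm (Fin k) := Equiv.ofBijective π (Finite.injective_iff_bijective.1 hπinj)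
    let W : GL (Fin k → Fin s) F := permUnit σ * tpowUnit g
    have hWmem : W ∈ tensorWreathStandard s k F := mul_mem (permUnit_mem σ) (tpowUnit_mem g)
    let Wι : GL ι F := Units.map Λ.toMonoidHom W
    have hW : ∀ i a, conjHom Wι (L i a) = conjHom h (L i a) := by
      intro i a
      rw [← hφ, hg, hLΛ, hLΛ, conjHom_apply]
      show Λ (W : Matrix _ _ F) * Λ _ * Λ ((W⁻¹ : GL _ F) : Matrix _ _ F) = _
      rw [← map_mul, ← map_mul]
      congr 1
      show (permMat σ * tpow (fun l => (g l : Matrix (Fin s) (Fin s) F))) * tpow (Function.update 1 i a) *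
        (((tpowUnit g)⁻¹ * (permUnit σ)⁻¹ : GL _ F) : Matrix _ _ F) = _
      rw [Units.val_mul]
      show (permMat σ * tpow (fun l => (g l : Matrix (Fin s) (Fin s) F))) * tpow (Function.update 1 i a) *
        (tpow (fun l => ((g l)⁻¹ : GL (Fin s) F) : Fin k → Matrix (Fin s) (Fin s) F) * permMat σ.symm) = _
      rw [mul_assoc (permMat σ), ← tpow_mul, ← mul_assoc, mul_assoc (permMat σ) (tpow _), ← tpow_mul, permMat_conj]
      congr 1
      funext l
      simp only [Function.comp_apply, Pi.mul_apply]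
      rcases eq_or_ne l (π i) with rfl | hl
      · rw [show σ.symm (π i) = i from σ.symm_apply_apply i, Function.update_self, Function.update_self]
      · have : σ.symm l ≠ i := fun e => hl (by rw [← e]; exact (σ.apply_symm_apply l).symm)
        rw [Function.update_of_ne this, Function.update_of_ne hl, Pi.one_apply, Pi.one_apply, mul_one,
          ← Units.val_mul, mul_inv_cancel, Units.val_one]
    obtain ⟨c, hc⟩ := (absIrred_of_adjoin hgenL).2 ((Wι⁻¹ * h : GL ι F) : Matrix ι ι F) fun M hM => by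
      obtain ⟨i, a, rfl⟩ := Set.mem_iUnion.1 hM
      have h1 := congrArg (fun X => ((Wι⁻¹ : GL ι F) : Matrix ι ι F) * X * (h : Matrix ι ι F)) (hW i a)
      simp only [conjHom_apply, ← mul_assoc] at h1
      rw [← Units.val_mul Wι⁻¹ Wι, inv_mul_cancel, Units.val_one, one_mul] at h1
      simp only [mul_assoc] at h1
      rw [← Units.val_mul h⁻¹ h, inv_mul_cancel, Units.val_one, mul_one] at h1
      rw [Units.val_mul, mul_assoc]
      exact h1.symm
    have hcs : (Wι⁻¹ * h : GL ι F) ∈ scalars ι F := mem_scalars_of_smul hc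
    obtain ⟨c', hc'⟩ := exists_scl hcs
    have : h = Wι * scl c' := by rw [← hc', mul_inv_cancel_left]
    exact ⟨σ, g, c', this, hπ⟩
  have hsclmem : ∀ c' : Fˣ, (scl c' : GL ι F) ∈ tensorWreathSubgroup s k e P := by
    intro c'
    have hscl : (scl c' : GL ι F) = Units.map Λ.toMonoidHom (tpowUnit (Function.update 1 i₀ (scl c'))) := by
      apply Units.ext
      show _ = Λ (tpow _)
      have : (fun l => ((Function.update (1 : Fin k → GL (Fin s) F) i₀ (scl c') l : GL (Fin s) F) : Matrix (Fin s) (Fin s) F)) =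
          Function.update (1 : Fin k → Matrix (Fin s) (Fin s) F) i₀ ((c' : F) • (1 : Matrix (Fin s) (Fin s) F)) := by
        funext l
        rcases eq_or_ne l i₀ with rfl | hl
        · rw [Function.update_self, Function.update_self, coe_scl]
        · rw [Function.update_of_ne hl, Function.update_of_ne hl]; rfl
      rw [this, ← hLΛ, map_smul, map_one, coe_scl]
    rw [hscl]
    exact hΛmem _ (tpowUnit_mem _)
  refine ⟨s, k, e, P, Q, i₀, L, hs2, hk2, fun i => (hQmin i).prop.1, hsupN, hQperf,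
    fun i => (hQmin i).prop.2.2, hLinj, hLrange, hLΛ, fun h hh => ?_, fun i => ?_, fun h hh => ?_⟩
  · obtain ⟨σ, g, c', he, -⟩ := hdesc h hh
    rw [he]
    exact mul_mem (hΛmem _ (mul_mem (permUnit_mem σ) (tpowUnit_mem g))) (hsclmem c')
  · obtain ⟨σ, g, c', he, hσ⟩ := hdesc ((hs' i : GL ι F) * (hs' i₀ : GL ι F)⁻¹)
      (H.mul_mem (hs' i).2 (H.inv_mem (hs' i₀).2))
    refine ⟨(hs' i : GL ι F) * (hs' i₀ : GL ι F)⁻¹, H.mul_mem (hs' i).2 (H.inv_mem (hs' i₀).2), σ, g, c', ?_, he⟩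
    apply hQinj
    rw [hσ i₀, inv_mul_cancel_right]
    exact hhs i
  · obtain ⟨σ, g, c', he, -⟩ := hdesc h hh
    exact ⟨σ, g, c', he⟩

end Cfsg.Agent.H99.Asch
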