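import Cfsg.Agent.H99.Aschbacher.FormPerfect

/-!
Aschbacher's theorem relative to a form: the assembled list of alternatives for an isometry group, and the prime
degree subfields of an adjoint-closed field.
-/

set_option autoImplicit false

open scoped MatrixGroups Matrix commutatorElement

namespace Cfsg.Agent.H99.Asch

open Cfsg.Geo

variable {ι : Type} [Fintype ι] [DecidableEq ι] {F : Type*} [Field F]

/-- The alternatives for an irreducible isometry group. -/
def InFormIrreducible [Fintype F] (D : FormData ι F) (H : Subgroup (GL ι F)) : Prop :=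
  InFormHalves D H ∨ (∃ N, NormalIn H N ∧ ¬ N ≤ scalars ι F ∧ InFormField D H N) ∨ InFormTensor D H ∨
    InFormSubfield D H ∨ InFormTypeTwo D H ∨ InFormTensorPower D H ∨ InFormResidual D H

/-- An irreducible group in dimension at least two is not made of scalars. -/
lemma not_le_scalars_of_irreducible (hn : 2 ≤ Fintype.card ι) {H : Subgroup (GL ι F)}
    (hirr : ActsIrreducibly (matrixSet H)) : ¬ H ≤ scalars ι F := by
  intro hle
  obtain ⟨i, j, hij⟩ : ∃ i j : ι, i ≠ j := Fintype.exists_pair_of_one_lt_card (by omega)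
  have hinv : IsInv (matrixSet H) (F ∙ (Pi.single i (1 : F))) := by
    rintro _ ⟨g, hg, rfl⟩ v hv
    obtain ⟨c, hc⟩ := (mem_scalars_iff g).1 (hle hg)
    show (g : Matrix ι ι F) *ᵥ v ∈ _
    rw [hc, Matrix.smul_mulVec, Matrix.one_mulVec]
    exact Submodule.smul_mem _ _ hv
  rcases actsIrreducibly_iff.1 hirr _ hinv with h | h
  · have h1 := (Submodule.span_singleton_eq_bot.1 h)
    simp at h1
  · obtain ⟨c, hc⟩ := Submodule.mem_span_singleton.1 (h ▸ Submodule.mem_top : Pi.single j (1 : F) ∈ _)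
    have := congrFun hc j
    simp [Ne.symm hij] at this

/-- Aschbacher's theorem relative to a form. -/
theorem form_aschbacher [Fintype F] (D : FormData ι F) (hn3 : 3 ≤ Fintype.card ι) {H : Subgroup (GL ι F)}
    (hH : H ≤ D.isom) :
    InFormSubspace D H ∨ InFormDecomposition D H ∨
      (ActsIrreducibly (matrixSet H) ∧ InFormIrreducible D H) := by
  classical
  have : Nonempty ι := Fintype.card_pos_iff.1 (by omega)
  by_cases hirr : ActsIrreducibly (matrixSet H)
  swap
  · rcases form_reducible D hH hirr with h | h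
    · exact Or.inl h
    · exact Or.inr (Or.inl h)
  obtain ⟨N, hN, hns, hmin⟩ := exists_minimal_normal (not_le_scalars_of_irreducible (by omega) hirr)
  rcases form_trichotomy D hirr hH hN hns with h | h | h | h | henv
  · exact Or.inr (Or.inl h)
  · exact Or.inr (Or.inr ⟨hirr, Or.inl h⟩)
  · exact Or.inr (Or.inr ⟨hirr, Or.inr (Or.inl ⟨N, hN, hns, h⟩)⟩)
  · exact Or.inr (Or.inr ⟨hirr, Or.inr (Or.inr (Or.inl h))⟩)
  refine Or.inr (Or.inr ⟨hirr, Or.inr (Or.inr (Or.inr ?_))⟩)
  by_cases hcomm : ∀ x ∈ N, ∀ y ∈ N, x * y * x⁻¹ * y⁻¹ ∈ scalars ι F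
  · rcases formTypeTwo_case D hn3 hH hN hns henv hmin hcomm with h | h
    · exact Or.inl h
    · exact Or.inr (Or.inl h)
  · have hperf : ⁅N, N⁆ = N := by
      have hle : ⁅N, N⁆ ≤ N :=
        Subgroup.commutator_le.2 fun x hx y hy => by
          rw [commutatorElement_def]
          exact N.mul_mem (N.mul_mem (N.mul_mem hx hy) (N.inv_mem hx)) (N.inv_mem hy)
      refine (hmin _ ⟨hle.trans hN.1, fun h hh x hx => ?_⟩ hle).resolve_left fun hsc => ?_
      · have h1 : ⁅N, N⁆.map (MulAut.conj h).toMonoidHom ≤ ⁅N, N⁆ := by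
          rw [Subgroup.map_commutator]
          exact Subgroup.commutator_mono (by rintro _ ⟨z, hz, rfl⟩; exact hN.2 h hh z hz)
            (by rintro _ ⟨z, hz, rfl⟩; exact hN.2 h hh z hz)
        exact h1 ⟨x, hx, rfl⟩
      · exact hcomm fun x hx y hy => hsc (Subgroup.commutator_mem_commutator hx hy)
    rcases formPerfect_case D hn3 hH hN henv hmin hperf with h | h | h
    · exact Or.inr (Or.inr (Or.inr h))
    · exact Or.inl h
    · exact Or.inr (Or.inr (Or.inl h))

/-- A subfield of prime degree of an adjoint-closed normalised field is adjoint-closed and normalised. -/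
theorem exists_prime_field_adj [Fintype F] [Nonempty ι] (D : FormData ι F) {H : Subgroup (GL ι F)} {d : ℕ}
    {K : Subalgebra F (Matrix ι ι F)} (hK : IsFieldSubalgebra d K) (hd : d ≠ 1) (hKa : ∀ k ∈ K, D.adj k ∈ K)
    (hKn : Normalises H K) :
    ∃ (r : ℕ) (L : Subalgebra F (Matrix ι ι F)), r.Prime ∧ r ∣ d ∧ r ∣ Fintype.card ι ∧ IsFieldSubalgebra r L ∧
      (∀ k ∈ L, D.adj k ∈ L) ∧ Normalises H L := by
  classical
  obtain ⟨r, L, hr, hrd, hL, hLK, hHL⟩ := exists_prime_field hK hd
  refine ⟨r, L, hr, hrd, fieldSubalgebra_dvd hL, hL, fun k hk => ?_, hHL H hKn⟩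
  let N := Fintype.card F ^ r
  have : Nontrivial L := ⟨⟨0, 1, fun e => zero_ne_one (congrArg Subtype.val e)⟩⟩
  have hLF : IsField L :=
    { exists_pair_ne := exists_pair_ne _
      mul_comm := fun a b => Subtype.ext (hL.comm a a.2 b b.2)
      mul_inv_cancel := fun {a} ha => by
        obtain ⟨y, hy, hxy⟩ := hL.inv a a.2 (fun e => ha (Subtype.ext e))
        exact ⟨⟨y, hy⟩, Subtype.ext hxy⟩ }
  have : Nontrivial K := ⟨⟨0, 1, fun e => zero_ne_one (congrArg Subtype.val e)⟩⟩
  have hKF : IsField K :=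
    { exists_pair_ne := exists_pair_ne _
      mul_comm := fun a b => Subtype.ext (hK.comm a a.2 b b.2)
      mul_inv_cancel := fun {a} ha => by
        obtain ⟨y, hy, hxy⟩ := hK.inv a a.2 (fun e => ha (Subtype.ext e))
        exact ⟨⟨y, hy⟩, Subtype.ext hxy⟩ }
  let _ : Field K := hKF.toField
  let _ : Fintype K := Fintype.ofFinite K
  let L' : Subfield K :=
    { (L.comap K.val).toSubring with
      inv_mem' := fun x hx => by
        by_cases hx0 : x = 0
        · rw [hx0, inv_zero]; exact (L.comap K.val).zero_mem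
        obtain ⟨y, hy, hxy⟩ := hL.inv (x : Matrix ι ι F) hx (fun e => hx0 (Subtype.ext e))
        have : x⁻¹ = ⟨y, hLK hy⟩ := inv_eq_of_mul_eq_one_right (Subtype.ext hxy)
        show x⁻¹ ∈ L.comap K.val
        rw [this]
        exact hy }
  have hcard : Nat.card L' = N := by
    have e1 : Nat.card L' = Nat.card L := Nat.card_congr
      { toFun := fun x => ⟨((x : K) : Matrix ι ι F), x.2⟩
        invFun := fun x => ⟨⟨x.1, hLK x.2⟩, x.2⟩
        left_inv := fun x => rfl
        right_inv := fun x => rfl }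
    rw [e1, Module.natCard_eq_pow_finrank (K := F), Nat.card_eq_fintype_card, hL.finrank_eq]
  have hmem : ∀ x : K, x ∈ L' ↔ x ^ N = x := fun x => by rw [mem_subfield_iff, hcard]
  have hkL : (⟨k, hLK hk⟩ : K) ∈ L' := hk
  have h1 : k ^ N = k := congrArg Subtype.val ((hmem _).1 hkL)
  have h2 : (⟨D.adj k, hKa k (hLK hk)⟩ : K) ∈ L' :=
    (hmem _).2 (Subtype.ext (show D.adj k ^ N = D.adj k by rw [← D.adj_pow, h1]))
  exact h2

end Cfsg.Agent.H99.Asch
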