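import Cfsg.Agent.H99.Aschbacher.FormFactors

/-!
The perfect case of Aschbacher's theorem relative to a form: the residual class, a subfield group, or a tensor
power of the form.
-/

set_option autoImplicit false
set_option maxHeartbeats 1000000

open scoped MatrixGroups Matrix commutatorElement

namespace Cfsg.Agent.H99.Asch

open Cfsg.Geo

variable {ι : Type} [Fintype ι] [DecidableEq ι] {F : Type*} [Field F] {k s : ℕ}

lemma tpow_map (σ : F →+* F) (c : Fin k → Matrix (Fin s) (Fin s) F) :
    (tpow c).map σ = tpow fun i => (c i).map σ := by ext x y; simp [tpow_apply]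

lemma isom_preserving_iff {g : GL ι F} {τ : F →+* F} {G : Matrix ι ι F} :
    g ∈ preserving (Units.coeHom (Matrix ι ι F)) (gramForm τ G) ↔
      (g : Matrix ι ι F)ᵀ * G * (g : Matrix ι ι F).map τ = G := by
  constructor
  · intro h
    exact eq_of_gramForm_eq τ fun u v => by rw [← gramForm_mulVec]; exact h u v
  · intro h u v
    show gramForm τ G ((g : Matrix ι ι F) *ᵥ u) ((g : Matrix ι ι F) *ᵥ v) = _
    rw [gramForm_mulVec, h]

/-- A tensor product of non-zero matrices determines each factor up to a scalar. -/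
lemma tpow_eq_smul {a b : Fin k → Matrix (Fin s) (Fin s) F} (hb : ∀ i, b i ≠ 0) {x : F} (hx : x ≠ 0)
    (h : tpow a = x • tpow b) (l : Fin k) : ∃ y : F, y ≠ 0 ∧ a l = y • b l := by
  classical
  have hne : ∀ i, ∃ p : Fin s × Fin s, b i p.1 p.2 ≠ 0 := fun i => by
    obtain ⟨p, hp⟩ := Function.ne_iff.1 (hb i)
    obtain ⟨q, hq⟩ := Function.ne_iff.1 hp
    exact ⟨(p, q), hq⟩
  choose p hp using hne
  have key : ∀ u v, a l u v * ∏ i ∈ Finset.univ.erase l, a i (p i).1 (p i).2 =
      x * (b l u v * ∏ i ∈ Finset.univ.erase l, b i (p i).1 (p i).2) := by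
    intro u v
    have := congrArg (fun M : Matrix (Fin k → Fin s) (Fin k → Fin s) F =>
      M (Function.update (fun i => (p i).1) l u) (Function.update (fun i => (p i).2) l v)) h
    simp only [tpow_apply, Matrix.smul_apply, smul_eq_mul] at this
    rw [← Finset.mul_prod_erase _ _ (Finset.mem_univ l), ← Finset.mul_prod_erase _ _ (Finset.mem_univ l),
      Function.update_self, Function.update_self] at this
    convert this using 2
    · refine Finset.prod_congr rfl fun i hi => ?_
      rw [Function.update_of_ne (Finset.ne_of_mem_erase hi), Function.update_of_ne (Finset.ne_of_mem_erase hi)]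
    · congr 1
      refine Finset.prod_congr rfl fun i hi => ?_
      rw [Function.update_of_ne (Finset.ne_of_mem_erase hi), Function.update_of_ne (Finset.ne_of_mem_erase hi)]
  set A := ∏ i ∈ Finset.univ.erase l, a i (p i).1 (p i).2
  set B := ∏ i ∈ Finset.univ.erase l, b i (p i).1 (p i).2
  have hB : B ≠ 0 := Finset.prod_ne_zero_iff.2 fun i _ => hp i
  have hA : A ≠ 0 := fun e => by
    have := key (p l).1 (p l).2
    rw [e, mul_zero] at this
    exact mul_ne_zero hx (mul_ne_zero (hp l) hB) this.symm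
  refine ⟨x * B / A, div_ne_zero (mul_ne_zero hx hB) hA, ?_⟩
  ext u v
  rw [Matrix.smul_apply, smul_eq_mul, div_mul_eq_mul_div, eq_div_iff hA, key]
  ring

/-- The single-factor matrices generate the tensor power. -/
lemma adjoin_tpow_update : Algebra.adjoin F (⋃ i : Fin k, Set.range fun a : Matrix (Fin s) (Fin s) F =>
    tpow (Function.update (1 : Fin k → Matrix (Fin s) (Fin s) F) i a)) = ⊤ := by
  classical
  set A := Algebra.adjoin F (⋃ i : Fin k, Set.range fun a : Matrix (Fin s) (Fin s) F =>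
    tpow (Function.update (1 : Fin k → Matrix (Fin s) (Fin s) F) i a))
  have hprod : ∀ (S : Finset (Fin k)) (c : Fin k → Matrix (Fin s) (Fin s) F),
      tpow (fun i => if i ∈ S then c i else 1) ∈ A := by
    intro S c
    induction S using Finset.induction with
    | empty =>
      have : tpow (fun i => if i ∈ (∅ : Finset (Fin k)) then c i else 1) = 1 := by
        simp only [Finset.notMem_empty, if_false]; exact tpow_one
      rw [this]; exact one_mem A
    | insert a S ha ih =>
      have e : (fun i => if i ∈ insert a S then c i else (1 : Matrix (Fin s) (Fin s) F)) =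
          (fun i => if i ∈ S then c i else 1) * Function.update (1 : Fin k → Matrix (Fin s) (Fin s) F) a (c a) := by
        funext i
        rcases eq_or_ne i a with rfl | hi
        · simp [ha]
        · simp [hi, Function.update_of_ne hi]
      rw [e, tpow_mul]
      exact mul_mem ih (Algebra.subset_adjoin (Set.mem_iUnion.2 ⟨a, c a, rfl⟩))
  rw [eq_top_iff]
  intro M _
  rw [Matrix.matrix_eq_sum_single M]
  refine A.sum_mem fun x _ => A.sum_mem fun y _ => ?_
  rw [show Matrix.single x y (M x y) = M x y • Matrix.single x y (1 : F) by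
    rw [Matrix.smul_single, smul_eq_mul, mul_one]]
  refine A.smul_mem ?_ _
  have e : Matrix.single x y (1 : F) =
      tpow (fun i => if i ∈ (Finset.univ : Finset (Fin k)) then Matrix.single (x i) (y i) (1 : F) else 1) := by
    ext u v
    simp only [tpow_apply, Finset.mem_univ, if_true, Matrix.single_apply]
    by_cases hxy : x = u ∧ y = v
    · rw [if_pos hxy]
      exact (Finset.prod_eq_one fun i _ => if_pos ⟨congrFun hxy.1 i, congrFun hxy.2 i⟩).symm
    · rw [if_neg hxy]
      symm
      obtain ⟨i, hi⟩ : ∃ i, ¬ (x i = u i ∧ y i = v i) := by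
        by_contra hne
        push Not at hne
        exact hxy ⟨funext fun i => (hne i).1, funext fun i => (hne i).2⟩
      exact Finset.prod_eq_zero (Finset.mem_univ i) (if_neg hi)
  rw [e]
  exact hprod _ _

/-- A matrix normalising every factor is a scalar times a tensor product. -/
lemma exists_tpow_of_normalises [NeZero s] (V : GL (Fin k → Fin s) F)
    (h : ∀ i a, ∃ b, ((V⁻¹ : GL (Fin k → Fin s) F) : Matrix (Fin k → Fin s) (Fin k → Fin s) F) *
      tpow (Function.update (1 : Fin k → Matrix (Fin s) (Fin s) F) i a) * (V : Matrix (Fin k → Fin s) (Fin k → Fin s) F) = tpow (Function.update 1 i b)) :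
    ∃ (g : Fin k → GL (Fin s) F) (c : F), c ≠ 0 ∧
      (V : Matrix (Fin k → Fin s) (Fin k → Fin s) F) = c • tpow fun i => (g i : Matrix (Fin s) (Fin s) F) := by
  classical
  let E : Fin k → Matrix (Fin s) (Fin s) F → Matrix (Fin k → Fin s) (Fin k → Fin s) F := fun i a =>
    tpow (Function.update (1 : Fin k → Matrix (Fin s) (Fin s) F) i a)
  have hE : ∀ i a, E i a = tpow (Function.update 1 i a) := fun _ _ => rfl
  have hEinj : ∀ i, Function.Injective (E i) := by
    intro i a b hab
    ext u v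
    have := congrArg (fun M : Matrix (Fin k → Fin s) (Fin k → Fin s) F =>
      M (Function.update 0 i u) (Function.update 0 i v)) hab
    simp only [hE, tpow_apply] at this
    rw [← Finset.mul_prod_erase _ _ (Finset.mem_univ i), ← Finset.mul_prod_erase _ _ (Finset.mem_univ i),
      Function.update_self, Function.update_self, Function.update_self, Function.update_self,
      Finset.prod_eq_one (fun j hj => ?_), mul_one, Finset.prod_eq_one (fun j hj => ?_), mul_one] at this
    · exact this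
    · simp [Finset.ne_of_mem_erase hj]
    · simp [Finset.ne_of_mem_erase hj]
  have hEmul : ∀ i a b, E i (a * b) = E i a * E i b := by
    intro i a b
    rw [hE, hE, hE, ← tpow_mul]
    congr 1
    funext l
    rcases eq_or_ne l i with rfl | hl
    · simp
    · simp [Function.update_of_ne hl]
  have hEone : ∀ i, E i 1 = 1 := fun i => by
    rw [hE, show Function.update (1 : Fin k → Matrix (Fin s) (Fin s) F) i 1 = 1 from Function.update_eq_self i _,
      tpow_one]
  have hEadd : ∀ i a b, E i (a + b) = E i a + E i b := by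
    intro i a b
    ext x y
    simp only [hE, Matrix.add_apply, tpow_apply]
    rw [← Finset.mul_prod_erase _ _ (Finset.mem_univ i), ← Finset.mul_prod_erase _ _ (Finset.mem_univ i),
      ← Finset.mul_prod_erase _ _ (Finset.mem_univ i), Function.update_self, Function.update_self,
      Function.update_self, Matrix.add_apply, add_mul]
    congr 2 <;> exact Finset.prod_congr rfl fun j hj => by
      rw [Function.update_of_ne (Finset.ne_of_mem_erase hj), Function.update_of_ne (Finset.ne_of_mem_erase hj)]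
  have hEsmul : ∀ (i : Fin k) (r : F) (a : Matrix (Fin s) (Fin s) F), E i (r • a) = r • E i a := by
    intro i r a
    ext x y
    simp only [hE, Matrix.smul_apply, tpow_apply, smul_eq_mul]
    rw [← Finset.mul_prod_erase _ _ (Finset.mem_univ i), ← Finset.mul_prod_erase _ _ (Finset.mem_univ i),
      Function.update_self, Function.update_self, Matrix.smul_apply, smul_eq_mul, mul_assoc]
    congr 2
    exact Finset.prod_congr rfl fun j hj => by
      rw [Function.update_of_ne (Finset.ne_of_mem_erase hj), Function.update_of_ne (Finset.ne_of_mem_erase hj)]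
  let EH : Fin k → Matrix (Fin s) (Fin s) F →ₐ[F] Matrix (Fin k → Fin s) (Fin k → Fin s) F := fun i =>
    AlgHom.ofLinearMap { toFun := E i, map_add' := hEadd i, map_smul' := hEsmul i } (hEone i) (hEmul i)
  have hmem : ∀ i a, conjHom V⁻¹ (EH i a) ∈ (EH i).range := fun i a => by
    obtain ⟨b, hb⟩ := h i a
    refine ⟨b, ?_⟩
    rw [conjHom_apply, inv_inv]
    exact hb.symm
  let φ : Fin k → Matrix (Fin s) (Fin s) F →ₐ[F] Matrix (Fin s) (Fin s) F := fun i =>
    (AlgEquiv.ofInjective (EH i) (hEinj i)).symm.toAlgHom.comp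
      (((conjHom V⁻¹).comp (EH i)).codRestrict (EH i).range (hmem i))
  have hφ : ∀ i a, E i (φ i a) = conjHom V⁻¹ (E i a) := fun i a =>
    congrArg Subtype.val ((AlgEquiv.ofInjective (EH i) (hEinj i)).apply_symm_apply _)
  choose g hg using fun i => exists_inner (φ i) (fun a b hab => hEinj i (conj_inj V⁻¹ (by
    have := congrArg (E i) hab
    rwa [hφ, hφ] at this)))
  let W : GL (Fin k → Fin s) F := tpowUnit g
  have hW : ∀ i a, conjHom W (E i a) = conjHom V⁻¹ (E i a) := by
    intro i a
    rw [← hφ, hg, hE, hE, conjHom_apply]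
    show tpow _ * tpow _ * tpow _ = _
    rw [← tpow_mul, ← tpow_mul]
    congr 1
    funext l
    rcases eq_or_ne l i with rfl | hl
    · simp
    · simp only [Pi.mul_apply, Function.update_of_ne hl, Pi.one_apply, mul_one]
      rw [← Units.val_mul, mul_inv_cancel, Units.val_one]
  obtain ⟨c, hc⟩ := (absIrred_of_adjoin (adjoin_tpow_update (F := F) (k := k) (s := s))).2
      ((V * W : GL (Fin k → Fin s) F) : Matrix (Fin k → Fin s) (Fin k → Fin s) F) (by
    intro M hM
    obtain ⟨i, a, rfl⟩ := Set.mem_iUnion.1 hM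
    have h1 := congrArg (fun X => (V : Matrix (Fin k → Fin s) (Fin k → Fin s) F) * X *
      (W : Matrix (Fin k → Fin s) (Fin k → Fin s) F)) (hW i a)
    simp only [conjHom_apply, inv_inv, mul_assoc] at h1
    rw [← Units.val_mul W⁻¹ W, inv_mul_cancel, Units.val_one, mul_one] at h1
    simp only [← mul_assoc] at h1
    rw [← Units.val_mul V V⁻¹, mul_inv_cancel, Units.val_one, one_mul] at h1
    rw [Units.val_mul]
    simp only [← mul_assoc] at h1 ⊢
    exact h1)
  have hc0 : c ≠ 0 := by
    rintro rfl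
    rw [zero_smul] at hc
    exact Units.ne_zero (V * W) hc
  refine ⟨fun i => (g i)⁻¹, c, hc0, ?_⟩
  have h2 := congrArg (fun M => M * ((W⁻¹ : GL (Fin k → Fin s) F) : Matrix (Fin k → Fin s) (Fin k → Fin s) F)) hc
  rw [Units.val_mul, mul_assoc, ← Units.val_mul, mul_inv_cancel, Units.val_one, mul_one, smul_mul_assoc,
    one_mul] at h2
  exact h2

/-- H stabilises a tensor-power decomposition of the form with a perfect group acting on the factor. -/
def InFormTensorPower (D : FormData ι F) (H : Subgroup (GL ι F)) : Prop :=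
  ∃ (s k : ℕ) (e : ι ≃ (Fin k → Fin s)) (P : GL ι F) (G : GL (Fin s) F) (c a : F), 2 ≤ s ∧ 2 ≤ k ∧ c ≠ 0 ∧
    D.gramAt P = c • Matrix.reindexAlgEquiv F F e.symm (tpow fun _ => (G : Matrix (Fin s) (Fin s) F)) ∧
    ((G : Matrix (Fin s) (Fin s) F).map D.σ)ᵀ = a • (G : Matrix (Fin s) (Fin s) F) ∧
    D.σ c * a ^ k = D.ε * c ∧ H ≤ tensorWreathSubgroup s k e P ∧
    (s = 2 → D.σ = RingHom.id F) ∧
    ∃ Q : Subgroup (GL (Fin s) F), ⁅Q, Q⁆ = Q ∧ Q ≠ ⊥ ∧ FixesGram D.σ (G : Matrix (Fin s) (Fin s) F) Q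

/-- The residual outcome relative to a form. -/
def InFormResidual (D : FormData ι F) (H : Subgroup (GL ι F)) : Prop :=
  ∃ N : Subgroup (GL ι F), IsResidualCore H N ∧ N ≤ D.isom ∧
    ∀ (τ : F →+* F) (G : Matrix ι ι F), FixesGram τ G N → G ≠ 0 → τ = D.σ

/-- The perfect case relative to a form. -/
theorem formPerfect_case [Fintype F] (D : FormData ι F) (hn3 : 3 ≤ Fintype.card ι) {H N : Subgroup (GL ι F)}
    (hH : H ≤ D.isom) (hN : NormalIn H N) (henv : env N = ⊤)
    (hmin : ∀ M, NormalIn H M → M ≤ N → M ≤ scalars ι F ∨ M = N) (hperf : ⁅N, N⁆ = N) :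
    InFormResidual D H ∨ InFormSubfield D H ∨ InFormTensorPower D H := by
  classical
  have : Nonempty ι := Fintype.card_pos_iff.1 (by omega)
  have habs := absIrred_of_env henv
  have hNI : N ≤ D.isom := hN.1.trans hH
  by_cases hreal : ∃ F₀ : Subfield F, F₀ ≠ ⊤ ∧ RealisableOver F₀ (matrixSet N)
  · obtain ⟨F₀, hF₀, B, hB⟩ := hreal
    obtain ⟨F₁, r, hle, hr, hcard⟩ := exists_prime_index F₀ hF₀
    exact Or.inr (Or.inl (inFormSubfield_of D hN.2 habs hr hcard B (fun x hx i j => hle (hB _ ⟨x, hx, rfl⟩ i j))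
      fun x hx => ⟨1, F₁.one_mem, fun u v => by rw [one_mul]; exact hNI hx u v⟩))
  by_cases hs : ∀ Q : Subgroup (GL ι F), Q ≤ N → (∀ x ∈ N, ∀ y ∈ Q, x * y * x⁻¹ ∈ Q) → Q ≤ scalars ι F ∨ Q = N
  · refine Or.inl ⟨N, perfect_simple hn3 hN henv hperf hs (fun F₀ h1 h2 => hreal ⟨F₀, h1, h2⟩), hNI,
      fun τ G hG hG0 => ?_⟩
    by_contra hne
    exact hreal (realisable_of_two_forms D henv hNI τ hne hG hG0)
  right; right
  obtain ⟨s, k, e, P, Q, i₀, L, hs2, hk2, hQN, hsup, hQperf, hQns, hLinj, hLrange, hLΛ, hwr, htrans, -⟩ :=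
    perfect_factors hn3 hN henv hmin hperf hs
  have : NeZero s := ⟨by omega⟩
  let R := Matrix.reindexAlgEquiv F F e.symm
  have hfr : ∀ M, frameHom e P M = conjHom P (R M) := fun M => rfl
  have hRT : ∀ M, (R M)ᵀ = R Mᵀ := fun M => by ext x y; rfl
  have hRmap : ∀ M, (R M).map D.σ = R (M.map D.σ) := fun M => by ext x y; rfl
  let V : GL (Fin k → Fin s) F := Units.map R.symm.toAlgHom.toMonoidHom (D.isUnit_gramAt P).unit
  have hV : R (V : Matrix (Fin k → Fin s) (Fin k → Fin s) F) = D.gramAt P := R.apply_symm_apply _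
  obtain ⟨g, c, hc, hVg⟩ := exists_tpow_of_normalises V fun i a => by
    obtain ⟨b, hb⟩ : D.adj (L i aᵀ) ∈ (L i).range := by
      rw [hLrange]
      exact D.adj_mem_env ((hQN i).trans hNI) (hLrange i ▸ ⟨_, rfl⟩)
    have hb' : D.adj (conjHom P (R (tpow (Function.update 1 i aᵀ)))) = conjHom P (R (tpow (Function.update 1 i b))) := by
      rw [← hfr, ← hfr, ← hLΛ, ← hLΛ]; exact hb.symm
    have h1 := D.adj_conjHom P hb'
    rw [hRT, hRmap, tpow_map, tpow_transpose, ← hV, ← map_mul, ← map_mul] at h1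
    have h2 := R.injective h1
    refine ⟨b.map D.σ, ?_⟩
    have e1 : (fun l => (Function.update (1 : Fin k → Matrix (Fin s) (Fin s) F) i aᵀ l)ᵀ) = Function.update (1 : Fin k → Matrix (Fin s) (Fin s) F) i a := by
      funext l; rcases eq_or_ne l i with rfl | hl <;> simp [*]
    have e2 : (fun l => (Function.update (1 : Fin k → Matrix (Fin s) (Fin s) F) i b l).map D.σ) =
        Function.update (1 : Fin k → Matrix (Fin s) (Fin s) F) i (b.map D.σ) := by
      funext l; rcases eq_or_ne l i with rfl | hl <;> simp [*]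
    rw [e1, e2] at h2
    rw [mul_assoc, h2, ← mul_assoc, ← Units.val_mul, inv_mul_cancel, Units.val_one, one_mul]
  have hgr : D.gramAt P = c • R (tpow fun i => (g i : Matrix (Fin s) (Fin s) F)) := by rw [← hV, hVg, map_smul]
  have hg0 : ∀ i, (g i : Matrix (Fin s) (Fin s) F) ≠ 0 := fun i => Units.ne_zero _
  -- every factor is similar to the first
  have hsim : ∀ i, ∃ (γ : GL (Fin s) F) (y : F), y ≠ 0 ∧
      (γ : Matrix (Fin s) (Fin s) F)ᵀ * (g i : Matrix (Fin s) (Fin s) F) * (γ : Matrix (Fin s) (Fin s) F).map D.σ =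
        y • (g i₀ : Matrix (Fin s) (Fin s) F) := by
    intro i
    obtain ⟨h, hh, π, γ, c', hπ, he⟩ := htrans i
    have hW : (h : Matrix ι ι F) = (c' : F) • conjHom P (R (permMat π * tpow fun l => (γ l : Matrix (Fin s) (Fin s) F))) := by
      rw [he, Units.val_mul, coe_scl, mul_smul_comm, mul_one]
      rfl
    set M := permMat π * tpow fun l => (γ l : Matrix (Fin s) (Fin s) F) with hM
    have hiso : (h : Matrix ι ι F)ᵀ * (D.U : Matrix ι ι F) * (h : Matrix ι ι F).map D.σ = (D.U : Matrix ι ι F) :=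
      eq_of_gramForm_eq D.σ fun u v => by rw [← gramForm_mulVec]; exact hH hh u v
    have h1 : ((c' : F) * D.σ (c' : F)) • ((R M)ᵀ * D.gramAt P * (R M).map D.σ) = D.gramAt P := by
      have hsm : ((c' : F) • conjHom P (R M)).map D.σ = D.σ (c' : F) • (conjHom P (R M)).map D.σ := by
        ext x y; simp [Matrix.map_apply]
      rw [hW, Matrix.transpose_smul, hsm, smul_mul_assoc, mul_smul_comm, smul_mul_assoc, smul_smul,
        mul_comm (D.σ _)] at hiso
      have h2 := congrArg (fun Z => (P : Matrix ι ι F)ᵀ * Z * (P : Matrix ι ι F).map D.σ) hiso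
      simp only [mul_smul_comm, smul_mul_assoc] at h2
      rw [show (P : Matrix ι ι F)ᵀ * (D.U : Matrix ι ι F) * (P : Matrix ι ι F).map D.σ = D.gramAt P from rfl] at h2
      refine Eq.trans ?_ h2
      congr 1
      have e1 : (P : Matrix ι ι F)ᵀ * (conjHom P (R M))ᵀ = (R M)ᵀ * (P : Matrix ι ι F)ᵀ := by
        rw [← Matrix.transpose_mul, ← Matrix.transpose_mul, conjHom_apply, mul_assoc, ← Units.val_mul,
          inv_mul_cancel, Units.val_one, mul_one]
      have e2 : (conjHom P (R M)).map D.σ * (P : Matrix ι ι F).map D.σ =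
          (P : Matrix ι ι F).map D.σ * (R M).map D.σ := by
        rw [← Matrix.map_mul, ← Matrix.map_mul, conjHom_apply, mul_assoc, ← Units.val_mul, inv_mul_cancel,
          Units.val_one, mul_one]
      rw [FormData.gramAt]
      simp only [← mul_assoc]
      rw [← e1]
      simp only [mul_assoc]
      rw [← e2]
    have hcc : (c' : F) * D.σ (c' : F) ≠ 0 := mul_ne_zero c'.ne_zero ((map_ne_zero D.σ).2 c'.ne_zero)
    have hperm : (permMat π : Matrix (Fin k → Fin s) (Fin k → Fin s) F).map D.σ = permMat π := by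
      ext x y; simp [permMat]
    rw [hgr, mul_smul_comm, smul_mul_assoc, smul_smul, hRT, hRmap, ← map_mul, ← map_mul, ← map_smul,
      ← map_smul, hM, Matrix.transpose_mul, Matrix.map_mul, hperm, permMat_transpose, tpow_transpose,
      tpow_map] at h1
    have h2 := R.injective h1
    have h3 := permMat_conj (F := F) π.symm (fun l => (g l : Matrix (Fin s) (Fin s) F))
    rw [Equiv.symm_symm] at h3
    rw [show ∀ A B C E : Matrix (Fin k → Fin s) (Fin k → Fin s) F, ∀ Z : Matrix (Fin k → Fin s) (Fin k → Fin s) F,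
      A * B * Z * (C * E) = A * (B * Z * C) * E from fun A B C E Z => by simp only [mul_assoc], h3,
      ← tpow_mul, ← tpow_mul] at h2
    have h4 : tpow (((fun l => (γ l : Matrix (Fin s) (Fin s) F)ᵀ) * ((fun l => (g l : Matrix (Fin s) (Fin s) F)) ∘ π)) *
        fun l => (γ l : Matrix (Fin s) (Fin s) F).map D.σ) =
        ((c' : F) * D.σ (c' : F) * c)⁻¹ • c • tpow fun l => (g l : Matrix (Fin s) (Fin s) F) := by
      rw [← h2, smul_smul, inv_mul_cancel₀ (mul_ne_zero hcc hc), one_smul]
    rw [smul_smul] at h4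
    obtain ⟨y, hy, hy'⟩ := tpow_eq_smul hg0 (mul_ne_zero (inv_ne_zero (mul_ne_zero hcc hc)) hc) h4 i₀
    refine ⟨γ i₀, y, hy, ?_⟩
    simp only [Pi.mul_apply, Function.comp_apply, hπ] at hy'
    exact hy'
  choose γ y hy hγ using hsim
  let P' : GL ι F := P * Units.map R.toAlgHom.toMonoidHom (tpowUnit γ)
  have hP' : D.gramAt P' = (c * ∏ i, y i) • R (tpow fun _ => (g i₀ : Matrix (Fin s) (Fin s) F)) := by
    have e1 : D.gramAt P' = (R (tpow fun l => (γ l : Matrix (Fin s) (Fin s) F)))ᵀ * D.gramAt P *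
        (R (tpow fun l => (γ l : Matrix (Fin s) (Fin s) F))).map D.σ := by
      simp only [P', FormData.gramAt, Units.val_mul, Matrix.transpose_mul, Matrix.map_mul, mul_assoc]
      rfl
    rw [e1, hgr, mul_smul_comm, smul_mul_assoc, hRT, hRmap, ← map_mul, ← map_mul, tpow_map, tpow_transpose,
      ← tpow_mul, ← tpow_mul]
    have : ((fun l => (γ l : Matrix (Fin s) (Fin s) F)ᵀ) * (fun l => (g l : Matrix (Fin s) (Fin s) F))) *
        (fun l => (γ l : Matrix (Fin s) (Fin s) F).map D.σ) = fun l => y l • (g i₀ : Matrix (Fin s) (Fin s) F) :=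
      funext fun l => hγ l
    rw [this, tpow_smul, map_smul, smul_smul]
  have hwr' : H ≤ tensorWreathSubgroup s k e P' := by
    refine hwr.trans ?_
    rintro _ ⟨_, ⟨W, hW, rfl⟩, rfl⟩
    refine ⟨_, ⟨(tpowUnit γ)⁻¹ * W * tpowUnit γ, mul_mem (mul_mem (inv_mem (tpowUnit_mem γ)) hW) (tpowUnit_mem γ),
      rfl⟩, ?_⟩
    show P' * glReindex e.symm ((tpowUnit γ)⁻¹ * W * tpowUnit γ) * P'⁻¹ = P * glReindex e.symm W * P⁻¹
    have e1 : Units.map R.toAlgHom.toMonoidHom (tpowUnit γ) = glReindex e.symm (tpowUnit γ) := Units.ext rfl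
    simp only [P', e1, map_mul, map_inv, mul_inv_rev]
    simp [mul_assoc]
  have hc' : c * ∏ i, y i ≠ 0 := mul_ne_zero hc (Finset.prod_ne_zero_iff.2 fun i _ => hy i)
  obtain ⟨a, ha⟩ : ∃ a : F, ((g i₀ : Matrix (Fin s) (Fin s) F).map D.σ)ᵀ = a • (g i₀ : Matrix (Fin s) (Fin s) F) ∧
      D.σ (c * ∏ i, y i) * a ^ k = D.ε * (c * ∏ i, y i) := by
    have h1 := D.gramAt_herm P'
    rw [hP'] at h1
    set x := c * ∏ i, y i with hx
    have h2 : ((x • R (tpow fun _ => (g i₀ : Matrix (Fin s) (Fin s) F))).map D.σ)ᵀ =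
        D.σ x • R (tpow fun _ => ((g i₀ : Matrix (Fin s) (Fin s) F).map D.σ)ᵀ) := by
      ext p q
      simp [R, tpow_apply, Matrix.reindexAlgEquiv]
    rw [h2, smul_smul, ← map_smul, ← map_smul] at h1
    have h3 := R.injective h1
    have hσx : D.σ x ≠ 0 := (map_ne_zero D.σ).2 hc'
    have h4 : (tpow fun _ : Fin k => ((g i₀ : Matrix (Fin s) (Fin s) F).map D.σ)ᵀ) =
        ((D.σ x)⁻¹ * (D.ε * x)) • tpow fun _ : Fin k => (g i₀ : Matrix (Fin s) (Fin s) F) := by
      rw [mul_smul, ← h3, smul_smul, inv_mul_cancel₀ hσx, one_smul]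
    obtain ⟨a, -, ha⟩ := tpow_eq_smul (fun _ => hg0 i₀)
      (mul_ne_zero (inv_ne_zero hσx) (mul_ne_zero D.eps_ne hc')) h4 i₀
    refine ⟨a, ha, ?_⟩
    rw [ha, tpow_smul, Finset.prod_const, Finset.card_univ, Fintype.card_fin] at h3
    rw [smul_smul] at h3
    obtain ⟨u, hu⟩ := Function.ne_iff.1 (Units.ne_zero (tpowUnit (F := F) fun _ : Fin k => g i₀))
    obtain ⟨v, hv⟩ := Function.ne_iff.1 hu
    have h5 := congrFun (congrFun h3 u) v
    simp only [Matrix.smul_apply, smul_eq_mul] at h5
    exact mul_right_cancel₀ hv h5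
  -- the group acting on the first factor
  have hker : ∀ q : Q i₀, ∃ a : GL (Fin s) F, L i₀ (a : Matrix (Fin s) (Fin s) F) = ((q : GL ι F) : Matrix ι ι F) := by
    intro q
    obtain ⟨a, ha⟩ : ((q : GL ι F) : Matrix ι ι F) ∈ (L i₀).range := hLrange i₀ ▸ coe_mem_env q.2
    obtain ⟨b, hb⟩ : (((q⁻¹ : Q i₀) : GL ι F) : Matrix ι ι F) ∈ (L i₀).range := hLrange i₀ ▸ coe_mem_env (q⁻¹).2
    refine ⟨⟨a, b, hLinj i₀ ?_, hLinj i₀ ?_⟩, ha⟩
    · rw [map_mul, map_one]
      show L i₀ a * L i₀ b = 1
      rw [show L i₀ a = _ from ha, show L i₀ b = _ from hb, ← Units.val_mul, ← Subgroup.coe_mul, mul_inv_cancel]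
      rfl
    · rw [map_mul, map_one]
      show L i₀ b * L i₀ a = 1
      rw [show L i₀ a = _ from ha, show L i₀ b = _ from hb, ← Units.val_mul, ← Subgroup.coe_mul, inv_mul_cancel]
      rfl
  choose q₀ hq₀ using hker
  let φ : Q i₀ →* GL (Fin s) F :=
    { toFun := q₀
      map_one' := Units.ext (hLinj i₀ (by rw [hq₀, Units.val_one, map_one]; rfl))
      map_mul' := fun x y => Units.ext (hLinj i₀ (by
        rw [hq₀, Units.val_mul, map_mul, hq₀, hq₀, Subgroup.coe_mul, Units.val_mul])) }
  have hperf' : ⁅φ.range, φ.range⁆ = φ.range := by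
    have htop : ⁅(⊤ : Subgroup (Q i₀)), (⊤ : Subgroup (Q i₀))⁆ = ⊤ := by
      apply Subgroup.map_injective (Q i₀).subtype_injective
      rw [Subgroup.map_commutator, ← MonoidHom.range_eq_map, Subgroup.range_subtype, hQperf]
    rw [MonoidHom.range_eq_map, ← Subgroup.map_commutator, htop]
  have hfix : FixesGram D.σ (g i₀ : Matrix (Fin s) (Fin s) F) φ.range := by
    rintro _ ⟨q, rfl⟩
    have hiso := (isom_preserving_iff (τ := D.σ) (G := (D.U : Matrix ι ι F))).1 (hNI (hQN i₀ q.2))
    rw [← hq₀, hLΛ] at hiso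
    set M := tpow (Function.update (1 : Fin k → Matrix (Fin s) (Fin s) F) i₀ (q₀ q : Matrix (Fin s) (Fin s) F)) with hM
    have h2 := congrArg (fun Z => (P : Matrix ι ι F)ᵀ * Z * (P : Matrix ι ι F).map D.σ) hiso
    have e1 : (P : Matrix ι ι F)ᵀ * (conjHom P (R M))ᵀ = (R M)ᵀ * (P : Matrix ι ι F)ᵀ := by
      rw [← Matrix.transpose_mul, ← Matrix.transpose_mul, conjHom_apply, mul_assoc, ← Units.val_mul,
        inv_mul_cancel, Units.val_one, mul_one]
    have e2 : (conjHom P (R M)).map D.σ * (P : Matrix ι ι F).map D.σ =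
        (P : Matrix ι ι F).map D.σ * (R M).map D.σ := by
      rw [← Matrix.map_mul, ← Matrix.map_mul, conjHom_apply, mul_assoc, ← Units.val_mul, inv_mul_cancel,
        Units.val_one, mul_one]
    have h3 : (R M)ᵀ * D.gramAt P * (R M).map D.σ = D.gramAt P := by
      refine Eq.trans ?_ h2
      simp only [hfr, FormData.gramAt, ← mul_assoc]
      rw [← e1]
      simp only [mul_assoc]
      rw [← e2]
    rw [hgr, mul_smul_comm, smul_mul_assoc, hRT, hRmap, ← map_mul, ← map_mul, hM, tpow_map, tpow_transpose,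
      ← tpow_mul, ← tpow_mul] at h3
    have h4 := R.injective ((smul_right_inj hc).1 h3)
    show (q₀ q : Matrix (Fin s) (Fin s) F)ᵀ * _ * (q₀ q : Matrix (Fin s) (Fin s) F).map D.σ = _
    have h5 : ∀ l, ((fun l => (Function.update (1 : Fin k → Matrix (Fin s) (Fin s) F) i₀
        (q₀ q : Matrix (Fin s) (Fin s) F) l)ᵀ) * (fun l => (g l : Matrix (Fin s) (Fin s) F)) *
        fun l => (Function.update (1 : Fin k → Matrix (Fin s) (Fin s) F) i₀ (q₀ q : Matrix (Fin s) (Fin s) F) l).map D.σ) l =
        Function.update (fun l => (g l : Matrix (Fin s) (Fin s) F)) i₀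
          ((q₀ q : Matrix (Fin s) (Fin s) F)ᵀ * (g i₀ : Matrix (Fin s) (Fin s) F) * (q₀ q : Matrix (Fin s) (Fin s) F).map D.σ) l := by
      intro l
      rcases eq_or_ne l i₀ with rfl | hl <;> simp [*]
    rw [funext h5] at h4
    set X := (q₀ q : Matrix (Fin s) (Fin s) F)ᵀ * (g i₀ : Matrix (Fin s) (Fin s) F) * (q₀ q : Matrix (Fin s) (Fin s) F).map D.σ
    obtain ⟨y', -, hy'⟩ := tpow_eq_smul (a := Function.update (fun l => (g l : Matrix (Fin s) (Fin s) F)) i₀ X) hg0
      one_ne_zero (by rw [one_smul]; exact h4) i₀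
    rw [Function.update_self] at hy'
    rw [hy'] at h4 ⊢
    have h6 : (fun l => (Function.update (1 : Fin k → F) i₀ y' l) • (g l : Matrix (Fin s) (Fin s) F)) =
        Function.update (fun l => (g l : Matrix (Fin s) (Fin s) F)) i₀ (y' • (g i₀ : Matrix (Fin s) (Fin s) F)) := by
      funext l; rcases eq_or_ne l i₀ with rfl | hl <;> simp [*]
    rw [← h6, tpow_smul] at h4
    have h7 : (∏ l, Function.update (1 : Fin k → F) i₀ y' l) = y' := by
      simp [Finset.prod_update_of_mem (Finset.mem_univ i₀)]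
    rw [h7] at h4
    obtain ⟨u, hu⟩ := Function.ne_iff.1 (Units.ne_zero (tpowUnit g))
    obtain ⟨v, hv⟩ := Function.ne_iff.1 hu
    have h8 := congrFun (congrFun h4 u) v
    simp only [Matrix.smul_apply, smul_eq_mul] at h8
    rw [(mul_eq_right₀ hv).1 h8, one_smul]
  have hne : φ.range ≠ ⊥ := by
    intro h
    apply hQns i₀
    intro q hq
    have h1 : φ ⟨q, hq⟩ = 1 := (Subgroup.mem_bot).1 (h ▸ ⟨⟨q, hq⟩, rfl⟩)
    have h2 := hq₀ ⟨q, hq⟩
    rw [show q₀ ⟨q, hq⟩ = 1 from h1, Units.val_one, map_one] at h2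
    refine mem_scalars_of_smul (c := 1) ?_
    rw [one_smul]
    exact h2.symm
  refine ⟨s, k, e, P', g i₀, c * ∏ i, y i, a, hs2, hk2, hc', hP', ha.1, ha.2, hwr', fun hs_eq => ?_,
    φ.range, hperf', hne, hfix⟩
  -- two-dimensional factors carry a second bilinear form
  subst hs_eq
  by_contra hid
  let J : Matrix (Fin 2) (Fin 2) F := !![0, 1; -1, 0]
  have hJg : ∀ g : Matrix (Fin 2) (Fin 2) F, gᵀ * J * g = g.det • J := by
    intro g
    ext i j
    rw [Matrix.det_fin_two]
    fin_cases i <;> fin_cases j <;> simp [J, Matrix.mul_apply, Fin.sum_univ_two] <;> ring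
  let P₀ : Matrix ι ι F := ((P⁻¹ : GL ι F) : Matrix ι ι F)
  let G : Matrix ι ι F := P₀ᵀ * R (tpow fun _ : Fin k => J) * P₀
  have hJu : IsUnit J := by
    rw [Matrix.isUnit_iff_isUnit_det, Matrix.det_fin_two]
    simp [J]
  obtain ⟨Ju, hJu'⟩ := hJu
  have hG0 : G ≠ 0 := by
    have h1 : IsUnit (R (tpow fun _ : Fin k => J)) := by
      rw [← hJu']
      exact (Units.isUnit (tpowUnit fun _ : Fin k => Ju)).map R.toAlgHom.toMonoidHom
    exact ((((Matrix.isUnit_transpose _).2 (Units.isUnit P⁻¹)).mul h1).mul (Units.isUnit P⁻¹)).ne_zero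
  have hle : N ≤ preserving (Units.coeHom (Matrix ι ι F)) (gramForm (RingHom.id F) G) := by
    rw [← hsup]
    refine iSup_le fun i => ?_
    intro x hx
    obtain ⟨b, hb⟩ : (x : Matrix ι ι F) ∈ (L i).range := hLrange i ▸ coe_mem_env hx
    -- the determinant is trivial on a perfect group
    have hdet : b.det = 1 := by
      have hex : ∀ q : Q i, ∃ a : Matrix (Fin 2) (Fin 2) F, L i a = ((q : GL ι F) : Matrix ι ι F) := fun q => by
        obtain ⟨a, ha⟩ : ((q : GL ι F) : Matrix ι ι F) ∈ (L i).range := hLrange i ▸ coe_mem_env q.2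
        exact ⟨a, ha⟩
      choose q₁ hq₁ using hex
      have h1 : q₁ 1 = 1 := hLinj i (by rw [hq₁, map_one]; rfl)
      have h2 : ∀ u v, q₁ (u * v) = q₁ u * q₁ v := fun u v => hLinj i (by
        rw [hq₁, map_mul, hq₁, hq₁, Subgroup.coe_mul, Units.val_mul])
      let δ : Q i →* F :=
        { toFun := fun u => (q₁ u).det
          map_one' := by rw [h1, Matrix.det_one]
          map_mul' := fun u v => by rw [h2, Matrix.det_mul] }
      have htop : ⁅(⊤ : Subgroup (Q i)), (⊤ : Subgroup (Q i))⁆ = ⊤ := by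
        apply Subgroup.map_injective (Q i).subtype_injective
        rw [Subgroup.map_commutator, ← MonoidHom.range_eq_map, Subgroup.range_subtype, hQperf]
      have hker : ∀ u : Q i, δ.toHomUnits u = 1 := fun u => by
        have h3 : ⁅(⊤ : Subgroup (Q i)), (⊤ : Subgroup (Q i))⁆ ≤ δ.toHomUnits.ker := Subgroup.commutator_le.2 fun u _ v _ => by
          rw [MonoidHom.mem_ker, map_commutatorElement, commutatorElement_eq_one_iff_commute]
          exact mul_comm _ _
        rw [htop] at h3
        exact h3 (Subgroup.mem_top u)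
      have h4 := congrArg Units.val (hker ⟨x, hx⟩)
      rw [MonoidHom.coe_toHomUnits, Units.val_one] at h4
      have h5 : q₁ ⟨x, hx⟩ = b := hLinj i (by rw [hq₁]; exact hb.symm)
      rw [← h5]
      exact h4
    rw [isom_preserving_iff, RingHom.coe_id, Matrix.map_id, ← hb]
    show (L i b)ᵀ * G * L i b = G
    rw [hLΛ, hfr, conjHom_apply]
    set M := tpow (Function.update (1 : Fin k → Matrix (Fin 2) (Fin 2) F) i b) with hM
    have hPP : (P : Matrix ι ι F)ᵀ * P₀ᵀ = 1 := by
      rw [← Matrix.transpose_mul, ← Units.val_mul, inv_mul_cancel, Units.val_one, Matrix.transpose_one]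
    have hP0 : P₀ * (P : Matrix ι ι F) = 1 := by
      rw [← Units.val_mul, inv_mul_cancel, Units.val_one]
    rw [Matrix.transpose_mul, Matrix.transpose_mul]
    calc _ = P₀ᵀ * ((R M)ᵀ * ((P : Matrix ι ι F)ᵀ * P₀ᵀ) * R (tpow fun _ : Fin k => J) *
          (P₀ * (P : Matrix ι ι F)) * R M) * P₀ := by simp only [G, P₀, mul_assoc]
      _ = G := by
        rw [hPP, hP0, mul_one, mul_one, hRT, ← map_mul, ← map_mul, hM, tpow_transpose, ← tpow_mul, ← tpow_mul]
        congr 4
        funext l
        rcases eq_or_ne l i with rfl | hl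
        · simp [hJg, hdet]
        · simp [hl]
  exact hreal (realisable_of_two_forms D henv hNI (RingHom.id F) (Ne.symm hid)
    (fun x hx => isom_preserving_iff.1 (hle hx)) hG0)

end Cfsg.Agent.H99.Asch
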