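import Cfsg.Agent.H99.Aschbacher.FormTriple

/-!
A second form fixed by an absolutely irreducible isometry group forces realisability over a proper subfield; a
group written over a subfield carries a rational multiple of the form.
-/

set_option autoImplicit false

open scoped MatrixGroups Matrix

namespace Cfsg.Agent.H99.Asch

open Cfsg.Geo

variable {ι : Type} [Fintype ι] [DecidableEq ι] {F : Type*} [Field F]

/-- A second fixed sesquilinear form with another automorphism gives a realisation over a proper subfield. -/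
theorem realisable_of_two_forms [Fintype F] [Nonempty ι] (D : FormData ι F) {N : Subgroup (GL ι F)}
    (henv : env N = ⊤) (hN : N ≤ D.isom) (τ : F →+* F) (hne : τ ≠ D.σ) {G : Matrix ι ι F}
    (hG : FixesGram τ G N) (hG0 : G ≠ 0) : ∃ F₀ : Subfield F, F₀ ≠ ⊤ ∧ RealisableOver F₀ (matrixSet N) := by
  classical
  obtain ⟨W, rfl⟩ := isUnit_gram τ (absIrred_of_env henv).1 hG hG0
  have hfixU : FixesGram D.σ (D.U : Matrix ι ι F) N := fun s hs =>
    eq_of_gramForm_eq D.σ fun u v => by rw [← gramForm_mulVec]; exact hN hs u v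
  let X₀ : GL ι F := W⁻¹ * D.U
  let X : GL ι F := Units.map D.σ.mapMatrix.toMonoidHom X₀
  have hkey : ∀ s ∈ N, ((s : Matrix ι ι F).map τ).map D.σ = conjHom X (s : Matrix ι ι F) := by
    intro s hs
    have hu : IsUnit (s : Matrix ι ι F)ᵀ := (Matrix.isUnit_transpose _).2 (Units.isUnit s)
    obtain ⟨S, hS⟩ := hu
    let sσ : GL ι F := Units.map D.σ.mapMatrix.toMonoidHom s
    let sτ : GL ι F := Units.map τ.mapMatrix.toMonoidHom s
    have e1 : S * D.U * sσ = D.U := Units.ext (by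
      show (S : Matrix ι ι F) * (D.U : Matrix ι ι F) * (s : Matrix ι ι F).map D.σ = (D.U : Matrix ι ι F)
      rw [hS]; exact hfixU s hs)
    have e2 : S * W * sτ = W := Units.ext (by
      show (S : Matrix ι ι F) * (W : Matrix ι ι F) * (s : Matrix ι ι F).map τ = (W : Matrix ι ι F)
      rw [hS]; exact hG s hs)
    have e3 : sτ = X₀ * sσ * X₀⁻¹ := by
      have a1 : sσ = D.U⁻¹ * S⁻¹ * D.U := by
        rw [mul_assoc, eq_inv_mul_iff_mul_eq, eq_inv_mul_iff_mul_eq, ← mul_assoc, e1]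
      have a2 : sτ = W⁻¹ * S⁻¹ * W := by
        rw [mul_assoc, eq_inv_mul_iff_mul_eq, eq_inv_mul_iff_mul_eq, ← mul_assoc, e2]
      rw [a1, a2]
      simp [X₀, mul_assoc]
    have e4 := congrArg (Units.map D.σ.mapMatrix.toMonoidHom) e3
    rw [map_mul, map_mul, map_inv] at e4
    have e5 : Units.map D.σ.mapMatrix.toMonoidHom sσ = s := Units.ext (D.map_map _)
    rw [e5] at e4
    exact congrArg Units.val e4
  let ρ : F →+* F := D.σ.comp τ
  let F₀ : Subfield F := RingHom.eqLocusField ρ (RingHom.id F)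
  have hF₀ : F₀ ≠ ⊤ := by
    intro e
    apply hne
    ext a
    have : a ∈ F₀ := e ▸ Subfield.mem_top a
    have h1 : D.σ (τ a) = a := this
    have h2 := congrArg D.σ h1
    rwa [D.invol] at h2
  -- a basis inside N
  obtain ⟨T, hTmem, hTspan, hTind⟩ := Submodule.exists_fun_fin_finrank_span_eq F (matrixSet N)
  have hspan : ∀ M : Matrix ι ι F, ∃ c : Fin _ → F, M = ∑ x, c x • T x := by
    intro M
    have hM : M ∈ Submodule.span F (Set.range T) := by
      rw [hTspan, ← env_toSubmodule, henv]; exact (Algebra.mem_top : M ∈ (⊤ : Subalgebra F (Matrix ι ι F)))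
    obtain ⟨c, hc⟩ := (Submodule.mem_span_range_iff_exists_fun F).1 hM
    exact ⟨c, hc.symm⟩
  have hcoord : ∀ s ∈ matrixSet N, s ∈ Submodule.span F₀ (Set.range T) := by
    rintro _ ⟨s, hs, rfl⟩
    obtain ⟨c, hc⟩ := hspan (s : Matrix ι ι F)
    have h1 : ((s : Matrix ι ι F).map τ).map D.σ = ∑ x, ρ (c x) • ((T x).map τ).map D.σ := by
      rw [hc]
      ext i j
      simp [Matrix.sum_apply, ρ]
    have h2 : ∀ x, ((T x).map τ).map D.σ = conjHom X (T x) := fun x => by
      obtain ⟨t, ht, hte⟩ := hTmem x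
      rw [← hte]; exact hkey t ht
    simp only [h2, hkey s hs, ← map_smul, ← map_sum] at h1
    have h3 := conj_inj X h1
    rw [hc] at h3
    have h4 : ∀ x, c x ∈ F₀ := fun x => by
      have h5 : ∑ y, (c y - ρ (c y)) • T y = 0 := by
        simp only [sub_smul, Finset.sum_sub_distrib, sub_eq_zero]; exact h3
      exact (sub_eq_zero.1 ((Fintype.linearIndependent_iff.1 hTind) _ h5 x)).symm
    show (s : Matrix ι ι F) ∈ _
    rw [hc]
    exact Submodule.sum_mem _ fun x _ => Submodule.smul_mem _ (⟨c x, h4 x⟩ : F₀) (Submodule.subset_span ⟨x, rfl⟩)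
  obtain ⟨B, hB⟩ := exists_realisation_span F₀ T hspan hTind (fun x y => by
      obtain ⟨a, ha, hae⟩ := hTmem x
      obtain ⟨b, hb, hbe⟩ := hTmem y
      rw [← hae, ← hbe]
      exact hcoord _ ⟨a * b, N.mul_mem ha hb, Units.val_mul a b⟩)
    (hcoord _ ⟨1, N.one_mem, Units.val_one⟩)
  refine ⟨F₀, hF₀, B, fun s hs i j => ?_⟩
  obtain ⟨c, hc⟩ := (Submodule.mem_span_range_iff_exists_fun F₀).1 (hcoord s hs)
  rw [← hc, Finset.mul_sum, Finset.sum_mul, Matrix.sum_apply]
  refine Subfield.sum_mem _ fun x _ => ?_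
  show ((B : Matrix ι ι F) * ((c x : F) • T x) * ((B⁻¹ : GL ι F) : Matrix ι ι F)) i j ∈ F₀
  rw [mul_smul_comm, smul_mul_assoc, Matrix.smul_apply, smul_eq_mul]
  exact F₀.mul_mem (c x).2 (hB x i j)

/-- A field automorphism maps each subfield of a finite field to itself. -/
lemma subfield_map_mem [Fintype F] (σ : F →+* F) {F₁ : Subfield F} {x : F} (hx : x ∈ F₁) : σ x ∈ F₁ := by
  rw [mem_subfield_iff] at hx ⊢
  rw [← map_pow, hx]

/-- An absolutely irreducible group over a subfield preserving an invertible Gram matrix up to scalars in the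
subfield preserves a rational one. -/
theorem rational_gram [Fintype F] [Nonempty ι] (σ : F →+* F) (G : GL ι F) {R : Subgroup (GL ι F)}
    (hR : ActsAbsolutelyIrreducibly (matrixSet R)) (F₁ : Subfield F)
    (hent : ∀ s ∈ R, EntriesIn F₁ (s : Matrix ι ι F))
    (hsim : ∀ s ∈ R, ∃ c ∈ F₁, (s : Matrix ι ι F)ᵀ * (G : Matrix ι ι F) * (s : Matrix ι ι F).map σ = c • (G : Matrix ι ι F)) :
    ∃ ζ : F, ζ ≠ 0 ∧ EntriesIn F₁ (ζ • (G : Matrix ι ι F)) := by
  classical
  obtain ⟨π, hπ⟩ := exists_proj F₁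
  obtain ⟨i₀, hi₀⟩ := Function.ne_iff.1 (Units.ne_zero G)
  obtain ⟨j₀, hj₀⟩ := Function.ne_iff.1 hi₀
  simp only [Matrix.zero_apply] at hj₀
  let c := ((G : Matrix ι ι F) i₀ j₀)⁻¹
  let M : Matrix ι ι F := Matrix.of fun p q => (π (c * (G : Matrix ι ι F) p q) : F)
  have hM0 : M ≠ 0 := by
    intro e
    have := congrFun (congrFun e i₀) j₀
    have h1 : (π (1 : F) : F) = 1 := congrArg Subtype.val (hπ 1)
    simp [M, c, hj₀, h1] at this
  have hM : ∀ p q, M p q ∈ F₁ := fun p q => (π _).2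
  let X : Matrix ι ι F := ((G⁻¹ : GL ι F) : Matrix ι ι F) * M
  have hX : ∀ s ∈ R, X * (s : Matrix ι ι F).map σ = (s : Matrix ι ι F).map σ * X := by
    intro s hs
    obtain ⟨k, hk, hks⟩ := hsim s hs
    have hMs : (s : Matrix ι ι F)ᵀ * M * (s : Matrix ι ι F).map σ = k • M := by
      ext i j
      have h2 : (π (c * ((k • (G : Matrix ι ι F)) i j)) : F) = (k • M) i j := by
        rw [Matrix.smul_apply, smul_eq_mul, mul_comm k, ← mul_assoc, proj_mul hk, Matrix.smul_apply, smul_eq_mul,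
          mul_comm]
        rfl
      rw [← h2, ← hks]
      simp only [Matrix.mul_apply, Matrix.transpose_apply, Matrix.map_apply, Finset.mul_sum, Finset.sum_mul,
        map_sum, AddSubmonoidClass.coe_finsetSum, M, Matrix.of_apply]
      refine Finset.sum_congr rfl fun q _ => Finset.sum_congr rfl fun p _ => ?_
      have hsq : (s : Matrix ι ι F) p i * σ ((s : Matrix ι ι F) q j) ∈ F₁ :=
        F₁.mul_mem (hent s hs p i) (subfield_map_mem σ (hent s hs q j))
      rw [show c * ((s : Matrix ι ι F) p i * (G : Matrix ι ι F) p q * σ ((s : Matrix ι ι F) q j)) =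
        c * (G : Matrix ι ι F) p q * ((s : Matrix ι ι F) p i * σ ((s : Matrix ι ι F) q j)) by ring, proj_mul hsq]
      ring
    obtain ⟨S, hS⟩ := (Matrix.isUnit_transpose (s : Matrix ι ι F)).2 (Units.isUnit s)
    let sσ : GL ι F := Units.map σ.mapMatrix.toMonoidHom s
    have hk0 : k ≠ 0 := by
      rintro rfl
      rw [zero_smul] at hks
      exact Units.ne_zero (S * G * sσ) (show (S : Matrix ι ι F) * (G : Matrix ι ι F) * (s : Matrix ι ι F).map σ = 0
        by rw [hS]; exact hks)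
    have h1 : ((G⁻¹ : GL ι F) : Matrix ι ι F) * (S : Matrix ι ι F) * (G : Matrix ι ι F) * (sσ : Matrix ι ι F) =
        k • (1 : Matrix ι ι F) := by
      rw [mul_assoc, mul_assoc, ← mul_assoc (S : Matrix ι ι F), hS,
        show (sσ : Matrix ι ι F) = (s : Matrix ι ι F).map σ from rfl, hks, mul_smul_comm, ← Units.val_mul,
        inv_mul_cancel, Units.val_one]
    show X * (sσ : Matrix ι ι F) = (sσ : Matrix ι ι F) * X
    have h2 : k • X = ((G⁻¹ : GL ι F) : Matrix ι ι F) * (S : Matrix ι ι F) * (G : Matrix ι ι F) * X *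
        (sσ : Matrix ι ι F) := by
      show k • (_ * M) = _
      rw [← mul_smul_comm, ← hMs, ← hS]
      simp only [X, mul_assoc]
      rw [← mul_assoc (G : Matrix ι ι F) ((G⁻¹ : GL ι F) : Matrix ι ι F), ← Units.val_mul G G⁻¹, mul_inv_cancel,
        Units.val_one, one_mul]
      rfl
    have h3 : k • ((sσ : Matrix ι ι F) * X) =
        ((sσ : Matrix ι ι F) * ((G⁻¹ : GL ι F) : Matrix ι ι F) * (S : Matrix ι ι F) * (G : Matrix ι ι F)) * X *
          (sσ : Matrix ι ι F) := by
      rw [← mul_smul_comm, h2]; simp only [mul_assoc]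
    have h4 : (sσ : Matrix ι ι F) * ((G⁻¹ : GL ι F) : Matrix ι ι F) * (S : Matrix ι ι F) * (G : Matrix ι ι F) =
        k • (1 : Matrix ι ι F) := by
      have h5 := congrArg (fun Z => (sσ : Matrix ι ι F) * Z * ((sσ⁻¹ : GL ι F) : Matrix ι ι F)) h1
      simp only [mul_assoc] at h5
      rw [← Units.val_mul sσ sσ⁻¹, mul_inv_cancel, Units.val_one, mul_one] at h5
      rw [mul_assoc, mul_assoc, h5, smul_mul_assoc, one_mul, mul_smul_comm, ← Units.val_mul, mul_inv_cancel,
        Units.val_one]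
    rw [h4, smul_mul_assoc, smul_mul_assoc, one_mul] at h3
    exact (smul_right_inj hk0).1 h3.symm
  have hσ : Function.Bijective σ := Finite.injective_iff_bijective.1 σ.injective
  let Y : Matrix ι ι F := Matrix.of fun i j => (hσ.2 (X i j)).choose
  have hY : Y.map σ = X := by ext i j; exact (hσ.2 (X i j)).choose_spec
  obtain ⟨l, hl⟩ := hR.2 Y (by
    rintro _ ⟨s, hs, rfl⟩
    apply Matrix.map_injective σ.injective
    show (Y * (s : Matrix ι ι F)).map σ = ((s : Matrix ι ι F) * Y).map σ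
    rw [Matrix.map_mul, Matrix.map_mul, hY]
    exact hX s hs)
  have hXl : X = σ l • (1 : Matrix ι ι F) := by
    rw [← hY, hl]
    ext i j
    simp only [Matrix.map_apply, Matrix.smul_apply, smul_eq_mul, map_mul, Matrix.one_apply]
    split_ifs <;> simp
  have hMl : M = σ l • (G : Matrix ι ι F) := by
    have h4 := congrArg (fun Z => (G : Matrix ι ι F) * Z) hXl
    simp only [X, ← mul_assoc] at h4
    rwa [← Units.val_mul, mul_inv_cancel, Units.val_one, one_mul, mul_smul_comm, mul_one] at h4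
  exact ⟨σ l, fun e => hM0 (by rw [hMl, e, zero_smul]), fun p q => hMl ▸ hM p q⟩

/-- H lies in a subfield group whose rational structure carries a multiple of the form. -/
def InFormSubfield [Fintype F] (D : FormData ι F) (H : Subgroup (GL ι F)) : Prop :=
  ∃ (F₁ : Subfield F) (r : ℕ) (P : GL ι F) (ζ : F), r.Prime ∧ Fintype.card F = Nat.card F₁ ^ r ∧ ζ ≠ 0 ∧
    EntriesIn F₁ (ζ • D.gramAt P) ∧ H ≤ subfieldSubgroup F₁ P

/-- A normalised absolutely irreducible group of similitudes realised over a subfield. -/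
theorem inFormSubfield_of [Fintype F] [Nonempty ι] (D : FormData ι F) {H R : Subgroup (GL ι F)}
    (hn : ∀ h ∈ H, ∀ x ∈ R, h * x * h⁻¹ ∈ R) (hR : ActsAbsolutelyIrreducibly (matrixSet R))
    {F₁ : Subfield F} {r : ℕ} (hr : r.Prime) (hc : Fintype.card F = Nat.card F₁ ^ r) (B : GL ι F)
    (hB : ∀ x ∈ R, EntriesIn F₁ ((B : Matrix ι ι F) * (x : Matrix ι ι F) * ((B⁻¹ : GL ι F) : Matrix ι ι F)))
    (hsim : ∀ x ∈ R, ∃ c ∈ F₁, ∀ u v, D.form ((x : Matrix ι ι F) *ᵥ u) ((x : Matrix ι ι F) *ᵥ v) = c * D.form u v) :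
    InFormSubfield D H := by
  let R' : Subgroup (GL ι F) := R.map (MulAut.conj B).toMonoidHom
  have hR' : ActsAbsolutelyIrreducibly (matrixSet R') := by
    refine absIrred_of_env (eq_top_iff.2 fun M _ => ?_)
    have h1 : conjHom B⁻¹ M ∈ env R := by rw [env_eq_top hR]; exact Algebra.mem_top
    have h2 : (env R).map (conjHom B) ≤ env R' := by
      rw [env, AlgHom.map_adjoin]
      refine Algebra.adjoin_mono ?_
      rintro _ ⟨_, ⟨g, hg, rfl⟩, rfl⟩
      exact ⟨_, ⟨g, hg, rfl⟩, (conjHom_coe B g).symm⟩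
    have h3 : conjHom B (conjHom B⁻¹ M) = M := by
      rw [conjHom_apply, conjHom_apply, inv_inv]
      simp only [← mul_assoc]
      rw [← Units.val_mul, mul_inv_cancel, Units.val_one, one_mul, mul_assoc, ← Units.val_mul, mul_inv_cancel,
        Units.val_one, mul_one]
    rw [← h3]
    exact h2 ⟨_, h1, rfl⟩
  obtain ⟨W, hW⟩ := D.isUnit_gramAt B⁻¹
  obtain ⟨ζ, hζ, hζW⟩ := rational_gram D.σ W hR' F₁ (by
      rintro _ ⟨x, hx, rfl⟩
      show EntriesIn F₁ ((B * x * B⁻¹ : GL ι F) : Matrix ι ι F)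
      rw [Units.val_mul, Units.val_mul]
      exact hB x hx) (by
      rintro _ ⟨x, hx, rfl⟩
      obtain ⟨c, hc, hx'⟩ := hsim x hx
      refine ⟨c, hc, eq_of_gramForm_eq D.σ fun u v => ?_⟩
      rw [← gramForm_mulVec, gramForm_smul_gram, hW, ← D.form_gramAt, ← D.form_gramAt, ← hx']
      have e : ∀ w, ((B⁻¹ : GL ι F) : Matrix ι ι F) *ᵥ (((B * x * B⁻¹ : GL ι F) : Matrix ι ι F) *ᵥ w) =
          (x : Matrix ι ι F) *ᵥ (((B⁻¹ : GL ι F) : Matrix ι ι F) *ᵥ w) := fun w => by
        rw [Matrix.mulVec_mulVec, Matrix.mulVec_mulVec, ← Units.val_mul, ← Units.val_mul]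
        congr 2
        simp [mul_assoc]
      exact congrArg₂ D.form (e u) (e v))
  exact ⟨F₁, r, B⁻¹, ζ, hr, hc, hζ, hW ▸ hζW, le_subfieldSubgroup hn hR F₁ B hB⟩

end Cfsg.Agent.H99.Asch
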