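import Cfsg.Agent.H99.Aschbacher.FormMain

/-!
Tools for turning the alternatives of the form-relative theorem into members of the classes: changes of basis
inside a frame, rational structures, tensor structures of forms, the two halves, and rescaling of Gram matrices.
-/

set_option autoImplicit false

open scoped MatrixGroups Matrix Kronecker

namespace Cfsg.Agent.H99.Asch

open Cfsg.Geo

variable {ι : Type} [Fintype ι] [DecidableEq ι] {F : Type*} [Field F]

section Units

variable {κ μ : Type} [Fintype κ] [DecidableEq κ] [Fintype μ] [DecidableEq μ]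

/-- The Kronecker product of two invertible matrices in a frame. -/
def tensUnit (e : ι ≃ κ × μ) (a : GL κ F) (b : GL μ F) : GL ι F where
  val := tens e (a : Matrix κ κ F) (b : Matrix μ μ F)
  inv := tens e ((a⁻¹ : GL κ F) : Matrix κ κ F) ((b⁻¹ : GL μ F) : Matrix μ μ F)
  val_inv := by
    rw [tens_mul, ← Units.val_mul, ← Units.val_mul, mul_inv_cancel, mul_inv_cancel, Units.val_one, Units.val_one,
      tens_one]
  inv_val := by
    rw [tens_mul, ← Units.val_mul, ← Units.val_mul, inv_mul_cancel, inv_mul_cancel, Units.val_one, Units.val_one,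
      tens_one]

end Units

lemma FormData.gramAt_mul (D : FormData ι F) (P S : GL ι F) :
    D.gramAt (P * S) = (S : Matrix ι ι F)ᵀ * D.gramAt P * (S : Matrix ι ι F).map D.σ := by
  simp only [FormData.gramAt, Units.val_mul, Matrix.transpose_mul, Matrix.map_mul, mul_assoc]

/-- A change of basis inside the frame does not change the tensor product subgroup. -/
lemma tensorProductSubgroup_base {s t : ℕ} (e : ι ≃ Fin s × Fin t) (P : GL ι F) (a : GL (Fin s) F)
    (b : GL (Fin t) F) :
    tensorProductSubgroup s t e P ≤ tensorProductSubgroup s t e (P * tensUnit e a b) := by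
  intro x hx
  obtain ⟨c, d, hx⟩ := mem_tensorProductSubgroup_iff.1 hx
  refine mem_tensorProductSubgroup_iff.2 ⟨a⁻¹ * c * a, b⁻¹ * d * b, ?_⟩
  have hinv : (((P * tensUnit e a b)⁻¹ : GL ι F) : Matrix ι ι F) =
      tens e ((a⁻¹ : GL (Fin s) F) : Matrix (Fin s) (Fin s) F) ((b⁻¹ : GL (Fin t) F) : Matrix (Fin t) (Fin t) F) *
        ((P⁻¹ : GL ι F) : Matrix ι ι F) := by
    rw [mul_inv_rev, Units.val_mul]; rfl
  rw [hx, hinv, Units.val_mul]
  have h3 : tens e (c : Matrix (Fin s) (Fin s) F) (d : Matrix (Fin t) (Fin t) F) =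
      tens e (a : Matrix (Fin s) (Fin s) F) (b : Matrix (Fin t) (Fin t) F) *
        tens e ((a⁻¹ * c * a : GL (Fin s) F) : Matrix (Fin s) (Fin s) F)
          ((b⁻¹ * d * b : GL (Fin t) F) : Matrix (Fin t) (Fin t) F) *
        tens e ((a⁻¹ : GL (Fin s) F) : Matrix (Fin s) (Fin s) F) ((b⁻¹ : GL (Fin t) F) : Matrix (Fin t) (Fin t) F) := by
    rw [tens_mul, tens_mul, ← Units.val_mul, ← Units.val_mul, ← Units.val_mul, ← Units.val_mul]
    congr 2 <;> group
  rw [h3]
  simp only [tensUnit, mul_assoc]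

/-- An invertible matrix which is a multiple of one over F₀ in the frame P lies in the subfield group. -/
lemma mem_subfieldSubgroup_of_entries (F₀ : Subfield F) (P h : GL ι F) {c : F} {M : Matrix ι ι F} (hc : c ≠ 0)
    (hM : EntriesIn F₀ M) (e : ((P⁻¹ * h * P : GL ι F) : Matrix ι ι F) = c • M) :
    h ∈ subfieldSubgroup F₀ P := by
  have hu : M.det ≠ 0 := by
    intro h0
    have := Matrix.GeneralLinearGroup.det_ne_zero (P⁻¹ * h * P : GL ι F)
    rw [e, Matrix.det_smul, h0, mul_zero] at this
    exact this rfl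
  let M₀ : Matrix ι ι F₀ := fun i j => ⟨M i j, hM i j⟩
  have hmap : M₀.map F₀.subtype = M := rfl
  have h0 : IsUnit M₀ := by
    rw [Matrix.isUnit_iff_isUnit_det, isUnit_iff_ne_zero]
    intro h0
    apply hu
    rw [← hmap, ← RingHom.mapMatrix_apply, ← RingHom.map_det, h0, map_zero]
  exact mem_subfieldSubgroup_of F₀ P h h0.unit (Units.mk0 c hc) (by rw [e, IsUnit.unit_spec, hmap]; rfl)

/-- A central factor in the change of basis does not change the subfield group. -/
lemma subfieldSubgroup_scalar (F₀ : Subfield F) (P : GL ι F) {z : GL ι F} (hz : z ∈ scalars ι F) :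
    subfieldSubgroup F₀ (P * z) = subfieldSubgroup F₀ P := by
  have : (MulAut.conj (P * z)).toMonoidHom = (MulAut.conj P).toMonoidHom := by
    refine MonoidHom.ext fun x => ?_
    show P * z * x * (P * z)⁻¹ = P * x * P⁻¹
    rw [mul_assoc P z x, scalars_commute hz x, mul_inv_rev]
    simp [mul_assoc]
  rw [subfieldSubgroup, subfieldSubgroup, this]

/-- A Gram matrix with entries in F₁ gives a rational structure. -/
lemma isFormRationalStructure_of (D : FormData ι F) [Fintype F] {F₁ : Subfield F} {P : GL ι F} {ζ : F}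
    (h : EntriesIn F₁ (ζ • D.gramAt P)) : IsFormRationalStructure D.form F₁ ζ P := by
  intro u v hu hv
  rw [FormData.form_gramAt, ← gramForm_smul_gram]
  refine sum_mem fun i _ => F₁.mul_mem (hu i) (sum_mem fun j _ => F₁.mul_mem (h i j) ?_)
  exact subfield_map_mem D.σ (hv j)

lemma gramMatrix_gramForm {κ : Type} [Fintype κ] [DecidableEq κ] (σ : F →+* F) (G : Matrix κ κ F) :
    gramMatrix (gramForm σ G) = G := by
  ext i j
  have e : σ ∘ (Pi.single j (1 : F)) = Pi.single j 1 := by
    funext k; by_cases hk : k = j <;> simp [hk]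
  simp [gramMatrix, gramForm, e]

lemma gramForm_reindex {κ : Type} [Fintype κ] [DecidableEq κ] (σ : F →+* F) (e : ι ≃ κ) (M : Matrix κ κ F)
    (x y : κ → F) :
    gramForm σ (Matrix.reindexAlgEquiv F F e.symm M) (x ∘ e) (y ∘ e) = gramForm σ M x y := by
  simp only [gramForm, dotProduct, Matrix.mulVec, Function.comp_apply]
  rw [← e.sum_comp]
  refine Finset.sum_congr rfl fun i _ => ?_
  rw [← e.sum_comp]
  simp [Matrix.reindexAlgEquiv]

lemma formOfGram_eq {κ : Type} [Fintype κ] (σ : F →+* F) (G : Matrix κ κ F) (x y : κ → F) :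
    formOfGram σ G x y = gramForm σ G x y := by
  simp only [formOfGram, gramForm, dotProduct, Matrix.mulVec, Function.comp_apply, Finset.mul_sum, mul_assoc]

/-- A Kronecker product Gram matrix gives a tensor structure of the form. -/
lemma isTensorFormStructure_of (D : FormData ι F) {σ' : F → F} (hσ' : ∀ a, σ' a = D.σ a) {s t : ℕ}
    (e : ι ≃ Fin s × Fin t) (P : GL ι F) {G₁ : Matrix (Fin s) (Fin s) F} {G₂ : Matrix (Fin t) (Fin t) F}
    {c : F} (hc : c ≠ 0) (h : D.gramAt P = c • tens e G₁ G₂) :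
    IsTensorFormStructure σ' D.form (gramForm D.σ G₁) (gramForm D.σ G₂) e P := by
  refine ⟨c, hc, fun x y => ?_⟩
  rw [FormData.form_gramAt, h, gramForm_smul_gram, tens, gramForm_reindex, show σ' = (D.σ : F → F) from funext hσ',
    formOfGram_eq, gramMatrix_gramForm, gramMatrix_gramForm]

/-- A tensor power Gram matrix gives a tensor power structure of the form. -/
lemma isTensorPowerFormStructure_of (D : FormData ι F) {σ' : F → F} (hσ' : ∀ a, σ' a = D.σ a) {s k : ℕ}
    (e : ι ≃ (Fin k → Fin s)) (P : GL ι F) {G : Matrix (Fin s) (Fin s) F}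
    {c : F} (hc : c ≠ 0) (h : D.gramAt P = c • Matrix.reindexAlgEquiv F F e.symm (tpow fun _ => G)) :
    IsTensorPowerFormStructure σ' D.form (gramForm D.σ G) e P := by
  refine ⟨c, hc, fun x y => ?_⟩
  rw [FormData.form_gramAt, h, gramForm_smul_gram, gramForm_reindex, ← formOfGram_eq]
  simp only [formOfGram, tpow_apply, hσ', gramMatrix_gramForm]

/-- The two halves give a decomposition into totally singular subspaces. -/
theorem halves_decomposition [Nonempty ι] (D : FormData ι F) {H : Subgroup (GL ι F)}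
    (hirr : ActsIrreducibly (matrixSet H)) (h : InFormHalves D H) :
    ∃ (k : ℕ) (V : Fin 2 → Submodule F (ι → F)), 2 * k = Fintype.card ι ∧ IsMDecomposition k V ∧
      (∀ i, IsTotallySingularFor D.form (V i)) ∧ H ≤ decompositionStabilizer V := by
  obtain ⟨p, hpp, hadj, hH⟩ := h
  let V0 := LinearMap.range (Matrix.toLin' p)
  let V1 := LinearMap.range (Matrix.toLin' (1 - p))
  have hqq : (1 - p) * (1 - p) = 1 - p := by rw [sub_mul, one_mul, mul_sub, mul_one, hpp, sub_self, sub_zero]
  have hqadj : D.adj (1 - p) = 1 - (1 - p) := by rw [D.adj_sub, D.adj_one, hadj]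
  have hts : ∀ a : Matrix ι ι F, a * a = a → D.adj a = 1 - a →
      IsTotallySingularFor D.form (LinearMap.range (Matrix.toLin' a)) := by
    rintro a haa hada _ ⟨u, rfl⟩ _ ⟨v, rfl⟩
    rw [Matrix.toLin'_apply, Matrix.toLin'_apply, D.form_adj, hada, Matrix.mulVec_mulVec, sub_mul, one_mul, haa,
      sub_self, Matrix.zero_mulVec, D.form_zero_right]
  have hd : IsCompl V0 V1 := by
    refine IsCompl.of_eq ?_ ?_
    · refine eq_bot_iff.2 ?_
      rintro v ⟨⟨x, rfl⟩, ⟨y, hy⟩⟩
      rw [Submodule.mem_bot, Matrix.toLin'_apply]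
      rw [Matrix.toLin'_apply, Matrix.toLin'_apply] at hy
      have h1 := congrArg (fun w => p *ᵥ w) hy
      simp only [Matrix.mulVec_mulVec, mul_sub, mul_one, hpp, sub_self, Matrix.zero_mulVec] at h1
      exact h1.symm
    · refine eq_top_iff.2 fun v _ => Submodule.mem_sup.2 ⟨p *ᵥ v, ⟨v, rfl⟩, (1 - p) *ᵥ v, ⟨v, rfl⟩, ?_⟩
      rw [← Matrix.add_mulVec, add_sub_cancel, Matrix.one_mulVec]
  have hmap : ∀ (g : GL ι F) (a b : Matrix ι ι F), conjHom g a = b →
      (LinearMap.range (Matrix.toLin' a)).map (Matrix.toLin' (g : Matrix ι ι F)) =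
        LinearMap.range (Matrix.toLin' b) := by
    intro g a b hab
    have h1 : (g : Matrix ι ι F) * a = b * (g : Matrix ι ι F) := by
      rw [← hab, conjHom_apply, mul_assoc, ← Units.val_mul, inv_mul_cancel, Units.val_one, mul_one]
    rw [← LinearMap.range_comp, ← Matrix.toLin'_mul, h1, Matrix.toLin'_mul, LinearMap.range_comp_of_range_eq_top]
    exact LinearMap.range_eq_top.2 fun v => ⟨((g⁻¹ : GL ι F) : Matrix ι ι F) *ᵥ v, by
      rw [Matrix.toLin'_apply, Matrix.mulVec_mulVec, ← Units.val_mul, mul_inv_cancel, Units.val_one,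
        Matrix.one_mulVec]⟩
  have hswap : ∃ g ∈ H, conjHom g p = 1 - p := by
    by_contra hne
    push Not at hne
    have hinv : IsInv (matrixSet H) V0 := by
      rintro _ ⟨g, hg, rfl⟩ v hv
      show _ ∈ V0
      rw [show V0 = V0.map (Matrix.toLin' (g : Matrix ι ι F)) from
        (hmap g p p ((hH g hg).resolve_right (hne g hg))).symm]
      exact ⟨v, hv, rfl⟩
    rcases actsIrreducibly_iff.1 hirr _ hinv with h0 | h0
    · have hp0 : p = 0 := Matrix.toLin'.injective (by rw [LinearMap.range_eq_bot.1 h0, map_zero])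
      rw [hp0, D.adj_zero, sub_zero] at hadj
      exact one_ne_zero hadj.symm
    · have hp1 : p = 1 := by
        refine Matrix.toLin'.injective (LinearMap.ext fun v => ?_)
        obtain ⟨x, rfl⟩ := LinearMap.range_eq_top.1 h0 v
        rw [Matrix.toLin'_apply, Matrix.toLin'_apply, Matrix.toLin'_apply, Matrix.mulVec_mulVec, hpp,
          Matrix.one_mulVec]
      rw [hp1, D.adj_one, sub_self] at hadj
      exact one_ne_zero hadj
  obtain ⟨g, hg, hgp⟩ := hswap
  have hfin : Module.finrank F V1 = Module.finrank F V0 := by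
    have h1 := (V0.equivMapOfInjective (Matrix.toLin' (g : Matrix ι ι F))
      (Matrix.mulVec_injective_of_isUnit (Units.isUnit g))).finrank_eq
    rw [show V0.map (Matrix.toLin' (g : Matrix ι ι F)) = V1 from hmap g p _ hgp] at h1
    exact h1.symm
  have hsum := Submodule.finrank_add_eq_of_isCompl hd
  rw [Module.finrank_fintype_fun_eq_card, hfin] at hsum
  refine ⟨Module.finrank F V0, ![V0, V1], by omega, ⟨le_rfl, ?_, ?_, ?_, ?_⟩, ?_, ?_⟩
  · have : 0 < Fintype.card ι := Fintype.card_pos
    omega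
  · intro i
    fin_cases i
    · rfl
    · exact hfin
  · rw [iSupIndep_pair (by decide : (0 : Fin 2) ≠ 1) (fun i => by fin_cases i <;> simp)]
    exact hd.disjoint
  · exact eq_top_iff.2 (hd.sup_eq_top ▸ sup_le (le_iSup ![V0, V1] 0) (le_iSup ![V0, V1] 1))
  · intro i
    fin_cases i
    · exact hts p hpp hadj
    · exact hts _ hqq hqadj
  · intro x hx
    rcases hH x hx with h1 | h1
    · refine ⟨1, fun i => ?_⟩
      fin_cases i
      · exact hmap x p p h1
      · exact hmap x _ _ (by rw [map_sub, map_one, h1])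
    · refine ⟨Equiv.swap 0 1, fun i => ?_⟩
      fin_cases i
      · exact hmap x p _ h1
      · exact hmap x _ _ (by rw [map_sub, map_one, h1]; exact sub_sub_cancel 1 p)

/-- A scalar of norm one is a quotient b / σ b. -/
lemma exists_hilbert (σ : F →+* F) (hσ : ∀ a, σ (σ a) = a) (hne : σ ≠ RingHom.id F) {a : F}
    (ha : σ a * a = 1) : ∃ b : F, b ≠ 0 ∧ σ b * a = b := by
  obtain ⟨x, hx⟩ : ∃ x, x + a * σ x ≠ 0 := by
    by_contra h
    push Not at h
    apply hne
    have h1 := h 1
    rw [map_one, mul_one] at h1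
    refine RingHom.ext fun x => ?_
    have h2 := h x
    rw [show a = -1 from eq_neg_of_add_eq_zero_right h1] at h2
    show σ x = x
    linear_combination -h2
  refine ⟨x + a * σ x, hx, ?_⟩
  rw [map_add, map_mul, hσ]
  linear_combination x * ha

/-- Rescaling makes a self-conjugate-up-to-scalar Gram matrix self-conjugate, when σ moves something. -/
lemma exists_herm_scale {κ : Type} [Fintype κ] [DecidableEq κ] (σ : F →+* F) (hσ : ∀ a, σ (σ a) = a)
    (hne : σ ≠ RingHom.id F) {G : Matrix κ κ F} {a : F} (hG0 : G ≠ 0) (hG : (G.map σ)ᵀ = a • G) :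
    ∃ b : F, b ≠ 0 ∧ ((b • G).map σ)ᵀ = b • G ∧ σ b * a = b := by
  have ha : σ a * a = 1 := by
    have h1 : G = (σ a * a) • G := by
      have h2 := congrArg (fun M : Matrix κ κ F => (M.map σ)ᵀ) hG
      rw [show (((G.map σ)ᵀ).map σ)ᵀ = G from Matrix.ext fun i j => hσ _, Matrix.map_smul' _ _ _ (map_mul σ),
        Matrix.transpose_smul, hG, smul_smul] at h2
      exact h2
    by_contra hne
    apply hG0
    have h3 : (σ a * a - 1) • G = 0 := by rw [sub_smul, one_smul, ← h1, sub_self]
    exact (smul_eq_zero.1 h3).resolve_left (sub_ne_zero.2 hne)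
  obtain ⟨b, hb0, hb⟩ := exists_hilbert σ hσ hne ha
  refine ⟨b, hb0, ?_, hb⟩
  rw [Matrix.map_smul' _ _ _ (map_mul σ), Matrix.transpose_smul, hG, smul_smul, hb]

end Cfsg.Agent.H99.Asch
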