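import Cfsg.Agent.H99.Aschbacher.FormCentre

/-!
A non-scalar normal subgroup of an irreducible isometry group gives a decomposition compatible with the form, an
adjoint-closed extension field, a tensor decomposition of the form, or is absolutely irreducible.
-/

set_option autoImplicit false

open scoped MatrixGroups Matrix Kronecker

namespace Cfsg.Agent.H99.Asch

open Cfsg.Geo

variable {ι : Type} [Fintype ι] [DecidableEq ι] {F : Type*} [Field F]
variable {κ μ : Type} [Fintype κ] [DecidableEq κ] [Fintype μ] [DecidableEq μ]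

lemma tens_transpose (e : ι ≃ κ × μ) (a : Matrix κ κ F) (c : Matrix μ μ F) :
    (tens e a c)ᵀ = tens e aᵀ cᵀ := by ext u v; rfl

lemma tens_map (σ : F →+* F) (e : ι ≃ κ × μ) (a : Matrix κ κ F) (c : Matrix μ μ F) :
    (tens e a c).map σ = tens e (a.map σ) (c.map σ) := by ext u v; simp [tens_apply]

lemma tens_smul_left (e : ι ≃ κ × μ) (x : F) (a : Matrix κ κ F) (c : Matrix μ μ F) :
    tens e (x • a) c = x • tens e a c := by
  ext u v; simp [tens_apply, mul_assoc]

lemma tens_smul_right (e : ι ≃ κ × μ) (x : F) (a : Matrix κ κ F) (c : Matrix μ μ F) :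
    tens e a (x • c) = x • tens e a c := by
  ext u v; simp [tens_apply]; ring

/-- A tensor product determines its non-zero factors up to scalars. -/
lemma tens_eq_tens (e : ι ≃ κ × μ) {a a' : Matrix κ κ F} {c c' : Matrix μ μ F} (ha : a ≠ 0) (hc : c ≠ 0)
    (h : tens e a' c' = tens e a c) : ∃ x : F, x ≠ 0 ∧ a' = x • a ∧ c' = x⁻¹ • c := by
  obtain ⟨i, hi⟩ := Function.ne_iff.1 ha
  obtain ⟨j, hj⟩ := Function.ne_iff.1 hi
  obtain ⟨k, hk⟩ := Function.ne_iff.1 hc
  obtain ⟨l, hl⟩ := Function.ne_iff.1 hk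
  simp only [Matrix.zero_apply] at hj hl
  have he : ∀ p q r s, a' p q * c' r s = a p q * c r s := fun p q r s => by
    have := congrArg (fun M : Matrix ι ι F => M (e.symm (p, r)) (e.symm (q, s))) h
    simpa [tens_apply] using this
  have hne : c' k l ≠ 0 := by
    intro e0
    have := he i j k l
    rw [e0, mul_zero] at this
    exact mul_ne_zero hj hl this.symm
  refine ⟨c k l / c' k l, div_ne_zero hl hne, ?_, ?_⟩
  · ext p q
    rw [Matrix.smul_apply, smul_eq_mul, div_mul_eq_mul_div, eq_div_iff hne, he, mul_comm]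
  · ext r s
    rw [Matrix.smul_apply, smul_eq_mul, inv_div, div_mul_eq_mul_div, eq_div_iff hl]
    have h1 := he i j k l
    have h2 := he i j r s
    have ha' : a' i j ≠ 0 := fun e0 => by
      rw [e0, zero_mul] at h1
      exact mul_ne_zero hj hl h1.symm
    refine mul_left_cancel₀ ha' ?_
    calc a' i j * (c' r s * c k l) = (a' i j * c' r s) * c k l := by ring
      _ = a i j * c r s * c k l := by rw [h2]
      _ = (a' i j * c' k l) * c r s := by rw [h1]; ring
      _ = a' i j * (c' k l * c r s) := by ring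

/-- The Gram matrix in a new basis. -/
def FormData.gramAt (D : FormData ι F) (P : GL ι F) : Matrix ι ι F :=
  (P : Matrix ι ι F)ᵀ * (D.U : Matrix ι ι F) * (P : Matrix ι ι F).map D.σ

lemma FormData.isUnit_gramAt (D : FormData ι F) (P : GL ι F) : IsUnit (D.gramAt P) :=
  (((Matrix.isUnit_transpose _).2 (Units.isUnit P)).mul (Units.isUnit D.U)).mul
    ((Units.isUnit P).map (D.σ.mapMatrix).toMonoidHom)

lemma FormData.gramAt_herm (D : FormData ι F) (P : GL ι F) :
    ((D.gramAt P).map D.σ)ᵀ = D.ε • D.gramAt P := by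
  rw [FormData.gramAt, Matrix.map_mul, Matrix.map_mul, Matrix.transpose_mul, Matrix.transpose_mul, D.herm,
    D.map_map, ← Matrix.transpose_map, Matrix.transpose_transpose, smul_mul_assoc, mul_smul_comm, mul_assoc]

lemma FormData.form_gramAt (D : FormData ι F) (P : GL ι F) (u v : ι → F) :
    D.form ((P : Matrix ι ι F) *ᵥ u) ((P : Matrix ι ι F) *ᵥ v) = gramForm D.σ (D.gramAt P) u v :=
  gramForm_mulVec D.σ _ _ u v

/-- The adjoint in a new basis. -/
lemma FormData.adj_conjHom (D : FormData ι F) (P : GL ι F) {X Y : Matrix ι ι F}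
    (h : D.adj (conjHom P X) = conjHom P Y) : Xᵀ * D.gramAt P = D.gramAt P * Y.map D.σ := by
  have h1 := D.transpose_mul_U (conjHom P X)
  rw [h] at h1
  have h2 := congrArg (fun M => (P : Matrix ι ι F)ᵀ * M * (P : Matrix ι ι F).map D.σ) h1
  simp only [conjHom_apply, Matrix.transpose_mul, Matrix.map_mul] at h2
  have hP : (P : Matrix ι ι F)ᵀ * ((P⁻¹ : GL ι F) : Matrix ι ι F)ᵀ = 1 := by
    rw [← Matrix.transpose_mul, ← Units.val_mul, inv_mul_cancel, Units.val_one, Matrix.transpose_one]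
  have hPσ : ((P⁻¹ : GL ι F) : Matrix ι ι F).map D.σ * (P : Matrix ι ι F).map D.σ = 1 := by
    rw [← Matrix.map_mul, ← Units.val_mul, inv_mul_cancel, Units.val_one,
      Matrix.map_one _ (map_zero D.σ) (map_one D.σ)]
  calc Xᵀ * D.gramAt P
      = ((P : Matrix ι ι F)ᵀ * ((P⁻¹ : GL ι F) : Matrix ι ι F)ᵀ) * Xᵀ * (P : Matrix ι ι F)ᵀ *
          (D.U : Matrix ι ι F) * (P : Matrix ι ι F).map D.σ := by
        rw [hP, one_mul, FormData.gramAt, ← mul_assoc, ← mul_assoc]
    _ = D.gramAt P * Y.map D.σ * (((P⁻¹ : GL ι F) : Matrix ι ι F).map D.σ * (P : Matrix ι ι F).map D.σ) := by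
        simp only [← mul_assoc] at h2 ⊢
        rw [h2, FormData.gramAt]
    _ = D.gramAt P * Y.map D.σ := by rw [hPσ, mul_one]

/-- H stabilises a tensor decomposition of the form. -/
def InFormTensor (D : FormData ι F) (H : Subgroup (GL ι F)) : Prop :=
  ∃ (s t : ℕ) (e : ι ≃ Fin s × Fin t) (P : GL ι F) (G₁ : GL (Fin s) F) (G₂ : GL (Fin t) F) (a₁ a₂ : F),
    2 ≤ s ∧ 2 ≤ t ∧ D.gramAt P = tens e (G₁ : Matrix (Fin s) (Fin s) F) (G₂ : Matrix (Fin t) (Fin t) F) ∧
    ((G₁ : Matrix (Fin s) (Fin s) F).map D.σ)ᵀ = a₁ • (G₁ : Matrix (Fin s) (Fin s) F) ∧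
    ((G₂ : Matrix (Fin t) (Fin t) F).map D.σ)ᵀ = a₂ • (G₂ : Matrix (Fin t) (Fin t) F) ∧ a₁ * a₂ = D.ε ∧
    H ≤ tensorProductSubgroup s t e P

/-- An adjoint-closed tensor frame splits the Gram matrix. -/
lemma exists_tensor_gram [Nonempty κ] [Nonempty μ] (D : FormData ι F) (e : ι ≃ κ × μ) (P : GL ι F)
    (hA : ∀ a : Matrix κ κ F, ∃ b, D.adj (conjHom P (tens e a 1)) = conjHom P (tens e b 1)) :
    ∃ (G₁ : GL κ F) (G₂ : GL μ F) (a₁ a₂ : F),
      D.gramAt P = tens e (G₁ : Matrix κ κ F) (G₂ : Matrix μ μ F) ∧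
      ((G₁ : Matrix κ κ F).map D.σ)ᵀ = a₁ • (G₁ : Matrix κ κ F) ∧
      ((G₂ : Matrix μ μ F).map D.σ)ᵀ = a₂ • (G₂ : Matrix μ μ F) ∧ a₁ * a₂ = D.ε := by
  obtain ⟨W, hW⟩ := D.isUnit_gramAt P
  obtain ⟨g, c, hgc⟩ := exists_tens_of_normalises e W⁻¹ fun a => by
    obtain ⟨b, hb⟩ := hA aᵀ
    refine ⟨b.map D.σ, ?_⟩
    have h1 := D.adj_conjHom P hb
    rw [tens_transpose, Matrix.transpose_transpose, Matrix.transpose_one, tens_map,
      Matrix.map_one _ (map_zero D.σ) (map_one D.σ), ← hW] at h1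
    rw [inv_inv, mul_assoc, h1, ← mul_assoc, ← Units.val_mul, inv_mul_cancel, Units.val_one, one_mul]
  have hW' : (W : Matrix ι ι F) = tens e ((g⁻¹ : GL κ F) : Matrix κ κ F) ((c⁻¹ : GL μ F) : Matrix μ μ F) := by
    have h1 : ((W⁻¹ : GL ι F) : Matrix ι ι F) *
        tens e ((g⁻¹ : GL κ F) : Matrix κ κ F) ((c⁻¹ : GL μ F) : Matrix μ μ F) = 1 := by
      rw [hgc, tens_mul, ← Units.val_mul, ← Units.val_mul, mul_inv_cancel, mul_inv_cancel, Units.val_one,
        Units.val_one, tens_one]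
    exact (Units.inv_mul_eq_iff_eq_mul W).1 h1 |>.trans (mul_one _) |>.symm
  have hg0 : ((g⁻¹ : GL κ F) : Matrix κ κ F) ≠ 0 := Units.ne_zero _
  have hc0 : ((c⁻¹ : GL μ F) : Matrix μ μ F) ≠ 0 := Units.ne_zero _
  have hh := D.gramAt_herm P
  rw [← hW, hW', tens_map, tens_transpose, ← tens_smul_right] at hh
  obtain ⟨x, hx, h1, h2⟩ := tens_eq_tens e hg0 (smul_ne_zero D.eps_ne hc0) hh
  exact ⟨g⁻¹, c⁻¹, x, x⁻¹ * D.ε, hW.symm.trans hW', h1, by rw [h2, smul_smul], mul_inv_cancel_left₀ hx _⟩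

/-- H normalises the field that is the centre of the algebra of a normal subgroup N, closed under adjoints. -/
def InFormField (D : FormData ι F) (H N : Subgroup (GL ι F)) : Prop :=
  ∃ d : ℕ, d ≠ 1 ∧ IsFieldSubalgebra d (centre (env N)) ∧ (∀ k ∈ centre (env N), D.adj k ∈ centre (env N)) ∧
    Normalises H (centre (env N))

/-- A non-scalar normal subgroup of an irreducible isometry group. -/
theorem form_trichotomy [Fintype F] [Nonempty ι] (D : FormData ι F) {H N : Subgroup (GL ι F)}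
    (hirr : ActsIrreducibly (matrixSet H)) (hH : H ≤ D.isom) (hN : NormalIn H N) (hns : ¬ N ≤ scalars ι F) :
    InFormDecomposition D H ∨ InFormHalves D H ∨ InFormField D H N ∨ InFormTensor D H ∨ env N = ⊤ := by
  classical
  have hA : Normalises H (env N) := normalises_env hN.2
  have hAadj : ∀ a ∈ env N, D.adj a ∈ env N := fun a ha => D.adj_mem_env (hN.1.trans hH) ha
  have hZn := normalises_centre hA
  have hcomm : ∀ x ∈ centre (env N), ∀ y ∈ centre (env N), x * y = y * x := fun x hx y hy =>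
    (mem_centre.1 hx).2 y (mem_centre.1 hy).1
  by_cases hex : ∃ e ∈ centre (env N), e * e = e ∧ e ≠ 0 ∧ e ≠ 1
  · rcases decomposition_of_centre D hirr hH hcomm hZn (fun z hz => D.adj_mem_centre hAadj hz) hex with h | h
    · exact Or.inl h
    · exact Or.inr (Or.inl h)
  push Not at hex
  have hno : ∀ e ∈ centre (env N), e * e = e → e = 0 ∨ e = 1 := fun e he hee =>
    or_iff_not_imp_left.2 (hex e he hee)
  by_cases hd : Module.finrank F (centre (env N)) = 1
  swap
  · refine Or.inr (Or.inr (Or.inl ⟨_, hd, isFieldSubalgebra_of _ fun x hx hx0 =>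
      isUnit_of_no_idem hirr hcomm hZn hno hx hx0, fun k hk => D.adj_mem_centre hAadj hk, hZn⟩))
  right; right; right
  obtain ⟨U, hU, htop⟩ := homogeneous_of_no_idem hirr hA hno
  have hZbot : centre (env N) = ⊥ := Subalgebra.eq_bot_of_finrank_one hd
  obtain ⟨s, f, hs, hf, hspan⟩ := (clifford_of_top hU htop).2 fun z hz hzc => by
    have : z ∈ centre (env N) := mem_centre.2 ⟨hz, hzc⟩
    rw [hZbot, Algebra.mem_bot] at this
    obtain ⟨c, rfl⟩ := this
    exact ⟨c, Algebra.algebraMap_eq_smul_one c⟩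
  have : NeZero s := ⟨hs.ne'⟩
  obtain ⟨t, e, P, hP⟩ := exists_frame hf
  have hA' : ∀ M, M ∈ env N ↔ ∃ a, M = conjHom P (tensL e a) := by
    intro M
    rw [← Subalgebra.mem_toSubmodule, ← hspan]
    constructor
    · intro hM
      induction hM using Submodule.span_induction with
      | mem x hx => obtain ⟨⟨a, b⟩, rfl⟩ := hx; exact ⟨_, hP a b⟩
      | zero => exact ⟨0, by rw [map_zero, map_zero]⟩
      | add x y _ _ hx hy =>
        obtain ⟨a, rfl⟩ := hx; obtain ⟨b, rfl⟩ := hy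
        exact ⟨a + b, by rw [map_add, map_add]⟩
      | smul c x _ hx =>
        obtain ⟨a, rfl⟩ := hx
        exact ⟨c • a, by rw [map_smul, map_smul]⟩
    · rintro ⟨a, rfl⟩
      rw [Matrix.matrix_eq_sum_single a]
      simp only [map_sum]
      refine Submodule.sum_mem _ fun i _ => Submodule.sum_mem _ fun j _ => ?_
      rw [show Matrix.single i j (a i j) = a i j • Matrix.single i j (1 : F) by
        rw [Matrix.smul_single, smul_eq_mul, mul_one], map_smul, map_smul, conjHom_apply, tensL_apply, ← hP]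
      exact Submodule.smul_mem _ _ (Submodule.subset_span ⟨(i, j), rfl⟩)
  have ht0 : 0 < t := by
    obtain ⟨x⟩ := ‹Nonempty ι›
    exact (e x).2.pos
  rcases Nat.lt_or_ge t 2 with ht | ht
  · right
    obtain rfl : t = 1 := by omega
    refine eq_top_iff.2 fun M _ => (hA' M).2 ?_
    let e₁ : ι ≃ Fin s := e.trans (Equiv.prodUnique (Fin s) (Fin 1))
    let M' : Matrix ι ι F := ((P⁻¹ : GL ι F) : Matrix ι ι F) * M * (P : Matrix ι ι F)
    refine ⟨Matrix.of fun i j => M' (e₁.symm i) (e₁.symm j), ?_⟩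
    have h1 : tens e (Matrix.of fun i j => M' (e₁.symm i) (e₁.symm j)) (1 : Matrix (Fin 1) (Fin 1) F) = M' := by
      ext x y
      rw [tens_apply, Matrix.of_apply, Subsingleton.elim (e x).2 (e y).2, Matrix.one_apply_eq, mul_one,
        show e₁.symm (e x).1 = x from e₁.symm_apply_apply x, show e₁.symm (e y).1 = y from e₁.symm_apply_apply y]
    rw [tensL_apply, h1, conjHom_apply]
    simp only [M', ← mul_assoc]
    rw [← Units.val_mul, mul_inv_cancel, Units.val_one, one_mul, mul_assoc, ← Units.val_mul, mul_inv_cancel,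
      Units.val_one, mul_one]
  rcases Nat.lt_or_ge s 2 with hs2 | hs2
  · exfalso
    apply hns
    intro g hg
    obtain ⟨a, ha⟩ := (hA' _).1 (coe_mem_env hg)
    have : Subsingleton (Fin s) := Fin.subsingleton_iff_le_one.2 (by omega)
    apply mem_scalars_of_smul (c := a 0 0)
    have h1 : a = a 0 0 • (1 : Matrix (Fin s) (Fin s) F) := by
      ext i j
      rw [Subsingleton.elim i 0, Subsingleton.elim j 0]
      simp
    rw [ha, h1, map_smul, map_one, map_smul, map_one]
    simp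
  left
  have : NeZero t := ⟨by omega⟩
  obtain ⟨G₁, G₂, a₁, a₂, hG, hG₁, hG₂, ha⟩ := exists_tensor_gram D e P fun a => by
    obtain ⟨b, hb⟩ := (hA' _).1 (hAadj _ ((hA' _).2 ⟨a, rfl⟩))
    exact ⟨b, hb⟩
  refine ⟨s, t, e, P, G₁, G₂, a₁, a₂, hs2, ht, hG, hG₁, hG₂, ha, le_tensorProductSubgroup e P fun h hh a => ?_⟩
  obtain ⟨b, hb⟩ := (hA' _).1 (hA h hh _ ((hA' _).2 ⟨a, rfl⟩))
  refine ⟨b, conj_inj P ?_⟩
  rw [tensL_apply, tensL_apply, conjHom_apply, conjHom_apply] at hb
  rw [← hb]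
  simp only [Units.val_mul, mul_inv_rev, inv_inv, ← mul_assoc]
  rw [← Units.val_mul P P⁻¹, mul_inv_cancel, Units.val_one, one_mul]
  simp only [mul_assoc]
  rw [← Units.val_mul P P⁻¹, mul_inv_cancel, Units.val_one, mul_one]

end Cfsg.Agent.H99.Asch
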