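import Cfsg.Agent.H99.Aschbacher.FormRealise

/-!
The class-two case of Aschbacher's theorem relative to a form.
-/

set_option autoImplicit false
set_option maxHeartbeats 1000000

open scoped MatrixGroups Matrix

namespace Cfsg.Agent.H99.Asch

open Cfsg.Geo

variable {ι : Type} [Fintype ι] [DecidableEq ι] {F : Type*} [Field F]

/-- A field with a non-trivial involutive automorphism has square order, with the fixed field as square root. -/
lemma card_eq_sq_fixed [Fintype F] (σ : F →+* F) (hσ : ∀ a, σ (σ a) = a) (hne : σ ≠ RingHom.id F) :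
    ∃ K : Subfield F, (∀ x, x ∈ K ↔ σ x = x) ∧ Fintype.card F = Nat.card K ^ 2 := by
  obtain ⟨a, ha⟩ : ∃ a, σ a ≠ a := by
    by_contra h
    push Not at h
    exact hne (RingHom.ext h)
  let K : Subfield F := RingHom.eqLocusField σ (RingHom.id F)
  have hK : ∀ x, x ∈ K ↔ σ x = x := fun x => Iff.rfl
  refine ⟨K, hK, ?_⟩
  have hd : a - σ a ≠ 0 := sub_ne_zero.2 (Ne.symm ha)
  let g : K × K → F := fun x => (x.1 : F) + a * (x.2 : F)
  have hg : Function.Bijective g := by
    constructor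
    · rintro ⟨x0, x1⟩ ⟨y0, y1⟩ h
      simp only [g] at h
      have h' := congrArg σ h
      rw [map_add, map_add, map_mul, map_mul, (hK _).1 x0.2, (hK _).1 x1.2, (hK _).1 y0.2, (hK _).1 y1.2] at h'
      have h1 : (x1 : F) = y1 := mul_left_cancel₀ hd (by linear_combination h - h')
      have h0 : (x0 : F) = y0 := by linear_combination h - a * h1
      exact Prod.ext (Subtype.ext h0) (Subtype.ext h1)
    · intro x
      let x1 := (x - σ x) / (a - σ a)
      have hd' : σ a - a ≠ 0 := sub_ne_zero.2 ha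
      have h1 : σ x1 = x1 := by
        simp only [x1, map_div₀, map_sub, hσ]
        rw [div_eq_div_iff hd' hd]; ring
      have h0 : σ (x - a * x1) = x - a * x1 := by
        rw [map_sub, map_mul, h1]
        simp only [x1]
        field_simp
        ring
      exact ⟨(⟨x - a * x1, (hK _).2 h0⟩, ⟨x1, (hK _).2 h1⟩), sub_add_cancel x _⟩
  rw [← Nat.card_eq_fintype_card, ← Nat.card_congr (Equiv.ofBijective g hg), Nat.card_prod, sq]

/-- The group of scalar multiples of a class-two normal subgroup killed by the exponent, with its invariants. -/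
theorem typeTwo_tail [Fintype F] (hn3 : 3 ≤ Fintype.card ι) {H N R : Subgroup (GL ι F)}
    (hN : NormalIn H N) (hns : ¬ N ≤ scalars ι F) (henv : env N = ⊤)
    (hmin : ∀ M, NormalIn H M → M ≤ N → M ≤ scalars ι F ∨ M = N)
    (hcomm : ∀ x ∈ N, ∀ y ∈ N, x * y * x⁻¹ * y⁻¹ ∈ scalars ι F)
    {r z d : ℕ} (hr : r.Prime) (hMr : ∀ x ∈ N, x ^ r ∈ scalars ι F) (hd : d = r * Nat.gcd 2 r) {ζ : Fˣ}
    (hζ : orderOf ζ = z)
    (hzcases : (Odd r ∧ z = r) ∨ (r = 2 ∧ z = 4) ∨ (r = 2 ∧ z = 2))
    (hRG : R ≤ N ⊔ scalars ι F) (hRn : ∀ h ∈ H, ∀ x ∈ R, h * x * h⁻¹ ∈ R) (hRd : ∀ x ∈ R, x ^ d = 1)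
    (hRscal : ∀ c : Fˣ, scl c ∈ R ↔ c ∈ Subgroup.zpowers ζ)
    (hscale : ∀ x ∈ N ⊔ scalars ι F, ∃ c : Fˣ, scl c * x ∈ R) :
    IsSymplecticTypeGroup r R ∧ ActsAbsolutelyIrreducibly (matrixSet R) ∧
      Nat.card (Subgroup.center R) = z ∧
      (∃ m : ℕ, Fintype.card ι = r ^ m ∧ 1 ≤ m ∧ Nat.card R = z * r ^ (2 * m)) ∧
      ∃ (X : Type) (_ : Fintype X) (T : X → GL ι F),
        LinearIndependent F (fun x => (T x : Matrix ι ι F)) ∧
        (∀ M : Matrix ι ι F, ∃ c : X → F, M = ∑ x, c x • (T x : Matrix ι ι F)) ∧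
        (∀ x, T x ∈ R) ∧ (∀ g ∈ R, ∃ x, ∃ w ∈ Subgroup.zpowers ζ, g = scl w * T x) := by
  classical
  have : Nonempty ι := Fintype.card_pos_iff.1 (by omega)
  have : Nontrivial ι := Fintype.one_lt_card_iff_nontrivial.1 (by omega)
  have habs := absIrred_of_env henv
  let G₀ : Subgroup (GL ι F) := N ⊔ scalars ι F
  have hmem₀ : ∀ x ∈ G₀, ∃ y ∈ N, ∃ c : Fˣ, x = y * scl c := by
    intro x hx
    obtain ⟨y, hy, z, hz, rfl⟩ := Subgroup.mem_sup_of_normal_right.1 hx
    obtain ⟨c, rfl⟩ := exists_scl hz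
    exact ⟨y, hy, c, rfl⟩
  have hcomm₀ : ∀ x ∈ G₀, ∀ y ∈ G₀, x * y * x⁻¹ * y⁻¹ ∈ scalars ι F := by
    intro x hx y hy
    obtain ⟨x', hx', c, rfl⟩ := hmem₀ x hx
    obtain ⟨y', hy', d, rfl⟩ := hmem₀ y hy
    have e : x' * scl c * (y' * scl d) * (x' * scl c)⁻¹ * (y' * scl d)⁻¹ = x' * y' * x'⁻¹ * y'⁻¹ := by
      have hc : ∀ g : GL ι F, scl c * g = g * scl c := scalars_commute (scl_mem c)
      have hd : ∀ g : GL ι F, scl d * g = g * scl d := scalars_commute (scl_mem d)
      calc x' * scl c * (y' * scl d) * (x' * scl c)⁻¹ * (y' * scl d)⁻¹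
          = x' * ((scl c * y') * scl d * (scl c)⁻¹) * x'⁻¹ * (scl d)⁻¹ * y'⁻¹ := by simp [mul_assoc]
        _ = x' * (y' * (scl d * scl c) * (scl c)⁻¹ ) * x'⁻¹ * (scl d)⁻¹ * y'⁻¹ := by rw [hc y']; simp [mul_assoc, hd (scl c)]
        _ = x' * y' * (scl d * x'⁻¹) * (scl d)⁻¹ * y'⁻¹ := by simp [mul_assoc]
        _ = x' * y' * x'⁻¹ * y'⁻¹ := by rw [hd x'⁻¹]; simp [mul_assoc]
    rw [e]; exact hcomm x' hx' y' hy'
  have hpow₀ : ∀ x ∈ G₀, x ^ r ∈ scalars ι F := by
    intro x hx
    obtain ⟨y, hy, c, rfl⟩ := hmem₀ x hx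
    rw [(show Commute y (scl c) from (scalars_commute (scl_mem c) y).symm).mul_pow]
    exact Subgroup.mul_mem _ (hMr y hy) (Subgroup.pow_mem _ (scl_mem c) _)
  have henv₀ : env G₀ = ⊤ := top_le_iff.1 (henv ▸ env_mono le_sup_left)
  -- a transversal inside R
  let S : Subgroup G₀ := (scalars ι F).subgroupOf G₀
  let Q := G₀ ⧸ S
  let eQ : Q ≃ Fin (Nat.card Q) := Finite.equivFin Q
  have hTex : ∀ i : Fin (Nat.card Q), ∃ t : G₀, (t : GL ι F) ∈ R ∧ (QuotientGroup.mk t : Q) = eQ.symm i := by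
    intro i
    obtain ⟨t, ht⟩ := QuotientGroup.mk_surjective (eQ.symm i)
    obtain ⟨c, hc⟩ := hscale t t.2
    have hcm : scl c ∈ G₀ := le_sup_right (a := N) (scl_mem c)
    refine ⟨⟨scl c, hcm⟩ * t, hc, ?_⟩
    rw [QuotientGroup.mk_mul, (QuotientGroup.eq_one_iff (N := S) ⟨scl c, hcm⟩).2 (scl_mem c), one_mul, ht]
  choose T' hT'R hT'q using hTex
  let T : Fin (Nat.card Q) → GL ι F := fun i => (T' i : GL ι F)
  have hinjT : ∀ x x', T x * (T x')⁻¹ ∈ scalars ι F → x = x' := by
    intro x x' h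
    apply eQ.symm.injective
    rw [← hT'q, ← hT'q, ← div_eq_one, ← QuotientGroup.mk_div, QuotientGroup.eq_one_iff, div_eq_mul_inv]
    exact h
  have hcoverR : ∀ g ∈ G₀, ∃ x, ∃ w ∈ scalars ι F, g = w * T x := by
    intro g hg
    refine ⟨eQ (QuotientGroup.mk ⟨g, hg⟩), g * (T (eQ (QuotientGroup.mk ⟨g, hg⟩)))⁻¹, ?_, by simp⟩
    have h1 := hT'q (eQ (QuotientGroup.mk ⟨g, hg⟩))
    rw [Equiv.symm_apply_apply, eq_comm, ← div_eq_one, ← QuotientGroup.mk_div, QuotientGroup.eq_one_iff,
      div_eq_mul_inv] at h1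
    exact h1
  obtain ⟨hind, hspan, hcardQ⟩ := transversal_basis henv₀ hcomm₀ T (fun x => (T' x).2) hcoverR hinjT
  rw [Fintype.card_fin] at hcardQ
  have hRT : ∀ g ∈ R, ∃ x, ∃ w ∈ Subgroup.zpowers ζ, g = scl w * T x := by
    intro g hg
    obtain ⟨x, w, hw, rfl⟩ := hcoverR g (hRG hg)
    obtain ⟨c, rfl⟩ := exists_scl hw
    refine ⟨x, c, (hRscal c).1 ?_, rfl⟩
    have := R.mul_mem hg (R.inv_mem (hT'R x))
    rwa [show scl c * T x * ((T' x : G₀) : GL ι F)⁻¹ = scl c from mul_inv_cancel_right _ _] at this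
  have hRenv : env R = ⊤ := by
    refine eq_top_iff.2 fun M _ => ?_
    obtain ⟨c, rfl⟩ := hspan M
    exact (env R).sum_mem fun x _ => (env R).smul_mem (coe_mem_env (hT'R x)) _
  have hRabs := absIrred_of_env hRenv
  have hcenter : ∀ x : R, x ∈ Subgroup.center R ↔ (x : GL ι F) ∈ scalars ι F := by
    intro x
    rw [Subgroup.mem_center_iff]
    constructor
    · intro h
      exact mem_scalars_of_commute hRabs fun y hy => (congrArg Subtype.val (h ⟨y, hy⟩)).symm
    · intro h y
      exact Subtype.ext (scalars_commute h y).symm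
  have hcardcenter : Nat.card (Subgroup.center R) = z := by
    rw [← hζ, ← Nat.card_zpowers]
    refine (Nat.card_congr (Equiv.ofBijective (fun w : Subgroup.zpowers ζ =>
      (⟨⟨scl (w : Fˣ), (hRscal _).2 w.2⟩, (hcenter _).2 (scl_mem _)⟩ : Subgroup.center R)) ⟨?_, ?_⟩)).symm
    · intro u v huv
      exact Subtype.ext (scl_injective (congrArg (fun q : Subgroup.center R => (q.1 : GL ι F)) huv))
    · intro x
      obtain ⟨c, hc⟩ := exists_scl ((hcenter x.1).1 x.2)
      refine ⟨⟨c, (hRscal c).1 (hc ▸ x.1.2)⟩, ?_⟩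
      exact Subtype.ext (Subtype.ext hc.symm)
  -- Q has exponent r, so its order is a power of r
  have hQpow : ∀ q : Q, q ^ r = 1 := by
    intro q
    obtain ⟨t, rfl⟩ := QuotientGroup.mk_surjective q
    rw [← QuotientGroup.mk_pow, QuotientGroup.eq_one_iff]
    exact hpow₀ t t.2
  obtain ⟨l, hl⟩ : ∃ l, Nat.card Q = r ^ l := by
    have : Fact r.Prime := ⟨hr⟩
    have hpQ : IsPGroup r Q := fun q => ⟨1, by rw [pow_one]; exact hQpow q⟩
    exact IsPGroup.iff_card.1 hpQ
  obtain ⟨m, -, hm⟩ := (Nat.dvd_prime_pow hr).1 (show Fintype.card ι ∣ r ^ l from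
    hl ▸ hcardQ ▸ dvd_pow_self _ two_ne_zero)
  have hm1 : 1 ≤ m := by
    rcases Nat.eq_zero_or_pos m with rfl | h
    · rw [pow_zero] at hm; omega
    · exact h
  have hcardR : Nat.card R = z * r ^ (2 * m) := by
    let ψ : R →* Q := (QuotientGroup.mk' S).comp (Subgroup.inclusion hRG)
    have hsurj : Function.Surjective ψ := fun q => ⟨⟨_, hT'R (eQ q)⟩, by
      show (QuotientGroup.mk (T' (eQ q)) : Q) = q
      rw [hT'q, Equiv.symm_apply_apply]⟩
    have hker : ψ.ker = Subgroup.center R := by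
      ext x
      rw [MonoidHom.mem_ker, hcenter]
      exact QuotientGroup.eq_one_iff _
    rw [Subgroup.card_eq_card_quotient_mul_card_subgroup ψ.ker,
      Nat.card_congr (QuotientGroup.quotientKerEquivOfSurjective ψ hsurj).toEquiv, hker, hcardcenter,
      hcardQ, hm, ← pow_mul, mul_comm, mul_comm m 2]
  have hRp : IsPGroup r R := by
    intro x
    refine ⟨2, Subtype.ext ?_⟩
    rw [Subgroup.coe_pow, Subgroup.coe_one]
    have : d ∣ r ^ 2 := by
      rw [hd, sq]; exact mul_dvd_mul_left r (Nat.gcd_dvd_right 2 r)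
    obtain ⟨j, hj⟩ := this
    rw [hj, pow_mul, hRd x x.2, one_pow]
  have hexp : Monoid.exponent R = d := by
    have hdvd : Monoid.exponent R ∣ d :=
      Monoid.exponent_dvd_of_forall_pow_eq_one fun x => Subtype.ext (by rw [Subgroup.coe_pow]; exact hRd x x.2)
    refine Nat.dvd_antisymm hdvd ?_
    have h1 : z ∣ Monoid.exponent R := by
      have := Monoid.order_dvd_exponent (⟨scl ζ, (hRscal ζ).2 (Subgroup.mem_zpowers ζ)⟩ : R)
      rw [← orderOf_injective R.subtype (Subgroup.subtype_injective R)] at this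
      change orderOf (Units.map (Matrix.scalar ι : F →+* Matrix ι ι F).toMonoidHom ζ) ∣ _ at this
      rwa [orderOf_injective (Units.map (Matrix.scalar ι : F →+* Matrix ι ι F).toMonoidHom)
          (scl_injective (ι := ι)), hζ] at this
    rcases hzcases with ⟨hodd, hzr⟩ | ⟨h2, hz4⟩ | ⟨h2, -⟩
    · have hg : Nat.gcd 2 r = 1 := Nat.coprime_two_left.2 hodd
      rw [hd, hg, mul_one]; rwa [hzr] at h1
    · rw [hd, h2]; rw [hz4] at h1; exact h1
    · -- two non-commuting elements rule out exponent two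
      subst h2
      rw [hd]
      obtain ⟨l, hl, hle⟩ := (Nat.dvd_prime_pow Nat.prime_two).1 (show Monoid.exponent R ∣ 2 ^ 2 by rw [hd] at hdvd; simpa using hdvd)
      rcases (show l ≤ 1 ∨ l = 2 by omega) with hl1 | rfl
      · exfalso
        have h2' : Monoid.exponent R ∣ 2 := hle ▸ (pow_one 2 ▸ pow_dvd_pow 2 hl1 : (2 : ℕ) ^ l ∣ 2)
        have hsq : ∀ x : R, x ^ 2 = 1 := fun x => (Monoid.exponent_dvd_iff_forall_pow_eq_one.1 h2') x
        have hc : ∀ x y : R, x * y = y * x := fun x y => by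
          have hinv : ∀ x : R, x⁻¹ = x := fun x => inv_eq_of_mul_eq_one_left (by rw [← sq]; exact hsq x)
          calc x * y = (x * y)⁻¹ := (hinv _).symm
            _ = y * x := by rw [mul_inv_rev, hinv, hinv]
        apply hns
        intro g hg
        refine mem_scalars_of_commute habs fun y hy => ?_
        obtain ⟨c, hc1⟩ := hscale g (le_sup_left (b := scalars ι F) hg)
        obtain ⟨c', hc2⟩ := hscale y (le_sup_left (b := scalars ι F) hy)
        have h3 : scl c * g * (scl c' * y) = scl c' * y * (scl c * g) :=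
          congrArg Subtype.val (hc ⟨_, hc1⟩ ⟨_, hc2⟩)
        apply Units.ext
        have h4 := congrArg Units.val h3
        simp only [Units.val_mul, coe_scl, smul_mul_assoc, one_mul, mul_smul_comm, smul_smul] at h4
        rw [mul_comm (c' : F)] at h4
        exact (smul_right_inj (mul_ne_zero c.ne_zero c'.ne_zero)).1 h4
      · rw [hle]; rfl
  have hchar : ∀ A : Subgroup R, A.Characteristic → IsMulCommutative A → IsCyclic A := by
    intro A hA hAc
    let A' : Subgroup (GL ι F) := A.map R.subtype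
    have hA'n : ∀ h ∈ H, ∀ x ∈ A', h * x * h⁻¹ ∈ A' := by
      intro h hh x hx
      obtain ⟨y, hy, rfl⟩ := hx
      let α : R ≃* R :=
        { toFun := fun g => ⟨h * g * h⁻¹, hRn h hh g g.2⟩
          invFun := fun g => ⟨h⁻¹ * g * h⁻¹⁻¹, hRn h⁻¹ (H.inv_mem hh) g g.2⟩
          left_inv := fun g => Subtype.ext (by simp [mul_assoc])
          right_inv := fun g => Subtype.ext (by simp [mul_assoc])
          map_mul' := fun g g' => Subtype.ext (by simp [mul_assoc]) }
      refine ⟨α y, ?_, rfl⟩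
      have := Subgroup.characteristic_iff_map_le.1 hA α
      exact this ⟨y, hy, rfl⟩
    let M : Subgroup (GL ι F) := N ⊓ (A' ⊔ scalars ι F)
    have hMn : NormalIn H M := ⟨fun x hx => hN.1 hx.1, fun h hh x hx => by
      refine ⟨hN.2 h hh x hx.1, ?_⟩
      obtain ⟨y, hy, w, hw, rfl⟩ := Subgroup.mem_sup_of_normal_right.1 hx.2
      have : h * (y * w) * h⁻¹ = (h * y * h⁻¹) * (h * w * h⁻¹) := by simp [mul_assoc]
      rw [this]
      exact Subgroup.mul_mem_sup (hA'n h hh y hy) (scalars_normal.conj_mem _ hw h)⟩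
    have hMcomm : ∀ x ∈ M, ∀ y ∈ M, x * y = y * x := by
      intro x hx y hy
      obtain ⟨_, ⟨a', ha', rfl⟩, w, hw, rfl⟩ := Subgroup.mem_sup_of_normal_right.1 hx.2
      obtain ⟨_, ⟨b', hb', rfl⟩, w', hw', rfl⟩ := Subgroup.mem_sup_of_normal_right.1 hy.2
      have h1 : Commute (a' : GL ι F) (b' : GL ι F) := by
        have := congrArg (fun q : A => ((q : R) : GL ι F)) (hAc.is_comm.comm ⟨a', ha'⟩ ⟨b', hb'⟩)
        exact this
      have h2 : ∀ g, Commute w g := fun g => scalars_commute hw g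
      have h3 : ∀ g, Commute w' g := fun g => scalars_commute hw' g
      exact ((h1.mul_right (h3 _).symm).mul_left (h2 _)).eq
    have hMs : M ≤ scalars ι F := by
      refine (hmin M hMn inf_le_left).resolve_right fun e => ?_
      exact hns fun x hx => mem_scalars_of_commute habs fun y hy => hMcomm x (e ▸ hx) y (e ▸ hy)
    have hAs : ∀ x ∈ A, (x : GL ι F) ∈ scalars ι F := by
      intro x hx
      obtain ⟨y, hy, c, hc⟩ := hmem₀ x (hRG x.2)
      have hyM : y ∈ M := by
        refine ⟨hy, ?_⟩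
        have : y = (x : GL ι F) * (scl c)⁻¹ := by rw [hc, mul_inv_cancel_right]
        rw [this]
        exact Subgroup.mul_mem_sup ⟨x, hx, rfl⟩ (Subgroup.inv_mem _ (scl_mem c))
      rw [hc]
      exact Subgroup.mul_mem _ (hMs hyM) (scl_mem c)
    have hle : A ≤ Subgroup.center R := fun x hx => (hcenter x).2 (hAs x hx)
    choose cf hcf using fun x : A => exists_scl (hAs x x.2)
    let f : A →* Fˣ :=
      { toFun := cf
        map_one' := scl_injective (ι := ι) (by rw [← hcf]; exact (map_one _).symm)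
        map_mul' := fun x y => scl_injective (ι := ι) (by rw [← hcf, scl_mul, ← hcf, ← hcf]; rfl) }
    exact isCyclic_of_injective f fun x y hxy => by
      apply Subtype.ext; apply Subtype.ext
      rw [hcf x, hcf y, show cf x = cf y from hxy]
  exact ⟨⟨hr, hRp, hchar, hexp.trans hd⟩, hRabs, hcardcenter, ⟨m, hm, hm1, hcardR⟩, _, inferInstance, T,
    hind, hspan, hT'R, hRT⟩

/-- The outcome of the class-two case relative to a form. -/
def InFormTypeTwo [Fintype F] (D : FormData ι F) (H : Subgroup (GL ι F)) : Prop :=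
  ∃ (r : ℕ) (R : Subgroup (GL ι F)) (p e k : ℕ), IsSymplecticTypeGroup r R ∧
    ActsAbsolutelyIrreducibly (matrixSet R) ∧ R ≤ similarityGroup D.form ∧ r ≠ p ∧
    IsMinimalFieldFor (Nat.card (Subgroup.center R)) p e F ∧
    Fintype.card ι = r ^ k ∧ 1 ≤ k ∧ Nat.card R = Nat.card (Subgroup.center R) * r ^ (2 * k) ∧
    H ≤ subgroupNormalizer R ∧
    ((D.σ ≠ RingHom.id F ∧ Odd r ∧ Nat.card (Subgroup.center R) = r ∧ R ≤ D.isom) ∨
     (D.σ ≠ RingHom.id F ∧ r = 2 ∧ e = 2 ∧ Nat.card (Subgroup.center R) = 4) ∨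
     (D.σ = RingHom.id F ∧ r = 2 ∧ Nat.card (Subgroup.center R) = 2 ∧ Fintype.card F = p ∧ R ≤ D.isom))

/-- The class-two case relative to a form. -/
theorem formTypeTwo_case [Fintype F] (D : FormData ι F) (hn3 : 3 ≤ Fintype.card ι) {H N : Subgroup (GL ι F)}
    (hH : H ≤ D.isom) (hN : NormalIn H N) (hns : ¬ N ≤ scalars ι F) (henv : env N = ⊤)
    (hmin : ∀ M, NormalIn H M → M ≤ N → M ≤ scalars ι F ∨ M = N)
    (hcomm : ∀ x ∈ N, ∀ y ∈ N, x * y * x⁻¹ * y⁻¹ ∈ scalars ι F) :
    InFormSubfield D H ∨ InFormTypeTwo D H := by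
  classical
  have : Nonempty ι := Fintype.card_pos_iff.1 (by omega)
  have : Nontrivial ι := Fintype.one_lt_card_iff_nontrivial.1 (by omega)
  have habs := absIrred_of_env henv
  -- N is not commutative
  have hnab : ¬ ∀ x ∈ N, ∀ y ∈ N, x * y = y * x := by
    intro h
    apply hns
    intro x hx
    exact mem_scalars_of_commute habs fun y hy => h x hx y hy
  push Not at hnab
  obtain ⟨a, ha, b, hb, hab⟩ := hnab
  -- a prime exponent modulo scalars
  obtain ⟨g, hg, hgs⟩ := SetLike.not_le_iff_exists.1 hns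
  let m₀ := orderOf (QuotientGroup.mk g : GL ι F ⧸ scalars ι F)
  have hm₀ : m₀ ≠ 1 := fun e => hgs ((QuotientGroup.eq_one_iff g).1 (orderOf_eq_one_iff.1 e))
  have : Finite (GL ι F) := inferInstance
  obtain ⟨r, hr, hrm⟩ := Nat.exists_prime_and_dvd hm₀
  have hGcomm : ∀ x ∈ N, ∀ y ∈ N, ∃ c : Fˣ, y * x = scl c * (x * y) := by
    intro x hx y hy
    obtain ⟨c, hc⟩ := exists_scl (hcomm y hy x hx)
    exact ⟨c, by rw [← hc]; simp [mul_assoc]⟩
  let Mr : Subgroup (GL ι F) :=
    { carrier := {x | x ∈ N ∧ x ^ r ∈ scalars ι F}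
      one_mem' := ⟨N.one_mem, by simp⟩
      mul_mem' := fun {x y} hx hy => by
        obtain ⟨c, hc⟩ := hGcomm x hx.1 y hy.1
        refine ⟨N.mul_mem hx.1 hy.1, ?_⟩
        rw [mul_pow_comm hc (fun g => scalars_commute (scl_mem c) g) r]
        exact Subgroup.mul_mem _ (Subgroup.pow_mem _ (scl_mem c) _) (Subgroup.mul_mem _ hx.2 hy.2)
      inv_mem' := fun {x} hx => ⟨N.inv_mem hx.1, by rw [inv_pow]; exact Subgroup.inv_mem _ hx.2⟩ }
  have hMrn : NormalIn H Mr := ⟨fun x hx => hN.1 hx.1, fun h hh x hx => ⟨hN.2 h hh x hx.1, by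
    rw [conj_pow]; exact scalars_normal.conj_mem _ hx.2 h⟩⟩
  have hMr : ∀ x ∈ N, x ^ r ∈ scalars ι F := by
    have hsel : Mr = N := by
      refine (hmin Mr hMrn fun x hx => hx.1).resolve_left fun hle => ?_
      have hmem : g ^ (m₀ / r) ∈ Mr := by
        refine ⟨N.pow_mem hg _, ?_⟩
        rw [← pow_mul, Nat.div_mul_cancel hrm, ← QuotientGroup.eq_one_iff, QuotientGroup.mk_pow]
        exact pow_orderOf_eq_one _
      have h1 := hle hmem
      rw [← QuotientGroup.eq_one_iff, QuotientGroup.mk_pow, ← orderOf_dvd_iff_pow_eq_one] at h1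
      have hpos : 0 < m₀ := orderOf_pos _
      have := Nat.le_of_dvd (Nat.div_pos (Nat.le_of_dvd hpos hrm) hr.pos) h1
      have := Nat.div_lt_self hpos hr.one_lt
      omega
    intro x hx
    rw [← hsel] at hx
    exact hx.2
  let G₀ : Subgroup (GL ι F) := N ⊔ scalars ι F
  have hmem₀ : ∀ x ∈ G₀, ∃ y ∈ N, ∃ c : Fˣ, x = y * scl c := by
    intro x hx
    obtain ⟨y, hy, z, hz, rfl⟩ := Subgroup.mem_sup_of_normal_right.1 hx
    obtain ⟨c, rfl⟩ := exists_scl hz
    exact ⟨y, hy, c, rfl⟩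
  have hcomm₀ : ∀ x ∈ G₀, ∀ y ∈ G₀, x * y * x⁻¹ * y⁻¹ ∈ scalars ι F := by
    intro x hx y hy
    obtain ⟨x', hx', c, rfl⟩ := hmem₀ x hx
    obtain ⟨y', hy', d, rfl⟩ := hmem₀ y hy
    have e : x' * scl c * (y' * scl d) * (x' * scl c)⁻¹ * (y' * scl d)⁻¹ = x' * y' * x'⁻¹ * y'⁻¹ := by
      have hc : ∀ g : GL ι F, scl c * g = g * scl c := scalars_commute (scl_mem c)
      have hd : ∀ g : GL ι F, scl d * g = g * scl d := scalars_commute (scl_mem d)
      calc x' * scl c * (y' * scl d) * (x' * scl c)⁻¹ * (y' * scl d)⁻¹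
          = x' * ((scl c * y') * scl d * (scl c)⁻¹) * x'⁻¹ * (scl d)⁻¹ * y'⁻¹ := by simp [mul_assoc]
        _ = x' * (y' * (scl d * scl c) * (scl c)⁻¹ ) * x'⁻¹ * (scl d)⁻¹ * y'⁻¹ := by rw [hc y']; simp [mul_assoc, hd (scl c)]
        _ = x' * y' * (scl d * x'⁻¹) * (scl d)⁻¹ * y'⁻¹ := by simp [mul_assoc]
        _ = x' * y' * x'⁻¹ * y'⁻¹ := by rw [hd x'⁻¹]; simp [mul_assoc]
    rw [e]; exact hcomm x' hx' y' hy'
  have hpow₀ : ∀ x ∈ G₀, x ^ r ∈ scalars ι F := by
    intro x hx
    obtain ⟨y, hy, c, rfl⟩ := hmem₀ x hx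
    rw [(show Commute y (scl c) from (scalars_commute (scl_mem c) y).symm).mul_pow]
    exact Subgroup.mul_mem _ (hMr y hy) (Subgroup.pow_mem _ (scl_mem c) _)
  have henv₀ : env G₀ = ⊤ := top_le_iff.1 (henv ▸ env_mono le_sup_left)
  -- the commutator values
  have hωall : ∀ x ∈ G₀, ∀ y ∈ G₀, ∀ c : Fˣ, y * x = scl c * (x * y) → c ^ r = 1 := by
    intro x hx y hy c hc
    apply scl_injective (ι := ι)
    have hyx : x⁻¹ * y * x = scl c * y := by
      rw [mul_assoc, hc, ← mul_assoc, ← scalars_commute (scl_mem c)]; simp [mul_assoc]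
    have h2 : (x⁻¹ * y * x) ^ r = y ^ r := by
      obtain ⟨d, hd⟩ := exists_scl (hpow₀ y hy)
      have : x⁻¹ * y ^ r * x⁻¹⁻¹ = y ^ r := by
        rw [hd, ← scalars_commute (scl_mem d), mul_assoc]; simp
      rw [← conj_pow, inv_inv] at this
      exact this
    rw [hyx, (show Commute (scl c) y from scalars_commute (scl_mem c) y).mul_pow] at h2
    rw [scl_pow, show (scl 1 : GL ι F) = 1 from map_one _]
    exact mul_eq_right.1 h2
  obtain ⟨ω, hω⟩ : ∃ ω : Fˣ, orderOf ω = r := by
    obtain ⟨c, hc⟩ := hGcomm a ha b hb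
    refine ⟨c, ?_⟩
    have : Fact r.Prime := ⟨hr⟩
    refine orderOf_eq_prime (hωall a (le_sup_left (b := scalars ι F) ha) b (le_sup_left (b := scalars ι F) hb) c hc) ?_
    rintro rfl
    apply hab
    rw [show (scl 1 : GL ι F) = 1 from map_one _, one_mul] at hc
    exact hc.symm
  obtain ⟨p, hp⟩ := CharP.exists F
  obtain ⟨e, hpp, he⟩ := FiniteField.card F p
  have : Fact p.Prime := ⟨hpp⟩
  have hrp : r ≠ p := by
    rintro rfl
    have h1 : ω ^ r = 1 := hω ▸ pow_orderOf_eq_one ω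
    have h2 : ((ω : F) - 1) ^ r = 0 := by
      rw [sub_pow_char, one_pow, ← Units.val_pow_eq_pow_val, h1, Units.val_one, sub_self]
    have h3 : ω = 1 := Units.ext (by simpa [sub_eq_zero] using (pow_eq_zero_iff hr.ne_zero).1 h2)
    rw [h3, orderOf_one] at hω
    exact hr.one_lt.ne hω
  obtain ⟨z, ζ, hζ, hzd, hroots, hzcases⟩ := exists_root hr hω
  set d := r * Nat.gcd 2 r with hd
  have hrd : r ∣ d := dvd_mul_right _ _
  have hd0 : d ≠ 0 := Nat.mul_ne_zero hr.ne_zero (by simp [Nat.gcd_eq_zero_iff])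
  have hrchoose : r ∣ d.choose 2 := by
    rcases hr.eq_two_or_odd' with h2 | hodd
    · subst h2; rw [hd]; decide
    · have hg : Nat.gcd 2 r = 1 := Nat.coprime_two_left.2 hodd
      rw [hd, hg, mul_one]
      refine hr.dvd_choose_self (by norm_num) ?_
      obtain ⟨j, hj⟩ := hodd
      have := hr.two_le
      omega
  have hmult : ∀ x ∈ G₀, ∀ k : ℕ, x ^ k = 1 → ∃ μ : Fˣ, μ ^ k = 1 ∧ D.σ (μ : F) = μ ∧
      ∀ u v, D.form ((x : Matrix ι ι F) *ᵥ u) ((x : Matrix ι ι F) *ᵥ v) = (μ : F) * D.form u v := by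
    intro x hx k hk
    obtain ⟨y, hy, c, rfl⟩ := hmem₀ x hx
    let μ : Fˣ := c * Units.map D.σ.toMonoidHom c
    have hf : ∀ u v, D.form (((y * scl c : GL ι F) : Matrix ι ι F) *ᵥ u)
        (((y * scl c : GL ι F) : Matrix ι ι F) *ᵥ v) = (μ : F) * D.form u v := by
      intro u v
      rw [Units.val_mul, coe_scl, mul_smul_comm, mul_one, Matrix.smul_mulVec, Matrix.smul_mulVec,
        D.form_smul_left, D.form_smul_right, show D.form ((y : Matrix ι ι F) *ᵥ u) ((y : Matrix ι ι F) *ᵥ v) =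
          D.form u v from hH (hN.1 hy) u v]
      show _ = (c : F) * D.σ (c : F) * _
      ring
    refine ⟨μ, ?_, ?_, hf⟩
    · have hk' : ∀ j : ℕ, ∀ u v, D.form ((((y * scl c) ^ j : GL ι F) : Matrix ι ι F) *ᵥ u)
          ((((y * scl c) ^ j : GL ι F) : Matrix ι ι F) *ᵥ v) = (μ : F) ^ j * D.form u v := by
        intro j
        induction j with
        | zero => intro u v; rw [pow_zero, pow_zero, Units.val_one, Matrix.one_mulVec, Matrix.one_mulVec, one_mul]
        | succ j ih =>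
          intro u v
          rw [pow_succ, Units.val_mul ((y * scl c) ^ j), ← Matrix.mulVec_mulVec, ← Matrix.mulVec_mulVec, ih, hf,
            pow_succ]
          ring
      obtain ⟨i₀⟩ := ‹Nonempty ι›
      obtain ⟨-, v, hv⟩ := D.nondegenerate (Pi.single i₀ 1) (by simp)
      have := hk' k (Pi.single i₀ 1) v
      rw [hk, Units.val_one, Matrix.one_mulVec, Matrix.one_mulVec] at this
      apply Units.ext
      rw [Units.val_pow_eq_pow_val, Units.val_one]
      exact (mul_eq_right₀ hv).1 this.symm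
    · show D.σ ((c : F) * D.σ (c : F)) = (c : F) * D.σ (c : F)
      rw [map_mul, D.invol, mul_comm]
  have hsclisom : ∀ c : Fˣ, scl c ∈ D.isom ↔ (c : F) * D.σ (c : F) = 1 := by
    intro c
    constructor
    · intro h
      obtain ⟨i₀⟩ := ‹Nonempty ι›
      obtain ⟨-, v, hv⟩ := D.nondegenerate (Pi.single i₀ 1) (by simp)
      have : D.form ((scl c : GL ι F).val *ᵥ Pi.single i₀ 1) ((scl c : GL ι F).val *ᵥ v) =
          D.form (Pi.single i₀ 1) v := h _ v
      rw [coe_scl, Matrix.smul_mulVec, Matrix.smul_mulVec, Matrix.one_mulVec, Matrix.one_mulVec,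
        D.form_smul_left, D.form_smul_right, ← mul_assoc] at this
      exact (mul_eq_right₀ hv).1 this
    · intro h u v
      show D.form ((scl c : GL ι F).val *ᵥ u) ((scl c : GL ι F).val *ᵥ v) = D.form u v
      rw [coe_scl, Matrix.smul_mulVec, Matrix.smul_mulVec, Matrix.one_mulVec, Matrix.one_mulVec,
        D.form_smul_left, D.form_smul_right, ← mul_assoc, h, one_mul]
  have hsubfield : ∀ (R : Subgroup (GL ι F)) (η : Fˣ), R ≤ G₀ → (∀ h ∈ H, ∀ x ∈ R, h * x * h⁻¹ ∈ R) →
      ActsAbsolutelyIrreducibly (matrixSet R) →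
      (∃ (X : Type) (_ : Fintype X) (T : X → GL ι F),
        LinearIndependent F (fun x => (T x : Matrix ι ι F)) ∧
        (∀ M : Matrix ι ι F, ∃ c : X → F, M = ∑ x, c x • (T x : Matrix ι ι F)) ∧
        (∀ x, T x ∈ R) ∧ (∀ g ∈ R, ∃ x, ∃ w ∈ Subgroup.zpowers η, g = scl w * T x)) →
      (∀ x ∈ R, ∃ μ ∈ Subgroup.zpowers η,
        ∀ u v, D.form ((x : Matrix ι ι F) *ᵥ u) ((x : Matrix ι ι F) *ᵥ v) = ((μ : Fˣ) : F) * D.form u v) →
      Subfield.closure {(η : F)} ≠ ⊤ → InFormSubfield D H := by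
    rintro R η - hRn hRabs ⟨X, _, T, hind, hspan, hT'R, hRT⟩ hμ hF₀
    obtain ⟨F₁, r', hle, hr', hcard'⟩ := exists_prime_index _ hF₀
    have hζmem : ∀ w ∈ Subgroup.zpowers η, (w : F) ∈ F₁ := by
      intro w hw
      obtain ⟨k, rfl⟩ := Subgroup.mem_zpowers_iff.1 hw
      rw [Units.val_zpow_eq_zpow_val]
      exact zpow_mem (hle (Subfield.subset_closure rfl : (η : F) ∈ Subfield.closure {(η : F)})) k
    obtain ⟨B, hB⟩ := exists_realisation F₁ (fun x => (T x : Matrix ι ι F)) hspan hind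
      (fun x y => by
        obtain ⟨x', w, hw, hxy⟩ := hRT _ (R.mul_mem (hT'R x) (hT'R y))
        refine ⟨w, hζmem w hw, x', ?_⟩
        rw [← Units.val_mul, show T x * T y = _ from hxy, coe_scl_mul])
      (by
        obtain ⟨x', w, hw, h1⟩ := hRT 1 R.one_mem
        refine ⟨w, hζmem w hw, x', ?_⟩
        rw [← Units.val_one, show (1 : GL ι F) = _ from h1, coe_scl_mul])
    refine inFormSubfield_of D hRn hRabs hr' hcard' B (fun g hg => ?_) fun g hg => ?_
    · obtain ⟨x, w, hw, rfl⟩ := hRT g hg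
      intro i j
      rw [coe_scl_mul, mul_smul_comm, smul_mul_assoc, Matrix.smul_apply, smul_eq_mul]
      exact F₁.mul_mem (hζmem w hw) (hB x i j)
    · obtain ⟨μ, hμm, hμf⟩ := hμ g hg
      exact ⟨μ, hζmem μ hμm, hμf⟩
  have hconj : ∀ R : Subgroup (GL ι F), (∀ h ∈ H, ∀ x ∈ R, h * x * h⁻¹ ∈ R) → H ≤ subgroupNormalizer R := by
    intro R hRn h hh
    rw [subgroupNormalizer, Subgroup.mem_normalizer_iff]
    refine fun x => ⟨fun hx => hRn h hh x hx, fun hx => ?_⟩
    have := hRn h⁻¹ (H.inv_mem hh) _ hx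
    simpa [mul_assoc] using this
  have hG₀n : ∀ h ∈ H, ∀ x ∈ G₀, h * x * h⁻¹ ∈ G₀ := by
    intro h hh x hx
    obtain ⟨y, hy, c, rfl⟩ := hmem₀ x hx
    have : h * (y * scl c) * h⁻¹ = (h * y * h⁻¹) * scl c := by
      rw [← mul_assoc, mul_assoc (h * y), scalars_commute (scl_mem c) h⁻¹, ← mul_assoc]
    rw [this]
    exact Subgroup.mul_mem _ (le_sup_left (b := scalars ι F) (hN.2 h hh y hy)) (le_sup_right (a := N) (scl_mem c))
  by_cases hid : D.σ = RingHom.id F
  · -- bilinear forms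
    have hcc : ∀ c : Fˣ, scl c ∈ D.isom → c ^ 2 = 1 := fun c hc => by
      have h1 := (hsclisom c).1 hc
      rw [hid] at h1
      apply Units.ext
      rw [Units.val_pow_eq_pow_val, sq, Units.val_one]
      exact h1
    obtain rfl : r = 2 := by
      obtain ⟨c, hc⟩ := hGcomm a ha b hb
      have hr1 : c ^ r = 1 := hωall a (le_sup_left (b := scalars ι F) ha) b (le_sup_left (b := scalars ι F) hb) c hc
      have hne : c ≠ 1 := by
        rintro rfl
        rw [show (scl 1 : GL ι F) = 1 from map_one _, one_mul] at hc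
        exact hab hc.symm
      have h2 : c ^ 2 = 1 := by
        refine hcc c ?_
        have : scl c = b * a * b⁻¹ * a⁻¹ := by rw [hc]; simp [mul_assoc]
        rw [this]
        exact mul_mem (mul_mem (mul_mem (hH (hN.1 hb)) (hH (hN.1 ha))) (inv_mem (hH (hN.1 hb))))
          (inv_mem (hH (hN.1 ha)))
      have : Fact r.Prime := ⟨hr⟩
      have ho := orderOf_eq_prime hr1 hne
      have := orderOf_dvd_of_pow_eq_one h2
      rw [ho] at this
      exact (Nat.prime_dvd_prime_iff_eq hr Nat.prime_two).1 this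
    have hωsq : ω ^ 2 = 1 := hω ▸ pow_orderOf_eq_one ω
    have hsq1 : ∀ c : Fˣ, c ^ 2 = 1 → c ∈ Subgroup.zpowers ω := by
      intro c hc
      have hp' : IsPrimitiveRoot ω 2 := hω ▸ IsPrimitiveRoot.orderOf ω
      rw [hp'.zpowers_eq]
      exact (mem_rootsOfUnity 2 c).2 hc
    have hωisom : (scl ω : GL ι F) ∈ D.isom := (hsclisom ω).2 (by
      rw [hid, RingHom.id_apply, ← sq, ← Units.val_pow_eq_pow_val, hωsq, Units.val_one])
    let R : Subgroup (GL ι F) := G₀ ⊓ D.isom
    have hRG : R ≤ G₀ := inf_le_left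
    have hRn : ∀ h ∈ H, ∀ x ∈ R, h * x * h⁻¹ ∈ R := fun h hh x hx =>
      Subgroup.mem_inf.2 ⟨hG₀n h hh x hx.1, D.isom.mul_mem (D.isom.mul_mem (hH hh) hx.2) (D.isom.inv_mem (hH hh))⟩
    have hsqR : ∀ x ∈ R, x ^ 4 = 1 := by
      intro x hx
      obtain ⟨c, hc⟩ := exists_scl (hpow₀ x hx.1)
      have h1 : c ^ 2 = 1 := hcc c (hc ▸ pow_mem hx.2 2)
      rw [show 4 = 2 * 2 from rfl, pow_mul, hc, ← scl_pow, h1]
      exact map_one _
    have hRscal : ∀ c : Fˣ, scl c ∈ R ↔ c ∈ Subgroup.zpowers ω := by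
      intro c
      refine ⟨fun h => hsq1 c (hcc c h.2), fun h => ⟨le_sup_right (a := N) (scl_mem c), ?_⟩⟩
      obtain ⟨k, rfl⟩ := Subgroup.mem_zpowers_iff.1 h
      rw [show (scl (ω ^ k) : GL ι F) = scl ω ^ k from map_zpow _ ω k]
      exact zpow_mem hωisom k
    have hscale : ∀ x ∈ N ⊔ scalars ι F, ∃ c : Fˣ, scl c * x ∈ R := by
      intro x hx
      obtain ⟨y, hy, c, rfl⟩ := hmem₀ x hx
      refine ⟨c⁻¹, ?_⟩
      rw [← scalars_commute (scl_mem c), ← mul_assoc, ← scl_mul, inv_mul_cancel,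
        show (scl 1 : GL ι F) = 1 from map_one _, one_mul]
      exact ⟨le_sup_left (b := scalars ι F) hy, hH (hN.1 hy)⟩
    obtain ⟨hst, hRabs, hcen, ⟨m, hm, hm1, hcR⟩, hT⟩ :=
      typeTwo_tail hn3 hN hns henv hmin hcomm hr hMr (d := 4) (by norm_num) hω (Or.inr (Or.inr ⟨rfl, rfl⟩))
        hRG hRn hsqR hRscal hscale
    by_cases hF₀ : Subfield.closure {(ω : F)} = ⊤
    swap
    · exact Or.inl (hsubfield R ω hRG hRn hRabs hT (fun x hx => ⟨1, one_mem _, fun u v => by
        rw [Units.val_one, one_mul]; exact hx.2 u v⟩) hF₀)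
    right
    have hωm : (ω : F) = -1 := by
      have h1 := congrArg (fun v : Fˣ => (v : F)) hωsq
      simp only [Units.val_pow_eq_pow_val, Units.val_one, sq_eq_one_iff] at h1
      exact h1.resolve_left fun e => by
        rw [show ω = 1 from Units.ext e, orderOf_one] at hω
        omega
    have hcardF : Fintype.card F ≤ p ^ 1 := card_le_of_fixed le_rfl hF₀ (by
      rw [pow_one, hωm]
      exact (hpp.eq_two_or_odd'.resolve_left fun e => hrp e.symm).neg_one_pow)
    have he1 : (e : ℕ) = 1 := by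
      rw [he] at hcardF
      have := (Nat.pow_le_pow_iff_right hpp.one_lt).1 hcardF
      have := e.pos
      omega
    refine ⟨2, R, p, 1, m, hst, hRabs, fun x hx => ⟨1, fun u v => by rw [Units.val_one, one_mul]; exact hx.2 u v⟩,
      hrp, ⟨hpp, hp, by rw [he, he1], ?_, fun d hd hd1 => by omega⟩, hm, hm1, by rw [hcen]; exact hcR,
      hconj R hRn, Or.inr (Or.inr ⟨hid, rfl, hcen, by rw [he, he1, pow_one], fun x hx => hx.2⟩)⟩
    rw [hcen, pow_one]
    obtain ⟨j, hj⟩ := hpp.eq_two_or_odd'.resolve_left fun e => hrp e.symm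
    exact ⟨j, by omega⟩
  -- sesquilinear forms
  let R : Subgroup (GL ι F) :=
    { carrier := {x | x ∈ G₀ ∧ x ^ d = 1}
      one_mem' := ⟨G₀.one_mem, one_pow _⟩
      mul_mem' := fun {x y} hx hy => by
        refine ⟨G₀.mul_mem hx.1 hy.1, ?_⟩
        obtain ⟨c, hc⟩ := exists_scl (hcomm₀ y hy.1 x hx.1)
        have hc' : y * x = scl c * (x * y) := by rw [← hc]; simp [mul_assoc]
        rw [mul_pow_comm hc' (fun g => scalars_commute (scl_mem c) g), hx.2, hy.2]
        obtain ⟨j, hj⟩ := hrchoose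
        rw [← scl_pow, hj, pow_mul, hωall x hx.1 y hy.1 c hc', one_pow,
          show (scl 1 : GL ι F) = 1 from map_one _]
        simp
      inv_mem' := fun {x} hx => ⟨G₀.inv_mem hx.1, by rw [inv_pow, hx.2, inv_one]⟩ }
  have hRn : ∀ h ∈ H, ∀ x ∈ R, h * x * h⁻¹ ∈ R := by
    intro h hh x hx
    refine ⟨?_, by rw [conj_pow, hx.2, mul_one, mul_inv_cancel]⟩
    obtain ⟨y, hy, c, rfl⟩ := hmem₀ x hx.1
    have : h * (y * scl c) * h⁻¹ = (h * y * h⁻¹) * scl c := by
      rw [← mul_assoc, mul_assoc (h * y), scalars_commute (scl_mem c) h⁻¹, ← mul_assoc]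
    rw [this]
    exact Subgroup.mul_mem _ (le_sup_left (b := scalars ι F) (hN.2 h hh y hy)) (le_sup_right (a := N) (scl_mem c))
  -- every element is a scalar multiple of one killed by d
  have hscale : ∀ x ∈ G₀, ∃ c : Fˣ, (scl c * x) ^ d = 1 := by
    have hsm : ∀ (c : Fˣ) (x : GL ι F) (k : ℕ), (scl c * x) ^ k = scl (c ^ k) * x ^ k := fun c x k => by
      rw [(show Commute (scl c) x from scalars_commute (scl_mem c) x).mul_pow, scl_pow]
    -- reduction to the power map into units modulo r-th powers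
    by_cases hspec : r = 2 ∧ z = 2
    · intro x hx
      obtain ⟨u, hu⟩ := exists_scl (hpow₀ x hx)
      obtain ⟨rfl, hz2⟩ := hspec
      have hd4 : d = 4 := by rw [hd]; norm_num
      let sq : Fˣ →* Fˣ := powMonoidHom 2
      have hidx : sq.range.index ∣ 2 := by
        rw [IsCyclic.index_powMonoidHom_range]; exact Nat.gcd_dvd_right _ _
      have hm1 : ((-1 : Fˣ)) ∉ sq.range := by
        rintro ⟨i, hi⟩
        have hi' : i ^ 2 = -1 := hi
        have h4 : orderOf i = 4 := by
          refine orderOf_eq_prime_pow (p := 2) (n := 1) ?_ ?_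
          · rw [pow_one, hi']
            intro h
            have h1 : (2 : F) = 0 := by
              have := congrArg (fun v : Fˣ => (v : F)) h
              simp only [Units.val_neg, Units.val_one] at this
              linear_combination -this
            have : ω = 1 := by
              have hw : ω ^ 2 = 1 := hω ▸ pow_orderOf_eq_one ω
              have hw' := congrArg (fun v : Fˣ => (v : F)) hw
              simp only [Units.val_pow_eq_pow_val, Units.val_one] at hw'
              apply Units.ext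
              have : ((ω : F) - 1) * ((ω : F) - 1) = 0 := by linear_combination hw' - ((ω : F) - 1) * h1
              rw [Units.val_one]
              exact sub_eq_zero.1 (mul_self_eq_zero.1 this)
            rw [this, orderOf_one] at hω
            omega
          · rw [show (2 : ℕ) ^ (1 + 1) = 2 * 2 from rfl, pow_mul, hi', neg_one_sq]
        have : i ∈ Subgroup.zpowers ζ := hroots i (by rw [hd4, ← h4, pow_orderOf_eq_one])
        have := orderOf_dvd_of_mem_zpowers this
        rw [h4, hζ, hz2] at this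
        omega
      have hsel : u ∈ sq.range ∨ -u ∈ sq.range := by
        by_contra hne
        push Not at hne
        have hidx' : sq.range.index ≠ 1 := fun h1 => hm1 (Subgroup.index_eq_one.1 h1 ▸ Subgroup.mem_top _)
        have h2 := (Nat.prime_two.eq_one_or_self_of_dvd _ hidx).resolve_left hidx'
        have := (Subgroup.mul_mem_iff_of_index_two h2 (a := -1) (b := u)).2
          ⟨fun h => absurd h hm1, fun h => absurd h hne.1⟩
        rw [neg_one_mul] at this
        exact hne.2 this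
      rcases hsel with ⟨v, hv⟩ | ⟨v, hv⟩
      · refine ⟨v⁻¹, ?_⟩
        rw [hd4, show 4 = 2 * 2 from rfl, pow_mul, hsm, hu, ← scl_mul, ← scl_pow]
        have hv' : v ^ 2 = u := hv
        rw [← hv', inv_pow, inv_mul_cancel, one_pow]
        exact map_one _
      · refine ⟨v⁻¹, ?_⟩
        rw [hd4, show 4 = 2 * 2 from rfl, pow_mul, hsm, hu, ← scl_mul, ← scl_pow]
        have hv' : v ^ 2 = -u := hv
        rw [inv_pow, hv', inv_neg, neg_mul, inv_mul_cancel, neg_one_sq]
        exact map_one _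
    · -- the commutator values are r-th powers after squaring
      have hωpow : ∀ c : Fˣ, c ^ r = 1 → ∃ w : Fˣ, w ^ r = c ^ (r.choose 2) := by
        intro c hc
        rcases hzcases with ⟨hodd, -⟩ | ⟨h2, hz4⟩ | h
        · refine ⟨1, ?_⟩
          have hdiv : r ∣ r.choose 2 := by
            refine hr.dvd_choose_self (by norm_num) ?_
            obtain ⟨j, hj⟩ := hodd
            have := hr.two_le
            omega
          obtain ⟨j, hj⟩ := hdiv
          rw [hj, pow_mul, hc, one_pow, one_pow]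
        · subst h2
          rw [Nat.choose_self, pow_one]
          have hζ2 : (ζ ^ 2) ^ 2 = 1 := by rw [← pow_mul, show 2 * 2 = z by omega, ← hζ, pow_orderOf_eq_one]
          have hζn : ζ ^ 2 ≠ 1 := fun h => by
            have := orderOf_dvd_of_pow_eq_one h
            rw [hζ, hz4] at this
            omega
          rcases (show c = 1 ∨ c = ζ ^ 2 by
            have h1 : ∀ w : Fˣ, w ^ 2 = 1 → w = 1 ∨ w = -1 := by
              intro w hw
              have := congrArg (fun v : Fˣ => (v : F)) hw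
              simp only [Units.val_pow_eq_pow_val, Units.val_one, sq_eq_one_iff] at this
              rcases this with h | h
              · exact Or.inl (Units.ext h)
              · exact Or.inr (Units.ext (by simpa using h))
            rcases h1 c hc with h | h
            · exact Or.inl h
            · exact Or.inr (h.trans ((h1 _ hζ2).resolve_left hζn).symm)) with rfl | rfl
          · exact ⟨1, one_pow _⟩
          · exact ⟨ζ, rfl⟩
        · exact absurd h hspec
      let Mc : Subgroup (GL ι F) :=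
        { carrier := {x | x ∈ N ∧ ∃ c : Fˣ, (scl c * x) ^ r = 1}
          one_mem' := ⟨N.one_mem, 1, by rw [hsm, one_pow, one_pow, mul_one]; exact map_one _⟩
          mul_mem' := fun {x y} hx hy => by
            refine ⟨N.mul_mem hx.1 hy.1, ?_⟩
            obtain ⟨c1, h1⟩ := hx.2; obtain ⟨c2, h2⟩ := hy.2
            obtain ⟨c, hc⟩ := hGcomm x hx.1 y hy.1
            obtain ⟨w, hw⟩ := hωpow c (hωall x (le_sup_left (b := scalars ι F) hx.1) y
              (le_sup_left (b := scalars ι F) hy.1) c hc)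
            refine ⟨c1 * c2 * w⁻¹, ?_⟩
            rw [hsm] at h1 h2 ⊢
            rw [mul_pow_comm hc (fun g => scalars_commute (scl_mem c) g), ← scl_pow, ← hw,
              ← mul_assoc, ← scl_mul, mul_pow, inv_pow, inv_mul_cancel_right, mul_pow, scl_mul]
            calc scl (c1 ^ r) * scl (c2 ^ r) * (x ^ r * y ^ r)
                = scl (c1 ^ r) * (scl (c2 ^ r) * x ^ r) * y ^ r := by simp [mul_assoc]
              _ = scl (c1 ^ r) * (x ^ r * scl (c2 ^ r)) * y ^ r := by rw [scalars_commute (scl_mem _) (x ^ r)]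
              _ = (scl (c1 ^ r) * x ^ r) * (scl (c2 ^ r) * y ^ r) := by simp [mul_assoc]
              _ = 1 := by rw [h1, h2, one_mul]
          inv_mem' := fun {x} hx => by
            refine ⟨N.inv_mem hx.1, ?_⟩
            obtain ⟨c, hc⟩ := hx.2
            refine ⟨c⁻¹, ?_⟩
            rw [hsm] at hc ⊢
            rw [inv_pow, inv_pow, show (scl (c ^ r)⁻¹ : GL ι F) = (scl (c ^ r))⁻¹ from map_inv _ _,
              ← mul_inv_rev, ← scalars_commute (scl_mem _) (x ^ r), hc, inv_one] }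
      have hMcn : NormalIn H Mc := ⟨fun x hx => hN.1 hx.1, fun h hh x hx => by
        refine ⟨hN.2 h hh x hx.1, ?_⟩
        obtain ⟨c, hc⟩ := hx.2
        refine ⟨c, ?_⟩
        have : scl c * (h * x * h⁻¹) = h * (scl c * x) * h⁻¹ := by
          rw [← mul_assoc, ← mul_assoc, scalars_commute (scl_mem c) h, mul_assoc h]
        rw [this, conj_pow, hc, mul_one, mul_inv_cancel]⟩
      have hfull : Mc = N := by
        refine (hmin Mc hMcn fun x hx => hx.1).resolve_left fun hle => ?_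
        -- the power map would embed N modulo scalars into a group of order r
        let rp : Fˣ →* Fˣ := powMonoidHom r
        choose u hu using fun x : N => exists_scl (hMr x x.2)
        let ψ : N →* Fˣ ⧸ rp.range :=
          { toFun := fun x => QuotientGroup.mk (u x)
            map_one' := by
              have : u 1 = 1 := scl_injective (ι := ι) (by
                rw [← hu 1, OneMemClass.coe_one, one_pow]; exact (map_one _).symm)
              rw [this]; rfl
            map_mul' := fun x y => by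
              obtain ⟨c, hc⟩ := hGcomm x x.2 y y.2
              obtain ⟨w, hw⟩ := hωpow c (hωall x (le_sup_left (b := scalars ι F) x.2) y
                (le_sup_left (b := scalars ι F) y.2) c hc)
              have : u (x * y) = w ^ r * (u x * u y) := scl_injective (ι := ι) (by
                rw [← hu (x * y), Subgroup.coe_mul, mul_pow_comm hc (fun g => scalars_commute (scl_mem c) g),
                  hu x, hu y, ← scl_pow, ← hw, ← scl_mul, ← scl_mul])
              rw [this, QuotientGroup.mk_mul, QuotientGroup.mk_mul,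
                (QuotientGroup.eq_one_iff (N := rp.range) (w ^ r)).2 ⟨w, rfl⟩, one_mul] }
        have hker : ∀ x : N, ψ x = 1 → (x : GL ι F) ∈ scalars ι F := by
          intro x hx
          obtain ⟨v, hv⟩ := (QuotientGroup.eq_one_iff (N := rp.range) _).1 hx
          refine hle (⟨x.2, v⁻¹, ?_⟩ : (x : GL ι F) ∈ Mc)
          have hv' : v ^ r = u x := hv
          rw [hsm, hu x, ← hv', inv_pow, ← scl_mul, inv_mul_cancel]
          exact map_one _
        -- a quotient of prime order at most makes N commutative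
        have hcard : Nat.card (Fˣ ⧸ rp.range) ∣ r := by
          rw [← Subgroup.index_eq_card, IsCyclic.index_powMonoidHom_range]
          exact Nat.gcd_dvd_right _ _
        have hcyc : IsCyclic (Fˣ ⧸ rp.range) := inferInstance
        have : Fact r.Prime := ⟨hr⟩
        obtain ⟨x₀, hx₀⟩ : ∃ x₀ : N, ψ x₀ ≠ 1 := by
          by_contra hne
          push Not at hne
          exact hns fun x hx => hker ⟨x, hx⟩ (hne _)
        have hgen : Subgroup.zpowers (ψ x₀) = ⊤ := by
          have hcard' : Nat.card (Fˣ ⧸ rp.range) = r :=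
            (hr.eq_one_or_self_of_dvd _ hcard).resolve_left fun h1 => hx₀ (by
              have := (Nat.card_eq_one_iff_unique.1 h1).1
              exact Subsingleton.elim _ _)
          exact zpowers_eq_top_of_prime_card hcard' hx₀
        apply hab
        have hstep : ∀ x : N, ∃ (k : ℤ) (c : Fˣ), (x : GL ι F) = scl c * (x₀ : GL ι F) ^ k := by
          intro x
          obtain ⟨k, hk⟩ := Subgroup.mem_zpowers_iff.1 (hgen ▸ Subgroup.mem_top (ψ x))
          refine ⟨k, ?_⟩
          obtain ⟨c, hc⟩ := exists_scl (hker (x * (x₀ ^ k)⁻¹) (by rw [map_mul, map_inv, map_zpow, hk, mul_inv_cancel]))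
          refine ⟨c, ?_⟩
          rw [Subgroup.coe_mul, Subgroup.coe_inv, Subgroup.coe_zpow] at hc
          rw [← hc, inv_mul_cancel_right]
        obtain ⟨k, c, hk⟩ := hstep ⟨a, ha⟩
        obtain ⟨l, c', hl⟩ := hstep ⟨b, hb⟩
        rw [show a = _ from hk, show b = _ from hl]
        have hz1 : Commute (scl c : GL ι F) (scl c' * (x₀ : GL ι F) ^ l) := scalars_commute (scl_mem c) _
        have hz2 : Commute ((x₀ : GL ι F) ^ k) (scl c' : GL ι F) := (scalars_commute (scl_mem c') _).symm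
        exact (hz1.mul_left (hz2.mul_right ((Commute.refl _).zpow_zpow k l))).eq
      intro x hx
      obtain ⟨y, hy, c, rfl⟩ := hmem₀ x hx
      rw [← hfull] at hy
      obtain ⟨c', hc'⟩ := hy.2
      refine ⟨c' * c⁻¹, ?_⟩
      have : scl (c' * c⁻¹) * (y * scl c) = scl c' * y := by
        calc scl (c' * c⁻¹) * (y * scl c) = scl c' * (scl c⁻¹ * y) * scl c := by rw [scl_mul]; simp [mul_assoc]
          _ = scl c' * (y * scl c⁻¹) * scl c := by rw [scalars_commute (scl_mem c⁻¹) y]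
          _ = scl c' * y * scl (c⁻¹ * c) := by rw [scl_mul]; simp [mul_assoc]
          _ = scl c' * y := by rw [inv_mul_cancel, show (scl 1 : GL ι F) = 1 from map_one _, mul_one]
      obtain ⟨j, hj⟩ := hrd
      rw [this, hj, pow_mul, hc', one_pow]
  have hRG : R ≤ G₀ := fun x hx => hx.1
  -- scalars in R
  have hRscal : ∀ c : Fˣ, scl c ∈ R ↔ c ∈ Subgroup.zpowers ζ := by
    intro c
    constructor
    · intro h
      apply hroots
      apply scl_injective (ι := ι)
      rw [scl_pow, h.2]; exact (map_one _).symm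
    · intro h
      refine ⟨le_sup_right (a := N) (scl_mem c), ?_⟩
      rw [← scl_pow, show c ^ d = 1 from ?_]
      · exact map_one _
      · exact orderOf_dvd_iff_pow_eq_one.1 ((orderOf_dvd_of_mem_zpowers h).trans (hζ ▸ hzd))
  obtain ⟨hst, hRabs, hcen, ⟨m, hm, hm1, hcR⟩, hT⟩ :=
    typeTwo_tail hn3 hN hns henv hmin hcomm hr hMr hd hζ hzcases hRG hRn (fun x hx => hx.2) hRscal
      (fun x hx => by
        obtain ⟨c, hc⟩ := hscale x hx
        exact ⟨c, mul_mem (le_sup_right (a := N) (scl_mem c)) hx, hc⟩)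
  have hμR : ∀ x ∈ R, ∃ μ ∈ Subgroup.zpowers ζ, D.σ (μ : F) = μ ∧
      ∀ u v, D.form ((x : Matrix ι ι F) *ᵥ u) ((x : Matrix ι ι F) *ᵥ v) = ((μ : Fˣ) : F) * D.form u v := by
    intro x hx
    obtain ⟨μ, h1, h2, h3⟩ := hmult x hx.1 d hx.2
    exact ⟨μ, hroots μ h1, h2, h3⟩
  by_cases hF₀ : Subfield.closure {(ζ : F)} = ⊤
  swap
  · exact Or.inl (hsubfield R ζ hRG hRn hRabs hT (fun x hx => by
      obtain ⟨μ, h1, -, h3⟩ := hμR x hx
      exact ⟨μ, h1, h3⟩) hF₀)
  right
  obtain ⟨K, hK, hKcard⟩ := card_eq_sq_fixed D.σ D.invol hid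
  have he2 : Even (e : ℕ) := by
    obtain ⟨j, -, hj⟩ := (Nat.dvd_prime_pow hpp).1 (show Nat.card K ∣ p ^ (e : ℕ) by
      rw [← he, hKcard]; exact dvd_pow_self _ two_ne_zero)
    rw [hj, he, ← pow_mul] at hKcard
    exact ⟨j, by have := Nat.pow_right_injective hpp.two_le hKcard; omega⟩
  have hzprim : ∀ k, 1 ≤ k → k < (e : ℕ) → ((ζ : F) ^ p ^ k) ≠ (ζ : F) := by
    intro k hk hke hfix
    have := card_le_of_fixed hk hF₀ hfix
    rw [he] at this
    exact absurd ((Nat.pow_le_pow_iff_right hpp.one_lt).1 this) (by omega)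
  have hfixiff : ∀ k, z ∣ p ^ k - 1 → (ζ : F) ^ p ^ k = (ζ : F) := by
    intro k hk
    have h1 : ζ ^ (p ^ k - 1) = 1 := orderOf_dvd_iff_pow_eq_one.1 (hζ ▸ hk)
    have : ζ ^ p ^ k = ζ := by
      conv_lhs => rw [show p ^ k = p ^ k - 1 + 1 from (Nat.succ_pred_eq_of_pos (pow_pos hpp.pos k)).symm]
      rw [pow_succ, h1, one_mul]
    exact congrArg Units.val this
  have hze : z ∣ p ^ (e : ℕ) - 1 := by
    rw [← he, ← hζ, ← Fintype.card_units]
    exact orderOf_dvd_card
  have hmin' : IsMinimalFieldFor (Nat.card (Subgroup.center R)) p e F := by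
    rw [hcen]
    exact ⟨hpp, hp, he, hze, fun k hk hke hdiv => hzprim k hk hke (hfixiff k hdiv)⟩
  have hsim : R ≤ similarityGroup D.form := fun x hx => by
    obtain ⟨μ, -, -, h3⟩ := hμR x hx
    exact ⟨μ, h3⟩
  refine ⟨r, R, p, e, m, hst, hRabs, hsim, hrp, hmin', hm, hm1, by rw [hcen]; exact hcR, hconj R hRn, ?_⟩
  rcases hzcases with ⟨hodd, hzr⟩ | ⟨hr2, hz4⟩ | ⟨hr2, hz2⟩
  · refine Or.inl ⟨hid, hodd, hcen.trans hzr, fun x hx => ?_⟩
    obtain ⟨μ, hμ1, hμ2, hμ3⟩ := hμR x hx
    have hμone : μ = 1 := by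
      by_contra hne
      have : Fact r.Prime := ⟨hr⟩
      have hζpow : ζ ^ r = 1 := by rw [← hzr, ← hζ, pow_orderOf_eq_one]
      have hμr : μ ^ r = 1 := by
        obtain ⟨k, rfl⟩ := Subgroup.mem_zpowers_iff.1 hμ1
        rw [← zpow_natCast, ← zpow_mul, mul_comm, zpow_mul, zpow_natCast, hζpow, one_zpow]
      have hgen : ζ ∈ Subgroup.zpowers μ := by
        have hp' : IsPrimitiveRoot μ r := orderOf_eq_prime hμr hne ▸ IsPrimitiveRoot.orderOf μ
        have : NeZero r := ⟨hr.ne_zero⟩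
        rw [hp'.zpowers_eq]
        exact (mem_rootsOfUnity r ζ).2 hζpow
      apply hid
      ext y
      have hle : Subfield.closure {(ζ : F)} ≤ RingHom.eqLocusField D.σ (RingHom.id F) :=
        Subfield.closure_le.2 (by
          rintro w rfl
          obtain ⟨k, hk⟩ := Subgroup.mem_zpowers_iff.1 hgen
          show D.σ (ζ : F) = (ζ : F)
          rw [← hk, Units.val_zpow_eq_zpow_val, map_zpow₀, hμ2])
      exact hle (hF₀ ▸ Subfield.mem_top y)
    intro u v
    show D.form ((x : Matrix ι ι F) *ᵥ u) ((x : Matrix ι ι F) *ᵥ v) = D.form u v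
    rw [hμ3, hμone, Units.val_one, one_mul]
  · refine Or.inr (Or.inl ⟨hid, hr2, ?_, hcen.trans hz4⟩)
    have h4 : ζ ^ p ^ 2 = ζ := by
      apply Units.ext
      rw [Units.val_pow_eq_pow_val]
      refine hfixiff 2 ?_
      rw [hz4]
      obtain ⟨j, rfl⟩ := hpp.eq_two_or_odd'.resolve_left fun h => hrp (h.trans hr2.symm).symm
      exact ⟨j * j + j, by
        have : (2 * j + 1) ^ 2 = 4 * (j * j + j) + 1 := by ring
        omega⟩
    have hle := card_le_of_fixed (k := 2) (by norm_num) hF₀ (by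
      rw [← Units.val_pow_eq_pow_val, h4])
    rw [he] at hle
    have := (Nat.pow_le_pow_iff_right hpp.one_lt).1 hle
    have := e.pos
    obtain ⟨j, hj⟩ := he2
    omega
  · exfalso
    obtain ⟨j, hj⟩ := hpp.eq_two_or_odd'.resolve_left fun h => hrp (h.trans hr2.symm).symm
    obtain ⟨l, hl⟩ := he2
    have h8 : 4 ∣ Fintype.card Fˣ := by
      rw [Fintype.card_units, he, hl, ← two_mul, pow_mul]
      have : p ^ 2 % 4 = 1 := by rw [hj, Nat.pow_mod]; rcases (show (2 * j + 1) % 4 = 1 ∨ (2 * j + 1) % 4 = 3 by omega) with h | h <;> simp [h]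
      have h9 : (p ^ 2) ^ l % 4 = 1 := by simp [Nat.pow_mod, this]
      omega
    obtain ⟨i, hi⟩ := IsCyclic.exists_generator (α := Fˣ)
    have hoi : orderOf i = Fintype.card Fˣ := (orderOf_eq_card_of_forall_mem_zpowers hi).trans Nat.card_eq_fintype_card
    obtain ⟨t, ht⟩ := h8
    have ht0 : t ≠ 0 := fun h0 => by
      rw [h0, mul_zero] at ht
      exact Fintype.card_ne_zero ht
    have ho4 : orderOf (i ^ t) = 4 := by
      rw [orderOf_pow' i ht0, hoi, ht, Nat.gcd_mul_left_left, Nat.mul_div_cancel _ (Nat.pos_of_ne_zero ht0)]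
    have hmem : i ^ t ∈ Subgroup.zpowers ζ := hroots _ (by
      rw [show d = 4 by rw [hd, hr2]; rfl, ← ho4, pow_orderOf_eq_one])
    have := orderOf_dvd_of_mem_zpowers hmem
    rw [ho4, hζ, hz2] at this
    omega

end Cfsg.Agent.H99.Asch
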